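import Cfsg.Agent.Lib.Blocks.Third
import Cfsg.Agent.Lib.Char.Clifford

/-!
# The principal block of a central product
-/

set_option autoImplicit false
set_option linter.unusedSectionVars false

namespace Cfsg.Agent.Lib.Blocks

open Cfsg Cfsg.Agent.Lib.Char
open scoped ComplexConjugate

universe u

section

variable {G : Type u} [Group G] [Fintype G] {M : Ideal AlgInt} {p : ℕ} [hp : Fact p.Prime]
  {U₁ U₂ : Subgroup G}

theorem normal_of_commuting_sup (hcomm : ∀ u ∈ U₁, ∀ v ∈ U₂, u * v = v * u) (hgen : U₁ ⊔ U₂ = ⊤) :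
    U₁.Normal := by
  rw [← Subgroup.normalizer_eq_top_iff, eq_top_iff, ← hgen]
  refine sup_le Subgroup.le_normalizer ?_
  intro v hv
  rw [Subgroup.mem_normalizer_iff]
  intro h
  constructor
  · intro hh
    have : v * h * v⁻¹ = h := by
      rw [← hcomm h hh v hv, mul_inv_cancel_right]
    rwa [this]
  · intro hh
    have h1 : v⁻¹ * (v * h * v⁻¹) * v = h := by group
    have h2 : v⁻¹ * (v * h * v⁻¹) * v = v * h * v⁻¹ := by
      calc v⁻¹ * (v * h * v⁻¹) * v = v⁻¹ * ((v * h * v⁻¹) * v) := by group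
        _ = v⁻¹ * (v * (v * h * v⁻¹)) := by rw [hcomm _ hh v hv]
        _ = v * h * v⁻¹ := by group
    rw [h1] at h2
    rwa [h2]

theorem exists_mul_of_commuting_sup (hcomm : ∀ u ∈ U₁, ∀ v ∈ U₂, u * v = v * u) (hgen : U₁ ⊔ U₂ = ⊤) (g : G) :
    ∃ u ∈ U₁, ∃ v ∈ U₂, g = u * v := by
  haveI := normal_of_commuting_sup hcomm hgen
  have h1 : g ∈ ((U₂ ⊔ U₁ : Subgroup G) : Set G) := by
    rw [sup_comm, hgen]
    simp
  rw [Subgroup.mul_normal U₂ U₁] at h1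
  obtain ⟨v, hv, u, hu, rfl⟩ := Set.mem_mul.mp h1
  exact ⟨u, hu, v, hv, (hcomm u hu v hv).symm⟩

variable [Fintype U₁] [Fintype U₂]

/-- The restriction is a multiple of one irreducible character. -/
theorem res_ratio_of_commuting_sup (hcomm : ∀ u ∈ U₁, ∀ v ∈ U₂, u * v = v * u) (hgen : U₁ ⊔ U₂ = ⊤)
    (χ : IrrCharacter G) (ψ : IrrCharacter U₁)
    (h : classInner (fun u : U₁ => (χ : G → ℂ) u) (ψ : U₁ → ℂ) ≠ 0) (u : U₁) :
    (χ : G → ℂ) u * (ψ : U₁ → ℂ) 1 = (χ : G → ℂ) 1 * (ψ : U₁ → ℂ) u := by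
  classical
  haveI := normal_of_commuting_sup hcomm hgen
  have hinv : ∀ g : G, conjFun U₁ g (ψ : U₁ → ℂ) = (ψ : U₁ → ℂ) := by
    intro g
    obtain ⟨c, hc, v, hv, rfl⟩ := exists_mul_of_commuting_sup hcomm hgen g
    funext n
    rw [conjFun_apply]
    have hw : c⁻¹ * (n : G) * c ∈ U₁ := U₁.mul_mem (U₁.mul_mem (U₁.inv_mem hc) n.2) hc
    have h1 : (c * v)⁻¹ * (n : G) * (c * v) = c⁻¹ * n * c := by
      calc (c * v)⁻¹ * (n : G) * (c * v) = v⁻¹ * ((c⁻¹ * n * c) * v) := by group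
        _ = v⁻¹ * (v * (c⁻¹ * n * c)) := by rw [hcomm _ hw v hv]
        _ = c⁻¹ * n * c := by group
    have h5 := irr_isClassFunction ψ n ⟨c, hc⟩⁻¹
    rw [← h5]
    exact congrArg _ (Subtype.ext (h1.trans (by simp)))
  have h1 := clifford_sum U₁ χ.2 ψ.2 h u
  have h1' := clifford_sum U₁ χ.2 ψ.2 h 1
  have hI : inertia U₁ (ψ : U₁ → ℂ) = ⊤ := by
    rw [eq_top_iff]
    intro g _
    rw [mem_inertia]
    exact hinv g
  rw [hI] at h1 h1'
  simp only [hinv] at h1 h1'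
  simp only [Finset.sum_const, Finset.card_univ, nsmul_eq_mul] at h1 h1'
  have hc : ((Nat.card (⊤ : Subgroup G) : ℕ) : ℂ) = ((Fintype.card G : ℕ) : ℂ) := by
    rw [Nat.card_congr (Subgroup.topEquiv (G := G)).toEquiv, Nat.card_eq_fintype_card]
  rw [hc] at h1 h1'
  have hG : ((Fintype.card G : ℕ) : ℂ) ≠ 0 := by exact_mod_cast Fintype.card_ne_zero
  set m := classInner (fun u : U₁ => (χ : G → ℂ) u) (ψ : U₁ → ℂ) with hm
  have h2 : (χ : G → ℂ) u = m * (ψ : U₁ → ℂ) u := by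
    apply mul_left_cancel₀ hG
    rw [h1]
    ring
  have h3 : (χ : G → ℂ) ((1 : U₁) : G) = m * (ψ : U₁ → ℂ) 1 := by
    apply mul_left_cancel₀ hG
    rw [h1']
    ring
  have h4 : (χ : G → ℂ) 1 = m * (ψ : U₁ → ℂ) 1 := by simpa using h3
  rw [h2, h4]
  ring

/-- The values multiply on a commuting product. -/
theorem irr_mul_of_commuting_sup (hcomm : ∀ u ∈ U₁, ∀ v ∈ U₂, u * v = v * u) (hgen : U₁ ⊔ U₂ = ⊤)
    (χ : IrrCharacter G) {u v : G} (hu : u ∈ U₁) (hv : v ∈ U₂) :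
    (χ : G → ℂ) (u * v) * (χ : G → ℂ) 1 = (χ : G → ℂ) u * (χ : G → ℂ) v := by
  classical
  -- the class of `u` in `U₁` is a class of `G` by the commuting property
  let a : G → ℂ := fun x => if ∃ c ∈ U₁, c * u * c⁻¹ = x then 1 else 0
  have hcls : ∀ x y : G, (∃ c ∈ U₁, c * u * c⁻¹ = y * x * y⁻¹) ↔ (∃ c ∈ U₁, c * u * c⁻¹ = x) := by
    have key : ∀ x y : G, (∃ c ∈ U₁, c * u * c⁻¹ = x) → (∃ c ∈ U₁, c * u * c⁻¹ = y * x * y⁻¹) := by
      rintro x y ⟨c, hc, rfl⟩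
      obtain ⟨c', hc', v', hv', rfl⟩ := exists_mul_of_commuting_sup hcomm hgen y
      refine ⟨c' * c, U₁.mul_mem hc' hc, ?_⟩
      have hw : c * u * c⁻¹ ∈ U₁ := U₁.mul_mem (U₁.mul_mem hc hu) (U₁.inv_mem hc)
      calc c' * c * u * (c' * c)⁻¹ = c' * (c * u * c⁻¹) * c'⁻¹ := by group
        _ = c' * (v' * (c * u * c⁻¹) * v'⁻¹) * c'⁻¹ := by
            rw [← hcomm _ hw v' hv', mul_inv_cancel_right]
        _ = c' * v' * (c * u * c⁻¹) * (c' * v')⁻¹ := by group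
    intro x y
    refine ⟨fun h => ?_, key x y⟩
    have h1 := key _ y⁻¹ h
    have h2 : y⁻¹ * (y * x * y⁻¹) * y⁻¹⁻¹ = x := by group
    rwa [h2] at h1
  have ha : IsClassFunction G a := by
    intro x y
    simp only [a, hcls]
  have h1 := spec_mul_apply a ha χ v
  rw [spec] at h1
  have hχ1 : (χ : G → ℂ) 1 ≠ 0 := irr_apply_one_ne_zero χ
  -- the two sums
  let K : Finset G := Finset.univ.filter fun x => ∃ c ∈ U₁, c * u * c⁻¹ = x
  have hs1 : ∑ x, a x * (χ : G → ℂ) x = (K.card : ℂ) * (χ : G → ℂ) u := by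
    rw [← nsmul_eq_mul, ← Finset.sum_const, Finset.sum_filter]
    refine Finset.sum_congr rfl fun x _ => ?_
    by_cases hx : ∃ c ∈ U₁, c * u * c⁻¹ = x
    · simp only [a]
      rw [if_pos hx, if_pos hx, one_mul]
      obtain ⟨c, _, rfl⟩ := hx
      exact irr_isClassFunction χ u c
    · simp only [a]
      rw [if_neg hx, if_neg hx, zero_mul]
  have hs2 : ∑ x, a x * (χ : G → ℂ) (x * v) = (K.card : ℂ) * (χ : G → ℂ) (u * v) := by
    rw [← nsmul_eq_mul, ← Finset.sum_const, Finset.sum_filter]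
    refine Finset.sum_congr rfl fun x _ => ?_
    by_cases hx : ∃ c ∈ U₁, c * u * c⁻¹ = x
    · simp only [a]
      rw [if_pos hx, if_pos hx, one_mul]
      obtain ⟨c, hc, rfl⟩ := hx
      have h2 : c * u * c⁻¹ * v = c * (u * v) * c⁻¹ := by
        calc c * u * c⁻¹ * v = c * u * (c⁻¹ * v) := by group
          _ = c * u * (v * c⁻¹) := by rw [hcomm _ (U₁.inv_mem hc) v hv]
          _ = c * (u * v) * c⁻¹ := by group
      rw [h2]
      exact irr_isClassFunction χ (u * v) c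
    · simp only [a]
      rw [if_neg hx, if_neg hx, zero_mul]
  rw [hs1, hs2] at h1
  have hK : (K.card : ℂ) ≠ 0 := by
    have : 0 < K.card := Finset.card_pos.mpr ⟨u, Finset.mem_filter.mpr ⟨Finset.mem_univ _, 1, U₁.one_mem, by simp⟩⟩
    exact_mod_cast this.ne'
  have h3 : (χ : G → ℂ) (u * v) = (χ : G → ℂ) u / (χ : G → ℂ) 1 * (χ : G → ℂ) v := by
    apply mul_left_cancel₀ hK
    rw [h1]
    ring
  rw [h3]
  field_simp

/-- The regular elements of a central product. -/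
theorem sum_regular_of_commuting_sup (hcomm : ∀ u ∈ U₁, ∀ v ∈ U₂, u * v = v * u) (hgen : U₁ ⊔ U₂ = ⊤)
    (hZ : IsPGroup p ↥(U₁ ⊓ U₂)) (F : G → ℂ) :
    ∑ x : G, regFun p G x * F x =
      ∑ u : U₁, ∑ v : U₂, (regFun p U₁ u * regFun p U₂ v) * F ((u : G) * (v : G)) := by
  classical
  obtain ⟨α, hα⟩ := exists_isPExp G p
  have hreg : ∀ x : G, ¬ p ∣ orderOf x ↔ x ^ α = 1 := fun x => hα.pow_eq_one_iff.symm
  have h1 : ∑ x : G, regFun p G x * F x = ∑ x ∈ Finset.univ.filter (fun x : G => ¬ p ∣ orderOf x), F x := by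
    rw [Finset.sum_filter]
    refine Finset.sum_congr rfl fun x _ => ?_
    by_cases hx : ¬ p ∣ orderOf x
    · simp only [regFun]
      rw [if_pos hx, if_pos hx, one_mul]
    · simp only [regFun]
      rw [if_neg hx, if_neg hx, zero_mul]
  have h2 : ∑ u : U₁, ∑ v : U₂, (regFun p U₁ u * regFun p U₂ v) * F ((u : G) * (v : G)) =
      ∑ q ∈ (Finset.univ.filter fun u : U₁ => ¬ p ∣ orderOf u) ×ˢ (Finset.univ.filter fun v : U₂ => ¬ p ∣ orderOf v),
        F ((q.1 : G) * (q.2 : G)) := by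
    rw [Finset.sum_product, Finset.sum_filter]
    refine Finset.sum_congr rfl fun u _ => ?_
    by_cases hu : ¬ p ∣ orderOf u
    · rw [if_pos hu, Finset.sum_filter]
      refine Finset.sum_congr rfl fun v _ => ?_
      by_cases hv : ¬ p ∣ orderOf v
      · simp only [regFun]
        rw [if_pos hu, if_pos hv, if_pos hv, one_mul, one_mul]
      · simp only [regFun]
        rw [if_neg hv, if_neg hv, mul_zero, zero_mul]
    · rw [if_neg hu]
      refine Finset.sum_eq_zero fun v _ => ?_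
      simp only [regFun]
      rw [if_neg hu, zero_mul, zero_mul]
  rw [h1, h2]
  symm
  refine Finset.sum_nbij (fun q => (q.1 : G) * (q.2 : G)) ?_ ?_ ?_ ?_
  · -- maps to regular elements
    intro q hq
    obtain ⟨hq1, hq2⟩ := Finset.mem_product.mp hq
    have h3 : ¬ p ∣ orderOf (q.1 : G) := by
      rw [Subgroup.orderOf_coe]
      exact (Finset.mem_filter.mp hq1).2
    have h4 : ¬ p ∣ orderOf (q.2 : G) := by
      rw [Subgroup.orderOf_coe]
      exact (Finset.mem_filter.mp hq2).2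
    refine Finset.mem_filter.mpr ⟨Finset.mem_univ _, ?_⟩
    rw [hreg]
    have hc : Commute (q.1 : G) (q.2 : G) := hcomm _ q.1.2 _ q.2.2
    rw [hc.mul_pow, (hreg _).mp h3, (hreg _).mp h4, one_mul]
  · -- injective
    intro q hq q' hq' heq
    have hq := Finset.mem_coe.mp hq
    have hq' := Finset.mem_coe.mp hq'
    obtain ⟨hq1, hq2⟩ := Finset.mem_product.mp hq
    obtain ⟨hq1', hq2'⟩ := Finset.mem_product.mp hq'
    have h3 : ¬ p ∣ orderOf (q.1 : G) := by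
      rw [Subgroup.orderOf_coe]
      exact (Finset.mem_filter.mp hq1).2
    have h3' : ¬ p ∣ orderOf (q'.1 : G) := by
      rw [Subgroup.orderOf_coe]
      exact (Finset.mem_filter.mp hq1').2
    simp only at heq
    let z : G := (q'.1 : G)⁻¹ * (q.1 : G)
    have hz1 : z ∈ U₁ := U₁.mul_mem (U₁.inv_mem q'.1.2) q.1.2
    have hz2 : z = (q'.2 : G) * (q.2 : G)⁻¹ := by
      have : (q.1 : G) = (q'.1 : G) * (q'.2 : G) * (q.2 : G)⁻¹ := by
        rw [← heq]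
        group
      show (q'.1 : G)⁻¹ * (q.1 : G) = _
      rw [this]
      group
    have hz2' : z ∈ U₂ := by
      rw [hz2]
      exact U₂.mul_mem q'.2.2 (U₂.inv_mem q.2.2)
    have hzp : ∃ k, orderOf z = p ^ k := by
      obtain ⟨k, hk⟩ := (IsPGroup.iff_orderOf.mp hZ) ⟨z, ⟨hz1, hz2'⟩⟩
      refine ⟨k, ?_⟩
      rw [← hk, ← Subgroup.orderOf_coe]
    obtain ⟨k, hk⟩ := hzp
    have hc : Commute (q'.1 : G) z := hcomm _ q'.1.2 _ hz2'
    have h5 : (q.1 : G) = (q'.1 : G) * z := by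
      show (q.1 : G) = (q'.1 : G) * ((q'.1 : G)⁻¹ * (q.1 : G))
      group
    have h6 : z = 1 := by
      have h7 := (hreg _).mp h3
      rw [h5, hc.mul_pow, (hreg _).mp h3', one_mul, hα.pow_of_pPow hk] at h7
      exact h7
    have h8 : (q.1 : G) = (q'.1 : G) := by
      rw [h5, h6, mul_one]
    have h9 : (q.2 : G) = (q'.2 : G) := by
      rw [h8] at heq
      exact mul_left_cancel heq
    exact Prod.ext (Subtype.ext h8) (Subtype.ext h9)
  · -- surjective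
    intro x hx
    have hx := Finset.mem_coe.mp hx
    have hxr := (hreg x).mp (Finset.mem_filter.mp hx).2
    obtain ⟨u, hu, v, hv, rfl⟩ := exists_mul_of_commuting_sup hcomm hgen x
    obtain ⟨y₁, hy₁, hc₁, hk₁, hn₁⟩ := hα.isPPart u
    obtain ⟨y₂, hy₂, hc₂, hk₂, hn₂⟩ := hα.isPPart v
    have hcuv : Commute u v := hcomm u hu v hv
    rw [hcuv.mul_pow] at hxr
    have hy₁U : y₁ ∈ U₁ := by
      have : y₁ = (u ^ α)⁻¹ * u := eq_inv_mul_of_mul_eq hy₁
      rw [this]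
      exact U₁.mul_mem (U₁.inv_mem (U₁.pow_mem hu α)) hu
    have hy₂U : y₂ ∈ U₂ := by
      have : y₂ = (v ^ α)⁻¹ * v := eq_inv_mul_of_mul_eq hy₂
      rw [this]
      exact U₂.mul_mem (U₂.inv_mem (U₂.pow_mem hv α)) hv
    refine ⟨(⟨y₁, hy₁U⟩, ⟨y₂, hy₂U⟩), ?_, ?_⟩
    · refine Finset.mem_coe.mpr (Finset.mem_product.mpr ⟨Finset.mem_filter.mpr ⟨Finset.mem_univ _, ?_⟩,
        Finset.mem_filter.mpr ⟨Finset.mem_univ _, ?_⟩⟩)
      · rw [← Subgroup.orderOf_coe]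
        exact hn₁
      · rw [← Subgroup.orderOf_coe]
        exact hn₂
    · show y₁ * y₂ = u * v
      have hc3 : y₁ * v ^ α = v ^ α * y₁ := hcomm _ hy₁U _ (U₂.pow_mem hv α)
      calc y₁ * y₂ = (u ^ α * v ^ α) * (y₁ * y₂) := by rw [hxr, one_mul]
        _ = u ^ α * (v ^ α * y₁) * y₂ := by group
        _ = u ^ α * (y₁ * v ^ α) * y₂ := by rw [hc3]
        _ = (u ^ α * y₁) * (v ^ α * y₂) := by group
        _ = u * v := by rw [hy₁, hy₂]
  · intro q _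
    rfl

/-- The value of the principal block character on the sum of regular elements. -/
theorem spec_regFun_of_commuting_sup (hcomm : ∀ u ∈ U₁, ∀ v ∈ U₂, u * v = v * u) (hgen : U₁ ⊔ U₂ = ⊤)
    (hZ : IsPGroup p ↥(U₁ ⊓ U₂)) (χ : IrrCharacter G) (ψ₁ : IrrCharacter U₁) (ψ₂ : IrrCharacter U₂)
    (h₁ : classInner (fun u : U₁ => (χ : G → ℂ) u) (ψ₁ : U₁ → ℂ) ≠ 0)
    (h₂ : classInner (fun u : U₂ => (χ : G → ℂ) u) (ψ₂ : U₂ → ℂ) ≠ 0) :
    spec (regFun p G) χ = spec (regFun p U₁) ψ₁ * spec (regFun p U₂) ψ₂ := by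
  classical
  have hχ1 : (χ : G → ℂ) 1 ≠ 0 := irr_apply_one_ne_zero χ
  have hψ1 : (ψ₁ : U₁ → ℂ) 1 ≠ 0 := irr_apply_one_ne_zero ψ₁
  have hψ2 : (ψ₂ : U₂ → ℂ) 1 ≠ 0 := irr_apply_one_ne_zero ψ₂
  have hcomm' : ∀ v ∈ U₂, ∀ u ∈ U₁, v * u = u * v := fun v hv u hu => (hcomm u hu v hv).symm
  have hgen' : U₂ ⊔ U₁ = ⊤ := by rw [sup_comm]; exact hgen
  have hr₁ := res_ratio_of_commuting_sup hcomm hgen χ ψ₁ h₁
  have hr₂ := res_ratio_of_commuting_sup hcomm' hgen' χ ψ₂ h₂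
  have hval : ∀ (u : U₁) (v : U₂), (χ : G → ℂ) ((u : G) * (v : G)) / (χ : G → ℂ) 1 =
      ((ψ₁ : U₁ → ℂ) u / (ψ₁ : U₁ → ℂ) 1) * ((ψ₂ : U₂ → ℂ) v / (ψ₂ : U₂ → ℂ) 1) := by
    intro u v
    have h3 := irr_mul_of_commuting_sup hcomm hgen χ u.2 v.2
    have h4 := hr₁ u
    have h5 := hr₂ v
    have h6 : (χ : G → ℂ) ((u : G) * (v : G)) = (χ : G → ℂ) u * (χ : G → ℂ) v / (χ : G → ℂ) 1 := by
      rw [← h3]
      field_simp
    have h7 : (χ : G → ℂ) u = (χ : G → ℂ) 1 * (ψ₁ : U₁ → ℂ) u / (ψ₁ : U₁ → ℂ) 1 := by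
      rw [← h4]
      field_simp
    have h8 : (χ : G → ℂ) v = (χ : G → ℂ) 1 * (ψ₂ : U₂ → ℂ) v / (ψ₂ : U₂ → ℂ) 1 := by
      rw [← h5]
      field_simp
    rw [h6, h7, h8]
    field_simp
  rw [spec, spec, spec, sum_regular_of_commuting_sup hcomm hgen hZ, Finset.sum_div, Finset.sum_div, Finset.sum_div,
    Finset.sum_mul_sum]
  refine Finset.sum_congr rfl fun u _ => ?_
  rw [Finset.sum_div]
  refine Finset.sum_congr rfl fun v _ => ?_
  rw [mul_div_assoc, hval]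
  ring

/-- The principal block of a central product. -/
theorem principal_iff_of_commuting_sup (hM : IsPModular p M) (hcomm : ∀ u ∈ U₁, ∀ v ∈ U₂, u * v = v * u)
    (hgen : U₁ ⊔ U₂ = ⊤) (hZ : IsPGroup p ↥(U₁ ⊓ U₂)) (χ : IrrCharacter G) (ψ₁ : IrrCharacter U₁)
    (ψ₂ : IrrCharacter U₂) (h₁ : classInner (fun u : U₁ => (χ : G → ℂ) u) (ψ₁ : U₁ → ℂ) ≠ 0)
    (h₂ : classInner (fun u : U₂ => (χ : G → ℂ) u) (ψ₂ : U₂ → ℂ) ≠ 0) :
    χ ∈ principalBlock M G ↔ (ψ₁ ∈ principalBlock M U₁ ∧ ψ₂ ∈ principalBlock M U₂) := by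
  have := isPrime_of_modular hM
  rw [mem_principalBlock_iff hM, mem_principalBlock_iff hM, mem_principalBlock_iff hM,
    spec_regFun_of_commuting_sup hcomm hgen hZ χ ψ₁ ψ₂ h₁ h₂]
  have ha : MemLocalRing M (spec (regFun p U₁) ψ₁) :=
    zS_apply_mem (spec_mem_zS regFun_isClassFunction regFun_memLocalRing) ψ₁
  have hb : MemLocalRing M (spec (regFun p U₂) ψ₂) :=
    zS_apply_mem (spec_mem_zS regFun_isClassFunction regFun_memLocalRing) ψ₂
  constructor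
  · intro h
    exact ⟨fun h3 => h (MemLocalIdeal.mul_right h3 hb), fun h3 => h (MemLocalIdeal.mul_left ha h3)⟩
  · rintro ⟨h3, h4⟩ h5
    rcases MemLocalIdeal.of_mul ha hb h5 with h6 | h6
    · exact h3 h6
    · exact h4 h6

end

end Cfsg.Agent.Lib.Blocks
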