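import Cfsg.Agent.Lib.Blocks.Cover
import Cfsg.Agent.Lib.Char.Galois
import Cfsg.Agent.Lib.PGroups.Fixed

/-!
# Power maps on constituents of a character fixed by a power map
-/

set_option autoImplicit false
set_option linter.unusedSectionVars false

namespace Cfsg.Agent.Lib.Blocks

open Cfsg Cfsg.Agent.Lib.Char
open scoped ComplexConjugate

universe u

section

variable {G : Type u} [Group G] [Fintype G] (N : Subgroup G) [hN : N.Normal] [Fintype N]

/-- The power map on irreducible characters. -/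
noncomputable def powIrr {k : ℕ} (hk : k.Coprime (Nat.card N)) (θ : IrrCharacter N) : IrrCharacter N :=
  ⟨fun n => (θ : N → ℂ) (n ^ k), isIrrCharacter_pow θ.2 hk⟩

@[simp] theorem powIrr_apply {k : ℕ} (hk : k.Coprime (Nat.card N)) (θ : IrrCharacter N) (n : N) :
    (powIrr N hk θ : N → ℂ) n = (θ : N → ℂ) (n ^ k) := rfl

theorem powIrr_conjIrr {k : ℕ} (hk : k.Coprime (Nat.card N)) (g : G) (θ : IrrCharacter N) :
    powIrr N hk (conjIrr N g θ) = conjIrr N g (powIrr N hk θ) := by
  apply Subtype.ext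
  funext n
  simp only [powIrr_apply, conjIrr_coe, conjFun_apply]
  refine congrArg _ (Subtype.ext ?_)
  push_cast
  have h := conj_pow (i := k) (a := g⁻¹) (b := (n : G))
  rw [inv_inv] at h
  exact h.symm

end

/-- Irreducible constituents of the restriction of a `k`-fixed character, in the case of a `p`-power
order for `k` and an index prime to `p`. -/
theorem constituent_pow_fixed {G : Type u} [Group G] [Fintype G] (p : ℕ) [hp : Fact p.Prime] (N : Subgroup G) [hN : N.Normal]
    [Fintype N] (hidx : ¬ p ∣ N.index) (k e : ℕ) (hk : Nat.Coprime k (Nat.card G))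
    (hke : k ^ (p ^ e) ≡ 1 [MOD Nat.card G]) (χ : IrrCharacter G) (hχ : ∀ g : G, (χ : G → ℂ) (g ^ k) = (χ : G → ℂ) g)
    (θ : IrrCharacter N) (hθ : classInner (fun n : N => (χ : G → ℂ) n) (θ : N → ℂ) ≠ 0) :
    ∀ n : N, (θ : N → ℂ) (n ^ k) = (θ : N → ℂ) n := by
  classical
  have hpp : p.Prime := hp.out
  have hk' : k.Coprime (Nat.card N) := hk.coprime_dvd_right (Subgroup.card_subgroup_dvd_card N)
  letI act : MulAction G (IrrCharacter N) :=
    { smul := fun g μ => conjIrr N g μ
      one_smul := fun μ => conjIrr_one N μ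
      mul_smul := fun g h μ => conjIrr_mul N g h μ }
  have hsmul : ∀ (g : G) (μ : IrrCharacter N), g • μ = conjIrr N g μ := fun _ _ => rfl
  let T := powIrr N hk'
  have hTsmul : ∀ (g : G) (μ : IrrCharacter N), T (g • μ) = g • T μ := fun g μ => powIrr_conjIrr N hk' g μ
  -- the power map preserves the multiplicities
  have hTinner : classInner (fun n : N => (χ : G → ℂ) n) (T θ : N → ℂ) =
      classInner (fun n : N => (χ : G → ℂ) n) (θ : N → ℂ) := by
    simp only [classInner]
    congr 1
    rw [← sum_pow_eq hk' (fun n : N => (χ : G → ℂ) n * conj ((θ : N → ℂ) n))]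
    refine Finset.sum_congr rfl fun n _ => ?_
    have h1 : (χ : G → ℂ) ((n ^ k : N) : G) = (χ : G → ℂ) n := by
      push_cast
      exact hχ n
    rw [h1]
    rfl
  have hTθ : ∃ g : G, T θ = g • θ := by
    have h1 : classInner (resFun N (χ : G → ℂ)) (T θ : N → ℂ) ≠ 0 := by
      show classInner (fun n : N => (χ : G → ℂ) n) (T θ : N → ℂ) ≠ 0
      rw [hTinner]
      exact hθ
    obtain ⟨g, hg⟩ := clifford_constituent N χ.2 θ.2 (T θ).2 hθ h1
    exact ⟨g, Subtype.ext hg⟩
  obtain ⟨g₀, hg₀⟩ := hTθ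
  -- the orbit
  let O := MulAction.orbit G θ
  have hTO : ∀ μ ∈ O, T μ ∈ O := by
    rintro _ ⟨g, rfl⟩
    show T (g • θ) ∈ O
    rw [hTsmul, hg₀]
    exact ⟨g * g₀, mul_smul g g₀ θ⟩
  let f : Function.End O := fun μ => ⟨T μ.1, hTO μ.1 μ.2⟩
  have hfpow : ∀ j (μ : O) (n : N), (((f ^ j) μ : O).1 : N → ℂ) n = ((μ.1 : IrrCharacter N) : N → ℂ) (n ^ (k ^ j)) := by
    intro j
    induction j with
    | zero =>
      intro μ n
      simp only [pow_zero, pow_one]
      rfl
    | succ j ih =>
      intro μ n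
      rw [pow_succ', Function.End.mul_def]
      show (((f ^ j) μ : O).1 : N → ℂ) (n ^ k) = _
      rw [ih, ← pow_mul, pow_succ']
  have hf1 : f ^ p ^ e = 1 := by
    funext μ
    apply Subtype.ext
    apply Subtype.ext
    funext n
    rw [hfpow]
    have h1 : n ^ (k ^ p ^ e) = n ^ 1 := by
      rw [pow_eq_pow_iff_modEq]
      exact hke.of_dvd ((orderOf_dvd_natCard n).trans (Subgroup.card_subgroup_dvd_card N))
    rw [h1, pow_one]
    rfl
  have hcard : ¬ p ∣ Nat.card O := by
    intro h
    apply hidx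
    rw [Nat.card_coe_set_eq, ← MulAction.index_stabilizer] at h
    refine h.trans (Subgroup.index_dvd_of_le ?_)
    intro n hn
    rw [MulAction.mem_stabilizer_iff]
    apply Subtype.ext
    exact le_inertia N (irr_isClassFunction θ) hn
  obtain ⟨c, hc⟩ := Cfsg.Agent.Lib.PGroups.exists_fixed_of_pow hf1 hcard
  obtain ⟨c, g, hg⟩ := c
  have hc' : T (g • θ) = g • θ := by
    have := congrArg Subtype.val hc
    simp only [f] at this
    simp only at hg
    rw [← hg] at this
    exact this
  rw [hTsmul] at hc'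
  have hfix : T θ = θ := smul_left_cancel g hc'
  intro n
  exact congrFun (congrArg Subtype.val hfix) n

end Cfsg.Agent.Lib.Blocks
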