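import Cfsg.Agent.Lib.Char.BrauerCong
import Cfsg.Agent.Lib.Char.DefectZero
import Cfsg.Agent.Lib.Char.Galois

/-!
# Powers of character values modulo `p`
-/

set_option autoImplicit false
set_option linter.unusedSectionVars false

namespace Cfsg.Agent.Lib.Blocks

open Cfsg Cfsg.Agent.Lib.Char
open scoped ComplexConjugate

universe u

theorem sum_pow_prime_pow {R : Type*} [CommRing R] {p : ℕ} (hp : p.Prime) {ι : Type*} (s : Finset ι) (f : ι → R)
    (n : ℕ) : ∃ r : R, (∑ i ∈ s, f i) ^ (p ^ n) = ∑ i ∈ s, f i ^ (p ^ n) + (p : R) * r := by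
  classical
  induction s using Finset.induction_on with
  | empty =>
    refine ⟨0, ?_⟩
    have : p ^ n ≠ 0 := pow_ne_zero _ hp.ne_zero
    simp only [Finset.sum_empty, mul_zero, add_zero]
    exact zero_pow this
  | insert a s ha ih =>
    obtain ⟨r, hr⟩ := ih
    obtain ⟨r', hr'⟩ := exists_add_pow_prime_pow_eq hp (f a) (∑ i ∈ s, f i) n
    refine ⟨f a * (∑ i ∈ s, f i) * r' + r, ?_⟩
    rw [Finset.sum_insert ha, Finset.sum_insert ha, hr', hr]
    ring

section

variable {G : Type u} [Group G] [Fintype G]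

/-- The value of a character raised to a power of `p`, modulo `p`. -/
theorem character_pow_prime_pow {p : ℕ} (hp : p.Prime) {χ : G → ℂ} (hχ : IsCharacter G χ) (g : G) (n : ℕ) :
    ∃ γ : AlgInt, χ g ^ (p ^ n) - χ (g ^ (p ^ n)) = (p : ℂ) * (γ : ℂ) := by
  classical
  obtain ⟨m, ρ, rfl⟩ := hχ
  obtain ⟨μ, hμ, hμk⟩ := character_pow_eq_sum_eigen ρ g
  have hint : ∀ i, IsIntegral ℤ (μ i) := by
    intro i
    apply IsIntegral.of_pow (orderOf_pos g)
    rw [hμ i]
    exact isIntegral_one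
  let ν : _ → AlgInt := fun i => ⟨μ i, hint i⟩
  obtain ⟨r, hr⟩ := sum_pow_prime_pow hp Finset.univ ν n
  refine ⟨r, ?_⟩
  have h1 : ρ.character g = ∑ i, μ i ^ 1 := by
    have := hμk 1
    rwa [pow_one] at this
  have h2 := hμk (p ^ n)
  have h3 := congrArg (fun z : AlgInt => (z : ℂ)) hr
  simp only [ν] at h3
  push_cast at h3
  rw [h1, h2]
  simp only [pow_one]
  rw [h3]
  ring

end

/-- **Brauer**: conjugacy of `p`-regular parts through powers of the character values. -/
theorem isConj_iff_pow_congr {G : Type u} [Group G] [Finite G] (p : ℕ) [hp : Fact p.Prime] (x y x' y' : G)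
    (hx : (∃ k : ℕ, orderOf (x * x'⁻¹) = p ^ k) ∧ Commute (x * x'⁻¹) x' ∧ ¬ p ∣ orderOf x')
    (hy : (∃ k : ℕ, orderOf (y * y'⁻¹) = p ^ k) ∧ Commute (y * y'⁻¹) y' ∧ ¬ p ∣ orderOf y') :
    IsConj x' y' ↔ ∀ χ : IrrCharacter G, ∃ γ : AlgInt,
      (χ : G → ℂ) x ^ (p ^ (Nat.card G).factorization p) - (χ : G → ℂ) y ^ (p ^ (Nat.card G).factorization p) =
        (p : ℂ) * (γ : ℂ) := by
  classical
  letI := Fintype.ofFinite G
  have hpp : p.Prime := hp.out
  set a := (Nat.card G).factorization p with ha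
  have hG : Nat.card G ≠ 0 := Nat.card_pos.ne'
  have hpow : ∀ u : G, (∃ k, orderOf u = p ^ k) → u ^ (p ^ a) = 1 := by
    rintro u ⟨k, hk⟩
    rw [← orderOf_dvd_iff_pow_eq_one, hk]
    have h1 : p ^ k ∣ Nat.card G := hk ▸ orderOf_dvd_natCard u
    have h2 : k ≤ a := (hpp.pow_dvd_iff_le_factorization hG).mp h1
    exact pow_dvd_pow p h2
  have hred : ∀ w w' : G, (∃ k, orderOf (w * w'⁻¹) = p ^ k) → Commute (w * w'⁻¹) w' →
      w ^ (p ^ a) = w' ^ (p ^ a) := by
    intro w w' h1 h2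
    have h3 : w = (w * w'⁻¹) * w' := by group
    conv_lhs => rw [h3]
    rw [h2.mul_pow, hpow _ h1, one_mul]
  constructor
  · intro hc χ
    obtain ⟨γ₁, h1⟩ := character_pow_prime_pow hpp (IsIrrCharacter.isCharacter χ.2) x a
    obtain ⟨γ₂, h2⟩ := character_pow_prime_pow hpp (IsIrrCharacter.isCharacter χ.2) y a
    have h3 : (χ : G → ℂ) (x ^ (p ^ a)) = (χ : G → ℂ) (y ^ (p ^ a)) := by
      rw [hred x x' hx.1 hx.2.1, hred y y' hy.1 hy.2.1]
      exact IsClassFunction.congr_isConj (IsCharacter.isClassFunction (IsIrrCharacter.isCharacter χ.2)) (hc.pow _)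
    refine ⟨γ₁ - γ₂, ?_⟩
    push_cast
    rw [mul_sub, ← h1, ← h2, h3]
    ring
  · intro hall
    obtain ⟨M, hM⟩ := exists_isPModular hpp
    haveI : M.IsPrime := hM.2.1.isPrime
    have hpart : ∀ w w' : G, (∃ k, orderOf (w * w'⁻¹) = p ^ k) → Commute (w * w'⁻¹) w' → ¬ p ∣ orderOf w' →
        IsPPart p w (w * w'⁻¹) := by
      intro w w' h1 h2 h3
      exact ⟨w', by group, h2, h1, h3⟩
    have hmain := (isConj_regular_iff p M hM x y _ _ (hpart x x' hx.1 hx.2.1 hx.2.2)
      (hpart y y' hy.1 hy.2.1 hy.2.2)).mpr ?_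
    · have h4 : (x * x'⁻¹)⁻¹ * x = x' := by group
      have h5 : (y * y'⁻¹)⁻¹ * y = y' := by group
      rwa [h4, h5] at hmain
    · intro χ
      obtain ⟨γ, hγ⟩ := hall χ
      -- Use the Frobenius on the difference
      have hu : IsIntegral ℤ ((χ : G → ℂ) x) := IsCharacter.isIntegral (IsIrrCharacter.isCharacter χ.2) x
      have hv : IsIntegral ℤ ((χ : G → ℂ) y) := IsCharacter.isIntegral (IsIrrCharacter.isCharacter χ.2) y
      let u : AlgInt := ⟨(χ : G → ℂ) x, hu⟩
      let v : AlgInt := ⟨(χ : G → ℂ) y, hv⟩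
      obtain ⟨r, hr⟩ := exists_add_pow_prime_pow_eq hpp (u - v) v a
      have hsub : u - v + v = u := by ring
      rw [hsub] at hr
      have h6 : (u - v) ^ (p ^ a) = (p : AlgInt) * (γ - (u - v) * v * r) := by
        have h7 : u ^ (p ^ a) - v ^ (p ^ a) = (p : AlgInt) * γ := by
          apply Subtype.ext
          push_cast
          exact hγ
        have h8 : (u - v) ^ (p ^ a) = u ^ (p ^ a) - v ^ (p ^ a) - (p : AlgInt) * (u - v) * v * r := by
          rw [hr]
          ring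
        rw [h8, h7]
        ring
      have h9 : (u - v) ^ (p ^ a) ∈ M := by
        rw [h6]
        exact M.mul_mem_right _ hM.2.2
      have h10 : u - v ∈ M := Ideal.IsPrime.mem_of_pow_mem inferInstance _ h9
      have h11 := memLocalIdeal_of_mem h10
      simpa [u, v] using h11

end Cfsg.Agent.Lib.Blocks
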