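import Cfsg.Agent.Lib.Blocks.AlperinDade
import Cfsg.Agent.Lib.Blocks.FongGeneral

set_option autoImplicit false
set_option linter.unusedSectionVars false
set_option linter.style.haveILetI false

namespace Cfsg.Agent.Lib.Blocks

open Cfsg Cfsg.Agent.Lib.Char Cfsg.Agent.Lib.H8Group
open scoped ComplexConjugate

universe u

section Mass

variable {G : Type u} [Group G] [Fintype G] {p : ℕ} [hp : Fact p.Prime] {M : Ideal AlgInt}

/-- The subgroup `P C_G(P)`. -/
def pmH (P : Subgroup G) : Subgroup G where
  carrier := {h | ∃ x ∈ P, ∃ c ∈ Subgroup.centralizer (P : Set G), x * c = h}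
  one_mem' := ⟨1, P.one_mem, 1, Subgroup.one_mem _, by simp⟩
  mul_mem' := by
    rintro _ _ ⟨x, hx, c, hc, rfl⟩ ⟨x', hx', c', hc', rfl⟩
    refine ⟨x * x', P.mul_mem hx hx', c * c', Subgroup.mul_mem _ hc hc', ?_⟩
    have h1 : c * x' = x' * c := ((Subgroup.mem_centralizer_iff.mp hc) x' hx').symm
    calc x * x' * (c * c') = x * (x' * c) * c' := by group
      _ = x * (c * x') * c' := by rw [h1]
      _ = x * c * (x' * c') := by group
  inv_mem' := by
    rintro _ ⟨x, hx, c, hc, rfl⟩
    refine ⟨x⁻¹, P.inv_mem hx, c⁻¹, Subgroup.inv_mem _ hc, ?_⟩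
    have h1 : x⁻¹ * c⁻¹ = c⁻¹ * x⁻¹ :=
      ((Subgroup.mem_centralizer_iff.mp (Subgroup.inv_mem _ hc)) x⁻¹ (P.inv_mem hx))
    rw [h1, mul_inv_rev]

theorem pmH_le_left (P : Subgroup G) : P ≤ pmH P := fun x hx => ⟨x, hx, 1, Subgroup.one_mem _, by simp⟩

theorem pmH_le_right (P : Subgroup G) : Subgroup.centralizer (P : Set G) ≤ pmH P :=
  fun c hc => ⟨1, P.one_mem, c, hc, by simp⟩

theorem pmH_le_normalizer (P : Subgroup G) : pmH P ≤ Subgroup.normalizer (P : Set G) := by
  rintro _ ⟨x, hx, c, hc, rfl⟩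
  rw [Subgroup.mem_normalizer_iff]
  intro q
  have h1 : ∀ q, c * q * c⁻¹ = q ∨ q ∉ P := by
    intro q
    by_cases hq : q ∈ P
    · left
      have h2 := (Subgroup.mem_centralizer_iff.mp hc) q hq
      rw [← h2]
      group
    · exact Or.inr hq
  constructor
  · intro hq
    have h2 : x * c * q * (x * c)⁻¹ = x * (c * q * c⁻¹) * x⁻¹ := by group
    rw [h2]
    rcases h1 q with h3 | h3
    · rw [h3]
      exact P.mul_mem (P.mul_mem hx hq) (P.inv_mem hx)
    · exact absurd hq h3
  · intro hq
    have h2 : x⁻¹ * (x * c * q * (x * c)⁻¹) * x = c * q * c⁻¹ := by group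
    have h3 : c * q * c⁻¹ ∈ P := by
      rw [← h2]
      exact P.mul_mem (P.mul_mem (P.inv_mem hx) hq) hx
    have h4 := (Subgroup.mem_centralizer_iff.mp hc) _ h3
    have h5 : q = c * q * c⁻¹ := by
      calc q = c⁻¹ * (c * q * c⁻¹ * c) := by group
        _ = c⁻¹ * (c * (c * q * c⁻¹)) := by rw [h4]
        _ = c * q * c⁻¹ := by group
    rw [h5]
    exact h3

/-- The block coefficient of the principal block of `G` on the subgroup `P C_G(P)` acts on characters
as the idempotent of the principal block (Brauer's third main theorem). -/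
theorem pm_spec (hM : IsPModular p M) {P : Subgroup G} (hP : IsPGroup p P) (H : Subgroup G) [Fintype H]
    (hPH : P ≤ H) (hCH : Subgroup.centralizer (P : Set G) ≤ H) (hHN : H ≤ Subgroup.normalizer (P : Set G))
    (ξ : IrrCharacter H) :
    open scoped Classical in
    MemLocalIdeal M (spec (fun h : H => blockCoeff (principalBlock M G) (h : G)) ξ -
      if ξ ∈ principalBlock M H then 1 else 0) := by
  classical
  have := isPrime_of_modular hM
  have hb : IsPBlock M (blockOf M (ξ : H → ℂ)) := isPBlock_blockOf ξ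
  obtain ⟨B, hB⟩ := exists_isInducedBlock H hM hP hPH hCH hHN hb
  obtain ⟨χ, hχ⟩ := IsPBlock.nonempty hB.2.1
  have hB₀ : IsPBlock M (principalBlock M G) := isPBlock_principalBlock M G
  have h1 := IsInducedBlock.resPhi_congr H hB (self_mem_blockOf ξ) hχ (indic_mem_zS hB₀)
  have h2 : resPhi H ξ (indic (principalBlock M G)) =
      spec (fun h : H => blockCoeff (principalBlock M G) (h : G)) ξ := by
    rw [resPhi]
    have h3 : coef (indic (principalBlock M G)) = blockCoeff (principalBlock M G) :=
      funext fun g => (blockCoeff_eq_coef _ g).symm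
    rw [h3]
    rfl
  rw [h2] at h1
  convert h1 using 2
  by_cases hξ : ξ ∈ principalBlock M H
  · rw [if_pos hξ]
    have hbe : blockOf M (ξ : H → ℂ) = principalBlock M H :=
      (blockOf_eq_of_mem (isPBlock_principalBlock M H) hξ).symm
    rw [hbe] at hB
    have h3 := (isInducedBlock_principal_iff hM H ⟨B, hB⟩).mpr rfl
    have h4 := IsInducedBlock.unique H hB h3
    rw [h4] at hχ
    rw [indic_apply_of_mem hχ]
  · rw [if_neg hξ]
    rw [indic_apply_of_notMem]
    intro hχ0
    apply hξ
    have hBe : B = principalBlock M G := by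
      rw [blockOf_eq_of_mem hB.2.1 hχ, ← blockOf_eq_of_mem hB₀ hχ0]
    rw [hBe] at hB
    have h3 := (isInducedBlock_principal_iff hM H ⟨_, hB⟩).mp hB
    rw [← h3]
    exact self_mem_blockOf ξ

/-- The mass of the principal idempotent on each coset of `P` in `P C_G(P)`. -/
theorem pm_mass (hM : IsPModular p M) (P : Sylow p G) (H : Subgroup G) [Fintype H]
    (hPH : (P : Subgroup G) ≤ H) (hCH : Subgroup.centralizer ((P : Subgroup G) : Set G) ≤ H)
    (hHN : H ≤ Subgroup.normalizer ((P : Subgroup G) : Set G))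
    (hdec : ∀ h ∈ H, ∃ x ∈ (P : Subgroup G), ∃ c ∈ Subgroup.centralizer ((P : Subgroup G) : Set G), x * c = h)
    (P' : Subgroup H) (hP' : P' = (P : Subgroup G).subgroupOf H) [hP'n : P'.Normal] [Fintype P'] [Fintype (H ⧸ P')]
    (ζ : H ⧸ P') :
    MemLocalIdeal M (adHat P' (fun h : H => blockCoeff (principalBlock M G) (h : G)) ζ - (Nat.card (H ⧸ P') : ℂ)⁻¹) := by
  classical
  have hpr := isPrime_of_modular hM
  have hpp : p.Prime := hp.out
  set f : H → ℂ := fun h : H => blockCoeff (principalBlock M G) (h : G) with hf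
  have hfc : IsClassFunction H f := by
    intro g h
    simpa [hf] using blockCoeff_isClassFunction (principalBlock M G) (g : G) (h : G)
  have hidx : ¬ p ∣ P'.index := by
    have h1 : P'.index * H.index = (P : Subgroup G).index := by
      rw [hP']
      exact Subgroup.relIndex_mul_index hPH
    intro h
    exact P.not_dvd_index (h1 ▸ Dvd.dvd.mul_right h _)
  have hX : ¬ p ∣ Nat.card (H ⧸ P') := by
    rw [← Subgroup.index_eq_card]
    exact hidx
  have hrep : ∀ g : H, ∃ x : H, (x : H ⧸ P') = (g : H ⧸ P') ∧ ¬ p ∣ (Subgroup.centralizer ({x} : Set H)).index := by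
    intro g
    obtain ⟨x, hx, c, hc, hxc⟩ := hdec g g.2
    refine ⟨⟨c, hCH hc⟩, ?_, ?_⟩
    · rw [QuotientGroup.eq, hP', Subgroup.mem_subgroupOf]
      have h1 : c⁻¹ * (g : G) = c⁻¹ * x * c := by
        rw [← hxc]
        group
      show ((⟨c, hCH hc⟩ : H)⁻¹ * g : H).1 ∈ (P : Subgroup G)
      have h2 : c⁻¹ * (g : G) = x := by
        rw [h1]
        have := (Subgroup.mem_centralizer_iff.mp hc) x hx
        rw [mul_assoc, this]
        group
      show c⁻¹ * (g : G) ∈ (P : Subgroup G)
      rw [h2]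
      exact hx
    · intro hdv
      apply hidx
      refine hdv.trans (Subgroup.index_dvd_of_le ?_)
      intro q hq
      rw [Subgroup.mem_centralizer_iff]
      intro z hz
      rw [Set.mem_singleton_iff] at hz
      subst hz
      apply Subtype.ext
      rw [hP', Subgroup.mem_subgroupOf] at hq
      exact ((Subgroup.mem_centralizer_iff.mp hc) _ hq).symm
  set fbar := adHat P' f with hfbar
  have hfbarc : IsClassFunction (H ⧸ P') fbar := adHat_class P' hfc
  have hspec : ∀ τ : IrrCharacter (H ⧸ P'), spec fbar τ =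
      spec f ⟨inflate P' τ, isIrrCharacter_inflate P' τ.2⟩ := by
    intro τ
    simp only [spec]
    rw [adHat_sum_mul]
    rfl
  have hdelta : ∀ τ : IrrCharacter (H ⧸ P'), MemLocalIdeal M (spec fbar τ - if τ = oneIrr (H ⧸ P') then 1 else 0) := by
    intro τ
    rw [hspec]
    have h1 := pm_spec hM (P := (P : Subgroup G)) P.isPGroup' H hPH hCH hHN ⟨inflate P' τ, isIrrCharacter_inflate P' τ.2⟩
    by_cases hτ : τ = oneIrr (H ⧸ P')
    · rw [if_pos hτ]
      have h2 : (⟨inflate P' τ, isIrrCharacter_inflate P' τ.2⟩ : IrrCharacter H) ∈ principalBlock M H := by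
        have h3 : (⟨inflate P' τ, isIrrCharacter_inflate P' τ.2⟩ : IrrCharacter H) = oneIrr H := by
          apply Subtype.ext
          funext h
          rw [hτ]
          rfl
        rw [h3]
        exact one_mem_principalBlock
      rw [if_pos h2] at h1
      exact h1
    · rw [if_neg hτ]
      have h2 : (⟨inflate P' τ, isIrrCharacter_inflate P' τ.2⟩ : IrrCharacter H) ∉ principalBlock M H := by
        intro h3
        refine adInflate_notMem P' hM hidx hrep τ ?_ h3
        intro h4
        exact hτ (Subtype.ext h4)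
      rw [if_neg h2] at h1
      exact h1
  have h1 := congrFun (coef_spec fbar hfbarc) ζ
  have hXne : (Nat.card (H ⧸ P') : ℂ) ≠ 0 := card_ne_zero_complex
  have h2 : fbar ζ - (Nat.card (H ⧸ P') : ℂ)⁻¹ = (Nat.card (H ⧸ P') : ℂ)⁻¹ * ∑ τ : IrrCharacter (H ⧸ P'),
      (spec fbar τ - if τ = oneIrr (H ⧸ P') then 1 else 0) * ((τ : (H ⧸ P') → ℂ) 1 * conj ((τ : (H ⧸ P') → ℂ) ζ)) := by
    have h3 : ∑ τ : IrrCharacter (H ⧸ P'), (if τ = oneIrr (H ⧸ P') then (1 : ℂ) else 0) * ((τ : (H ⧸ P') → ℂ) 1 * conj ((τ : (H ⧸ P') → ℂ) ζ)) = 1 := by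
      rw [Finset.sum_eq_single (oneIrr (H ⧸ P'))]
      · simp [oneIrr]
      · intro b _ hb
        simp [hb]
      · simp
    simp only [sub_mul]
    rw [Finset.sum_sub_distrib, h3, mul_sub, mul_one, ← h1]
    rfl
  rw [h2]
  refine MemLocalIdeal.mul_left (inv_natCast_memLocalRing hM hX) (MemLocalIdeal.sum _ fun τ _ => ?_)
  refine MemLocalIdeal.mul_right (hdelta τ) (MemLocalRing.mul ?_ ?_)
  · exact memLocalRing_of_isIntegral (irr_isIntegral τ 1)
  · rw [← irr_apply_inv]
    exact memLocalRing_of_isIntegral (irr_isIntegral τ _)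

theorem pm_sum_subgroup (H : Subgroup G) [Fintype H] (F : G → ℂ) :
    open scoped Classical in ∑ g, (if g ∈ H then F g else 0) = ∑ h : H, F h := by
  classical
  rw [← Finset.sum_filter]
  exact (Finset.sum_subtype _ (by simp) F)

/-- **Mass on a normal subgroup.** The sum of the coefficients of the principal block idempotent on a
normal subgroup is a unit modulo the ideal. -/
theorem pm_sum_unit (hM : IsPModular p M) (P : Sylow p G) (N : Subgroup G) [hN : N.Normal] :
    open scoped Classical in
    ¬ MemLocalIdeal M (∑ g, if g ∈ N then blockCoeff (principalBlock M G) g else 0) := by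
  classical
  have hpr := isPrime_of_modular hM
  have hpp : p.Prime := hp.out
  set H := pmH (P : Subgroup G) with hH
  letI : Fintype H := Fintype.ofFinite _
  have hPH : (P : Subgroup G) ≤ H := pmH_le_left _
  have hCH : Subgroup.centralizer ((P : Subgroup G) : Set G) ≤ H := pmH_le_right _
  have hHN : H ≤ Subgroup.normalizer ((P : Subgroup G) : Set G) := pmH_le_normalizer _
  let P' : Subgroup H := (P : Subgroup G).subgroupOf H
  haveI hP'n : P'.Normal := by
    constructor
    intro n hn g
    rw [Subgroup.mem_subgroupOf] at hn ⊢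
    exact (Subgroup.mem_normalizer_iff.mp (hHN g.2) _).mp hn
  letI : Fintype P' := Fintype.ofFinite _
  letI : Fintype (H ⧸ P') := Fintype.ofFinite _
  set e₀ := blockCoeff (principalBlock M G) with he₀
  have hB₀ : IsPBlock M (principalBlock M G) := isPBlock_principalBlock M G
  have he₀l : ∀ g, MemLocalRing M (e₀ g) := fun g => blockCoeff_memLocalRing hB₀ g
  have he₀c : ∀ g k, e₀ (k * g * k⁻¹) = e₀ g := fun g k => blockCoeff_isClassFunction _ g k
  set f : H → ℂ := fun h : H => e₀ (h : G) with hf
  set X := H ⧸ P' with hX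
  let W : Subgroup X := (N.subgroupOf H).map (QuotientGroup.mk' P')
  have hidx : ¬ p ∣ Nat.card X := by
    rw [hX, ← Subgroup.index_eq_card]
    have h1 : P'.index * H.index = (P : Subgroup G).index := Subgroup.relIndex_mul_index hPH
    intro h
    exact P.not_dvd_index (h1 ▸ Dvd.dvd.mul_right h _)
  have hW : ¬ p ∣ Nat.card W := fun h => hidx (h.trans (Subgroup.card_subgroup_dvd_card W))
  have hmass := fun ζ : X => pm_mass hM P H hPH hCH hHN (fun h hh => hh) P' rfl ζ
  -- the sum over `W`
  have hS1 : MemLocalIdeal M (∑ ζ : X, adHat P' f ζ * (if ζ ∈ W then 1 else 0) -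
      (Nat.card W : ℂ) * (Nat.card X : ℂ)⁻¹) := by
    have h1 : (Nat.card W : ℂ) * (Nat.card X : ℂ)⁻¹ =
        ∑ ζ : X, (Nat.card X : ℂ)⁻¹ * (if ζ ∈ W then 1 else 0) := by
      simp only [mul_ite, mul_one, mul_zero]
      rw [Finset.sum_ite, Finset.sum_const_zero, add_zero, Finset.sum_const, nsmul_eq_mul]
      congr 2
      rw [Nat.card_eq_fintype_card, Fintype.card_subtype]
    rw [h1, ← Finset.sum_sub_distrib]
    refine MemLocalIdeal.sum _ fun ζ _ => ?_
    rw [← sub_mul]
    split_ifs
    · simpa using hmass ζ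
    · simpa using memLocalIdeal_zero
  rw [adHat_sum_mul] at hS1
  have hreg : ∀ h : H, f h ≠ 0 → ¬ p ∣ orderOf (h : G) := by
    intro h hh hdv
    exact hh (blockCoeff_eq_zero_of_singular hM hB₀ hdv)
  have hkey : ∀ h : H, f h * (if (h : X) ∈ W then 1 else 0) = if (h : G) ∈ N then e₀ (h : G) else 0 := by
    intro h
    by_cases hh : f h = 0
    · rw [hh, zero_mul]
      split_ifs
      · exact hh.symm
      · rfl
    · have hr := hreg h hh
      have hiff : (h : X) ∈ W ↔ (h : G) ∈ N := by
        constructor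
        · rintro ⟨n, hn, hnh⟩
          have h1 : (n : H)⁻¹ * h ∈ P' := QuotientGroup.eq.mp hnh
          rw [Subgroup.mem_subgroupOf] at h1
          set x : G := (((n : H)⁻¹ * h : H) : G) with hx
          have h2 : ((h : G) : G ⧸ N) = (x : G ⧸ N) := by
            rw [hx]
            simp only [Subgroup.coe_mul, Subgroup.coe_inv]
            rw [QuotientGroup.mk_mul, QuotientGroup.mk_inv,
              (QuotientGroup.eq_one_iff ((n : H) : G)).mpr (Subgroup.mem_subgroupOf.mp hn)]
            simp
          have h3 : ((h : G) : G ⧸ N) ^ orderOf (h : G) = 1 := by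
            rw [← QuotientGroup.mk_pow, pow_orderOf_eq_one, QuotientGroup.mk_one]
          have h4 : ((h : G) : G ⧸ N) ^ Nat.card P = 1 := by
            rw [h2, ← QuotientGroup.mk_pow]
            have h5 : x ^ Nat.card P = 1 :=
              orderOf_dvd_iff_pow_eq_one.mp (Subgroup.orderOf_dvd_natCard (P : Subgroup G) h1)
            rw [h5, QuotientGroup.mk_one]
          have h5 := pow_gcd_eq_one.mpr ⟨h3, h4⟩
          have h6 : Nat.gcd (orderOf (h : G)) (Nat.card P) = 1 := by
            rw [P.card_eq_multiplicity, ← Nat.coprime_iff_gcd_eq_one]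
            apply Nat.Coprime.pow_right
            rw [Nat.coprime_comm, Nat.Prime.coprime_iff_not_dvd hpp]
            exact hr
          rw [h6, pow_one] at h5
          exact (QuotientGroup.eq_one_iff _).mp h5
        · intro hh2
          exact ⟨h, Subgroup.mem_subgroupOf.mpr hh2, rfl⟩
      simp only [hiff, mul_ite, mul_one, mul_zero]
      rfl
  simp only [hkey] at hS1
  -- comparison with the whole sum
  have hsubg : ∑ h : H, (if (h : G) ∈ N then e₀ (h : G) else 0) =
      ∑ g, if g ∈ H then (if g ∈ N then e₀ g else 0) else 0 :=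
    (pm_sum_subgroup H (fun g => if g ∈ N then e₀ g else 0)).symm
  have hconjN : ∀ (s x : G), s * x * s⁻¹ ∈ N ↔ x ∈ N := by
    intro s x
    constructor
    · intro h1
      have h2 := hN.conj_mem _ h1 s⁻¹
      simpa [mul_assoc] using h2
    · intro h1
      exact hN.conj_mem _ h1 s
  have hconjH : ∀ s ∈ (P : Subgroup G), ∀ x : G, s * x * s⁻¹ ∈ H ↔ x ∈ H := by
    intro s hs x
    have hsH := hPH hs
    constructor
    · intro h1
      have h2 := H.mul_mem (H.mul_mem (H.inv_mem hsH) h1) hsH
      simpa [mul_assoc] using h2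
    · intro h1
      exact H.mul_mem (H.mul_mem hsH h1) (H.inv_mem hsH)
  obtain ⟨r₁, hr₁, h1⟩ := exists_sum_eq_sum_centralizer hM P.isPGroup'
    (fun g => if g ∈ N then e₀ g else 0)
    (fun g => by
      split_ifs
      · exact he₀l g
      · exact memLocalRing_zero)
    (fun s x => by
      simp only [hconjN]
      split_ifs
      · exact he₀c x s
      · rfl)
  obtain ⟨r₂, hr₂, h2⟩ := exists_sum_eq_sum_centralizer hM P.isPGroup'
    (fun g => if g ∈ H then (if g ∈ N then e₀ g else 0) else 0)
    (fun g => by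
      split_ifs
      · exact he₀l g
      · exact memLocalRing_zero
      · exact memLocalRing_zero)
    (fun s x => by
      simp only [hconjN, hconjH s s.2]
      split_ifs
      · exact he₀c x s
      · rfl
      · rfl)
  have h3 : ∑ x ∈ Finset.univ.filter (fun x => x ∈ Subgroup.centralizer ((P : Subgroup G) : Set G)),
      (if x ∈ H then (if x ∈ N then e₀ x else 0) else 0) =
      ∑ x ∈ Finset.univ.filter (fun x => x ∈ Subgroup.centralizer ((P : Subgroup G) : Set G)),
      (if x ∈ N then e₀ x else 0) := by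
    refine Finset.sum_congr rfl fun x hx => ?_
    rw [Finset.mem_filter] at hx
    rw [if_pos (hCH hx.2)]
  intro hcon
  rw [hsubg] at hS1
  have hcon2 : MemLocalIdeal M (∑ g, if g ∈ H then (if g ∈ N then e₀ g else 0) else 0) := by
    have h4 : (∑ g, if g ∈ H then (if g ∈ N then e₀ g else 0) else 0) =
        (∑ g, if g ∈ N then e₀ g else 0) - (p : ℂ) * (r₁ - r₂) := by
      rw [h1, h2, h3]
      ring
    rw [h4]
    exact MemLocalIdeal.sub hcon (MemLocalIdeal.mul_right (p_memLocalIdeal hM) (MemLocalRing.sub hr₁ hr₂))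
  have h5 := MemLocalIdeal.sub hcon2 hS1
  rw [sub_sub_cancel] at h5
  have h6 := MemLocalIdeal.mul_right h5 (MemLocalRing.natCast (M := M) (Nat.card X))
  have hXne : (Nat.card X : ℂ) ≠ 0 := card_ne_zero_complex
  have h7 : (Nat.card W : ℂ) * (Nat.card X : ℂ)⁻¹ * (Nat.card X : ℂ) = (Nat.card W : ℂ) := by
    field_simp
  rw [h7] at h6
  exact natCast_not_memLocalIdeal hM hW h6

/-- **Existence of a `p'`-degree character of the principal block over `θ`.** -/
theorem pm_main (hM : IsPModular p M) (P : Sylow p G) (N : Subgroup G) [hN : N.Normal] [Fintype N]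
    (θ : IrrCharacter N) (hθ : θ ∈ principalBlock M N) (hdeg : ¬ p ∣ charDegree (θ : N → ℂ))
    (L : Subgroup G) [Fintype L] (hNL : N ≤ L) (hPL : (P : Subgroup G) ≤ L)
    (hLdec : ∀ l ∈ L, ∃ n ∈ N, ∃ x ∈ (P : Subgroup G), n * x = l)
    (η : IrrCharacter L) (hη : ∀ n : N, (η : L → ℂ) ⟨n, hNL n.2⟩ = (θ : N → ℂ) n) :
    ∃ χ : IrrCharacter G, χ ∈ principalBlock M G ∧ ¬ p ∣ charDegree (χ : G → ℂ) ∧
      classInner (fun n : N => (χ : G → ℂ) n) (θ : N → ℂ) ≠ 0 := by
  classical
  have hpr := isPrime_of_modular hM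
  have hpp : p.Prime := hp.out
  by_contra hcon
  push Not at hcon
  set e₀ := blockCoeff (principalBlock M G) with he₀
  have hB₀ : IsPBlock M (principalBlock M G) := isPBlock_principalBlock M G
  have he₀l : ∀ g, MemLocalRing M (e₀ g) := fun g => blockCoeff_memLocalRing hB₀ g
  -- the multiplicities
  let mm : IrrCharacter G → ℂ := fun χ => classInner (fun l : L => (χ : G → ℂ) l) (η : L → ℂ)
  have hmnat : ∀ χ, ∃ n : ℕ, mm χ = n := fun χ => IsCharacter.classInner_nat
    (IsCharacter.comp (IsIrrCharacter.isCharacter χ.2) L.subtype) (IsIrrCharacter.isCharacter η.2)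
  letI : Fintype (N.subgroupOf L) := Fintype.ofFinite _
  let θ' : N.subgroupOf L → ℂ := (θ : N → ℂ) ∘ Subgroup.subgroupOfEquivOfLe hNL
  have hθ'irr : IsIrrCharacter (N.subgroupOf L) θ' :=
    ((H8Group.irrComp (Subgroup.subgroupOfEquivOfLe hNL) θ : IrrCharacter (N.subgroupOf L))).2
  have hηres : (fun n : N.subgroupOf L => (η : L → ℂ) n) = θ' := by
    funext n
    have h1 := hη (Subgroup.subgroupOfEquivOfLe hNL n)
    exact h1
  have hzero : ∀ χ : IrrCharacter G, classInner (fun n : N => (χ : G → ℂ) n) (θ : N → ℂ) = 0 → mm χ = 0 := by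
    intro χ h0
    have h1 := classInner_res_trans N L hNL χ (θ : N → ℂ)
    rw [h0] at h1
    obtain ⟨n₀, hn₀⟩ := hmnat χ
    by_contra hne
    have hpos : 0 < n₀ := by
      rw [hn₀] at hne
      exact Nat.pos_of_ne_zero (fun h => hne (by rw [h]; simp))
    have hk : ∀ ψ : IrrCharacter L, ∃ a : ℕ, classInner (fun n : L => (χ : G → ℂ) n) (ψ : L → ℂ) *
        classInner (fun n : N.subgroupOf L => (ψ : L → ℂ) n) ((θ : N → ℂ) ∘ Subgroup.subgroupOfEquivOfLe hNL) = a := by
      intro ψ
      obtain ⟨a, ha⟩ := IsCharacter.classInner_nat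
        (IsCharacter.comp (IsIrrCharacter.isCharacter χ.2) L.subtype) (IsIrrCharacter.isCharacter ψ.2)
      obtain ⟨b, hb⟩ := IsCharacter.classInner_nat
        (IsCharacter.comp (IsIrrCharacter.isCharacter ψ.2) (N.subgroupOf L).subtype) (IsIrrCharacter.isCharacter hθ'irr)
      refine ⟨a * b, ?_⟩
      push_cast
      rw [← ha, ← hb]
      rfl
    choose a ha using hk
    simp only [ha] at h1
    have h2 : ∑ ψ, a ψ = 0 := by
      exact_mod_cast h1.symm
    have h3 := (Finset.sum_eq_zero_iff.mp h2) η (Finset.mem_univ _)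
    have h4 := ha η
    rw [h3] at h4
    have h5 : classInner (fun n : L => (χ : G → ℂ) n) (η : L → ℂ) = mm χ := rfl
    rw [h5, hn₀, hηres] at h4
    have h6 : classInner θ' ((θ : N → ℂ) ∘ Subgroup.subgroupOfEquivOfLe hNL) = 1 :=
      classInner_irr_self hθ'irr
    rw [h6] at h4
    simp only [mul_one, Nat.cast_zero] at h4
    exact hne (by rw [hn₀, h4])
  -- the sum of degrees
  set D : ℂ := ∑ χ : IrrCharacter G, indic (principalBlock M G) χ * ((χ : G → ℂ) 1 * mm χ) with hD
  have hDI : MemLocalIdeal M D := by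
    refine MemLocalIdeal.sum _ fun χ _ => ?_
    by_cases hχ : χ ∈ principalBlock M G
    · rw [indic_apply_of_mem hχ, one_mul]
      by_cases hd : p ∣ charDegree (χ : G → ℂ)
      · obtain ⟨n, hn⟩ := hmnat χ
        rw [hn]
        refine MemLocalIdeal.mul_right ?_ (MemLocalRing.natCast n)
        rw [apply_one_eq_charDegree (IsIrrCharacter.isCharacter χ.2)]
        exact (natCast_memLocalIdeal_iff hM _).mpr hd
      · rw [hzero χ (hcon χ hχ hd), mul_zero]
        exact memLocalIdeal_zero
    · rw [indic_apply_of_notMem hχ, zero_mul]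
      exact memLocalIdeal_zero
  -- the same sum by the coefficients
  set E : ℂ := ∑ l : L, e₀ (l : G) * (η : L → ℂ) l with hE
  have hDE : D = (L.index : ℂ) * E := by
    have h1 : ∀ l : L, e₀ (l : G) = (Nat.card G : ℂ)⁻¹ * ∑ χ : IrrCharacter G,
        indic (principalBlock M G) χ * ((χ : G → ℂ) 1 * conj ((χ : G → ℂ) l)) := by
      intro l
      rw [he₀, blockCoeff_eq_coef, coef]
    have h2 : E = (Nat.card G : ℂ)⁻¹ * ∑ χ : IrrCharacter G, indic (principalBlock M G) χ *
        ((χ : G → ℂ) 1 * ∑ l : L, conj ((χ : G → ℂ) l) * (η : L → ℂ) l) := by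
      rw [hE]
      simp only [h1, Finset.mul_sum, Finset.sum_mul]
      rw [Finset.sum_comm]
      refine Finset.sum_congr rfl fun χ _ => ?_
      refine Finset.sum_congr rfl fun l _ => ?_
      ring
    have h3 : ∀ χ : IrrCharacter G, ∑ l : L, conj ((χ : G → ℂ) l) * (η : L → ℂ) l = (Nat.card L : ℂ) * mm χ := by
      intro χ
      obtain ⟨n, hn⟩ := hmnat χ
      have hLne : (Nat.card L : ℂ) ≠ 0 := card_ne_zero_complex
      have h4 : conj (mm χ) = mm χ := by
        rw [hn]
        simp
      rw [← h4]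
      simp only [mm, classInner, map_mul, map_sum, Complex.conj_conj, map_inv₀, map_natCast]
      field_simp
    simp only [h3] at h2
    rw [h2, hD]
    have hG : (Nat.card G : ℂ) ≠ 0 := card_ne_zero_complex
    have hcard : (Nat.card G : ℂ) = (Nat.card L : ℂ) * (L.index : ℂ) := by
      exact_mod_cast (Subgroup.card_mul_index L).symm
    have hLne : (Nat.card L : ℂ) ≠ 0 := card_ne_zero_complex
    have hIne : (L.index : ℂ) ≠ 0 := by
      intro h
      rw [h, mul_zero] at hcard
      exact hG hcard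
    rw [Finset.mul_sum, Finset.mul_sum]
    refine Finset.sum_congr rfl fun χ _ => ?_
    rw [hcard]
    field_simp
  -- only the regular elements count
  have hEN : E = ∑ n : N, e₀ (n : G) * (θ : N → ℂ) n := by
    have h1 : ∀ l : L, e₀ (l : G) * (η : L → ℂ) l =
        if (l : G) ∈ N then e₀ (l : G) * (η : L → ℂ) l else 0 := by
      intro l
      split_ifs with hl
      · rfl
      · have h2 : p ∣ orderOf (l : G) := by
          by_contra hr
          apply hl
          obtain ⟨n, hn, x, hx, hnx⟩ := hLdec l l.2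
          have h3 : ((l : G) : G ⧸ N) = (x : G ⧸ N) := by
            rw [← hnx, QuotientGroup.mk_mul, (QuotientGroup.eq_one_iff n).mpr hn, one_mul]
          have h4 : ((l : G) : G ⧸ N) ^ orderOf (l : G) = 1 := by
            rw [← QuotientGroup.mk_pow, pow_orderOf_eq_one, QuotientGroup.mk_one]
          have h5 : ((l : G) : G ⧸ N) ^ Nat.card P = 1 := by
            rw [h3, ← QuotientGroup.mk_pow]
            have h6 : x ^ Nat.card P = 1 :=
              orderOf_dvd_iff_pow_eq_one.mp (Subgroup.orderOf_dvd_natCard (P : Subgroup G) hx)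
            rw [h6, QuotientGroup.mk_one]
          have h6 := pow_gcd_eq_one.mpr ⟨h4, h5⟩
          have h7 : Nat.gcd (orderOf (l : G)) (Nat.card P) = 1 := by
            rw [P.card_eq_multiplicity, ← Nat.coprime_iff_gcd_eq_one]
            apply Nat.Coprime.pow_right
            rw [Nat.coprime_comm, Nat.Prime.coprime_iff_not_dvd hpp]
            exact hr
          rw [h7, pow_one] at h6
          exact (QuotientGroup.eq_one_iff _).mp h6
        rw [he₀, blockCoeff_eq_zero_of_singular hM hB₀ h2, zero_mul]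
    rw [hE, Finset.sum_congr rfl (fun l _ => h1 l), ← Finset.sum_filter]
    symm
    refine Finset.sum_bij (fun n _ => (⟨n, hNL n.2⟩ : L)) ?_ ?_ ?_ ?_
    · intro n _
      simp
    · intro a _ b _ hab
      exact Subtype.ext (congrArg (fun x : L => (x : G)) hab)
    · intro l hl
      rw [Finset.mem_filter] at hl
      exact ⟨⟨l, hl.2⟩, Finset.mem_univ _, rfl⟩
    · intro n _
      rw [← hη]
  -- congruence in the principal block of `N`
  set z : N → ℂ := fun n => e₀ (n : G) with hz
  have hzc : IsClassFunction N z := by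
    intro g h
    exact blockCoeff_isClassFunction _ _ _
  have hzl : ∀ n, MemLocalRing M (z n) := fun n => he₀l _
  have hc : spec z ∈ zS M N := spec_mem_zS hzc hzl
  have h1 := zS_apply_congr (isPBlock_principalBlock M N) hc hθ (one_mem_principalBlock (M := M) (G := N))
  have hθ1 : (θ : N → ℂ) 1 ≠ 0 := irr_apply_one_ne_zero θ
  have hEθ : E = (θ : N → ℂ) 1 * spec z θ := by
    rw [hEN]
    simp only [spec]
    field_simp
    rfl
  have hone : spec z (oneIrr N) = ∑ g, if g ∈ N then e₀ g else 0 := by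
    rw [pm_sum_subgroup N e₀]
    simp [spec, oneIrr, hz]
  rw [hone] at h1
  have hunit := pm_sum_unit hM P N
  apply hunit
  -- conclude
  have h2 : MemLocalIdeal M E := by
    have hidx : ¬ p ∣ L.index := fun h => P.not_dvd_index (h.trans (Subgroup.index_dvd_of_le hPL))
    have h3 := MemLocalIdeal.mul_left (inv_natCast_memLocalRing hM hidx) hDI
    rw [hDE] at h3
    have hIne : (L.index : ℂ) ≠ 0 := natCast_ne_zero_of_not_dvd hidx
    have h4 : (L.index : ℂ)⁻¹ * ((L.index : ℂ) * E) = E := by
      field_simp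
    rw [h4] at h3
    exact h3
  have hdeg' : ¬ MemLocalIdeal M ((θ : N → ℂ) 1) := by
    rw [apply_one_eq_charDegree (IsIrrCharacter.isCharacter θ.2)]
    exact natCast_not_memLocalIdeal hM hdeg
  rw [hEθ] at h2
  have hθl : MemLocalRing M ((θ : N → ℂ) 1) := memLocalRing_of_isIntegral (irr_isIntegral θ 1)
  have hspecl : MemLocalRing M (spec z θ) := zS_apply_mem hc θ
  rcases MemLocalIdeal.of_mul hθl hspecl h2 with h3 | h3
  · exact absurd h3 hdeg'
  · have h4 := MemLocalIdeal.sub h3 h1
    simp only [sub_sub_cancel] at h4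
    exact h4

end Mass

end Cfsg.Agent.Lib.Blocks
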