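import Cfsg.Agent.Lib.Blocks.QuotBlocks
import Cfsg.Agent.Lib.Blocks.Inflate
import Cfsg.Agent.Lib.H8Group.RankTrace

/-!
# The regular rank of the principal block of `G = Q C_G(Q)`
-/

set_option autoImplicit false
set_option linter.unusedSectionVars false

namespace Cfsg.Agent.Lib.Blocks

open Cfsg Cfsg.Agent.Lib.Char Cfsg.Agent.Lib.H8Group
open scoped ComplexConjugate

universe u

section

variable {G : Type u} [Group G] [Fintype G] {M : Ideal AlgInt} {p : ℕ} [hp : Fact p.Prime]
variable (Q : Subgroup G) [hQ : Q.Normal] [Fintype (G ⧸ Q)]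

/-- Pull back to the regular elements. -/
noncomputable def regPull (p : ℕ) : (G ⧸ Q → ℂ) →ₗ[ℂ] (G → ℂ) where
  toFun h := pRegularPart p (fun x : G => h (x : G ⧸ Q))
  map_add' a b := by
    classical
    funext x
    simp only [pRegularPart_apply, Pi.add_apply]
    split_ifs <;> simp
  map_smul' c a := by
    classical
    funext x
    simp only [pRegularPart_apply, Pi.smul_apply, RingHom.id_apply, smul_eq_mul]
    split_ifs <;> simp

theorem regPull_apply (h : G ⧸ Q → ℂ) (x : G) :
    regPull Q p h x = pRegularPart p (fun x : G => h (x : G ⧸ Q)) x := rfl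

theorem regular_of_regular_mk {x : G} (hx : ¬ p ∣ orderOf x) : ¬ p ∣ orderOf (x : G ⧸ Q) := by
  intro h
  exact hx (h.trans (orderOf_map_dvd (QuotientGroup.mk' Q) x))

theorem regPull_pRegularPart (β : G ⧸ Q → ℂ) :
    regPull Q p (pRegularPart p β) = pRegularPart p (inflate Q β) := by
  classical
  funext x
  rw [regPull_apply]
  by_cases hx : p ∣ orderOf x
  · rw [pRegularPart_of_dvd _ hx, pRegularPart_of_dvd _ hx]
  · rw [pRegularPart_of_not_dvd _ hx, pRegularPart_of_not_dvd _ hx,
      pRegularPart_of_not_dvd _ (regular_of_regular_mk Q hx)]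

theorem regPull_eq_zero {h : G ⧸ Q → ℂ} (hreg : pRegularPart p h = h) (h0 : regPull Q p h = 0) : h = 0 := by
  classical
  funext y
  induction y using QuotientGroup.induction_on with
  | H g =>
    by_cases hg : p ∣ orderOf (g : G ⧸ Q)
    · rw [← hreg, pRegularPart_of_dvd _ hg]
      rfl
    · obtain ⟨r, hr, hrreg⟩ := exists_regular_lift (p := p) (P := Q) g hg
      have h1 := congrFun h0 r
      rw [regPull_apply, pRegularPart_of_not_dvd _ hrreg] at h1
      simp only [hr] at h1
      exact h1

variable {Q}
variable {k : ℕ}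

/-- The principal block of `G` pulled back from the quotient. -/
theorem regPull_span_eq (hM : IsPModular p M) (hQp : IsPGroup p Q)
    (hidx : (Subgroup.centralizer (Q : Set G)).index = p ^ k) [Fintype Q] :
    (Submodule.span ℂ ((fun χ : IrrCharacter (G ⧸ Q) => pRegularPart p (χ : G ⧸ Q → ℂ)) ''
        principalBlock M (G ⧸ Q))).map (regPull Q p) =
      Submodule.span ℂ ((fun χ : IrrCharacter G => pRegularPart p (χ : G → ℂ)) '' principalBlock M G) := by
  classical
  have := isPrime_of_modular hM
  have honeG : IsPBlock M (principalBlock M G) := isPBlock_principalBlock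
  rw [Submodule.map_span]
  apply le_antisymm
  · rw [Submodule.span_le]
    rintro _ ⟨_, ⟨θ, hθ, rfl⟩, rfl⟩
    apply Submodule.subset_span
    refine ⟨irrInflate Q θ, ?_, ?_⟩
    · have h1 : SameBlock M (inflate Q (fun _ : G ⧸ Q => (1 : ℂ))) (inflate Q (θ : G ⧸ Q → ℂ)) :=
        SameBlock.inflate Q hθ
      exact h1
    · exact (regPull_pRegularPart Q (θ : G ⧸ Q → ℂ)).symm
  · rw [Submodule.span_le]
    rintro _ ⟨χ, hχ, rfl⟩
    -- the function on the quotient
    set f : G ⧸ Q → ℂ := cosetSum Q (pRegularPart p (χ : G → ℂ)) with hf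
    have hfcl : IsClassFunction (G ⧸ Q) f :=
      cosetSum_isClassFunction Q (pRegularPart_isClassFunction (irr_isClassFunction χ))
    have hpull : regPull Q p f = pRegularPart p (χ : G → ℂ) := by
      funext x
      rw [regPull_apply]
      by_cases hx : p ∣ orderOf x
      · rw [pRegularPart_of_dvd _ hx, pRegularPart_of_dvd _ hx]
      · rw [pRegularPart_of_not_dvd _ hx, pRegularPart_of_not_dvd _ hx]
        simp only [hf, cosetSum]
        rw [Finset.sum_eq_single x]
        · rw [if_pos rfl, pRegularPart_of_not_dvd _ hx]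
        · intro y _ hy
          by_cases hy2 : p ∣ orderOf y
          · rw [pRegularPart_of_dvd _ hy2]
            simp
          · rw [if_neg]
            intro h
            exact hy (regular_eq_of_mk_eq hQp hidx hy2 hx h)
        · simp
    have hfreg : pRegularPart p f = f := by
      funext y
      by_cases hy : p ∣ orderOf y
      · rw [pRegularPart_of_dvd _ hy]
        simp only [hf, cosetSum]
        symm
        refine Finset.sum_eq_zero fun x _ => ?_
        split_ifs with h
        · have hxs : p ∣ orderOf x := by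
            have h1 : orderOf (x : G ⧸ Q) ∣ orderOf x := orderOf_map_dvd (QuotientGroup.mk' Q) _
            rw [h] at h1
            exact hy.trans h1
          rw [pRegularPart_of_dvd _ hxs]
        · rfl
      · rw [pRegularPart_of_not_dvd _ hy]
    have hinner : ∀ θ : IrrCharacter (G ⧸ Q), θ ∉ principalBlock M (G ⧸ Q) → classInner f (θ : G ⧸ Q → ℂ) = 0 := by
      intro θ hθ
      have h1 : classInner f (θ : G ⧸ Q → ℂ) = (Nat.card (G ⧸ Q) : ℂ)⁻¹ *
          ∑ g : G, pRegularPart p (χ : G → ℂ) g * conj (((irrInflate Q θ : IrrCharacter G) : G → ℂ) g) := by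
        rw [classInner, hf, sum_cosetSum_mul Q (pRegularPart p (χ : G → ℂ)) (fun u => conj ((θ : G ⧸ Q → ℂ) u))]
        rfl
      have hnot : irrInflate Q θ ∉ principalBlock M G := by
        intro h2
        apply hθ
        have h3 : SameBlock M (inflate Q (fun _ : G ⧸ Q => (1 : ℂ))) (inflate Q (θ : G ⧸ Q → ℂ)) := h2
        exact sameBlock_of_inflate_of_index (β := oneIrr (G ⧸ Q)) (β' := θ) hM hQp hidx h3
      have h4 := classInner_pRegularPart_eq_zero hM honeG hχ hnot
      rw [classInner] at h4
      rw [h1, (mul_eq_zero.mp h4).resolve_left (inv_ne_zero (by exact_mod_cast Nat.card_pos.ne')), mul_zero]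
    have hmem : f ∈ Submodule.span ℂ ((fun χ : IrrCharacter (G ⧸ Q) => pRegularPart p (χ : G ⧸ Q → ℂ)) ''
        principalBlock M (G ⧸ Q)) := by
      have h5 := classFunction_eq_sum f hfcl
      have h6 : f = ∑ θ : IrrCharacter (G ⧸ Q), classInner f (θ : G ⧸ Q → ℂ) • pRegularPart p (θ : G ⧸ Q → ℂ) := by
        funext y
        rw [Finset.sum_apply]
        by_cases hy : p ∣ orderOf y
        · have h9 : f y = 0 := by rw [← hfreg, pRegularPart_of_dvd _ hy]
          rw [h9]
          symm
          refine Finset.sum_eq_zero fun θ _ => ?_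
          simp only [Pi.smul_apply, pRegularPart_of_dvd _ hy, smul_zero]
        · have h8 := congrFun h5 y
          rw [Finset.sum_apply] at h8
          conv_lhs => rw [h8]
          refine Finset.sum_congr rfl fun θ _ => ?_
          simp only [Pi.smul_apply, pRegularPart_of_not_dvd _ hy]
      rw [h6]
      refine Submodule.sum_mem _ fun θ _ => ?_
      by_cases hθ : θ ∈ principalBlock M (G ⧸ Q)
      · exact Submodule.smul_mem _ _ (Submodule.subset_span ⟨θ, hθ, rfl⟩)
      · rw [hinner θ hθ, zero_smul]
        exact Submodule.zero_mem _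
    have h8 : (fun χ : IrrCharacter G => pRegularPart p (χ : G → ℂ)) χ = regPull Q p f := hpull.symm
    rw [h8, ← Submodule.map_span]
    exact Submodule.mem_map_of_mem hmem

theorem blockRank_principal_quot (hM : IsPModular p M) (hQp : IsPGroup p Q)
    (hidx : (Subgroup.centralizer (Q : Set G)).index = p ^ k) [Fintype Q] :
    blockRank p (principalBlock M G) = blockRank p (principalBlock M (G ⧸ Q)) := by
  classical
  rw [blockRank, blockRank, ← regPull_span_eq hM hQp hidx]
  set R := Submodule.span ℂ ((fun χ : IrrCharacter (G ⧸ Q) => pRegularPart p (χ : G ⧸ Q → ℂ)) ''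
    principalBlock M (G ⧸ Q)) with hR
  have hregR : ∀ h ∈ R, pRegularPart p h = h := by
    intro h hh
    induction hh using Submodule.span_induction with
    | mem x hx =>
      obtain ⟨θ, -, rfl⟩ := hx
      exact pRegularPart_pRegularPart _
    | zero =>
      funext y
      simp only [pRegularPart_apply, Pi.zero_apply]
      split_ifs <;> rfl
    | add x y _ _ hx hy =>
      funext u
      have hx' := congrFun hx u
      have hy' := congrFun hy u
      simp only [pRegularPart_apply, Pi.add_apply] at hx' hy' ⊢
      split_ifs at hx' hy' ⊢ with h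
      · simpa using (hx'.symm ▸ hy'.symm ▸ (by simp))
      · rfl
    | smul c x _ hx =>
      funext u
      have hx' := congrFun hx u
      simp only [pRegularPart_apply, Pi.smul_apply, smul_eq_mul] at hx' ⊢
      split_ifs at hx' ⊢ with h
      · rw [← hx']
        simp
      · rfl
  have hinj : Function.Injective ((regPull Q p).domRestrict R) := by
    rw [← LinearMap.ker_eq_bot, LinearMap.ker_eq_bot']
    intro x hx
    exact Subtype.ext (regPull_eq_zero Q (hregR x x.2) hx)
  have h1 := LinearMap.finrank_range_of_inj hinj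
  rw [LinearMap.range_domRestrict] at h1
  exact h1

end

end Cfsg.Agent.Lib.Blocks
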