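import Cfsg.Agent.Lib.Blocks.TwoPrimeA
import Cfsg.Agent.Lib.Char.FRamA

/-! # Galois-fixed characters of the principal block over `O^p(G)` with cyclic quotient -/

set_option autoImplicit false
set_option linter.unusedSectionVars false
set_option linter.style.haveILetI false

namespace Cfsg.Agent.Lib.Blocks

open Cfsg Cfsg.Agent.Lib.Char Cfsg.Agent.Lib.H8Group Module

universe u

section Det

variable {G : Type u} [Group G] [Finite G]

theorem sf_exists_rep_map {n : ℕ} (ρ : Representation ℂ G (Fin n → ℂ)) (σ : ℂ →+* ℂ) :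
    ∃ ρ' : Representation ℂ G (Fin n → ℂ), (∀ g, ρ'.character g = σ (ρ.character g)) ∧
      ∀ g, LinearMap.det (ρ' g) = σ (LinearMap.det (ρ g)) := by
  classical
  let M : G →* Matrix (Fin n) (Fin n) ℂ :=
    { toFun := fun g => (LinearMap.toMatrix' (ρ g)).map σ
      map_one' := by
        rw [map_one]
        have h : LinearMap.toMatrix' (1 : (Fin n → ℂ) →ₗ[ℂ] (Fin n → ℂ)) = 1 := LinearMap.toMatrix'_one
        rw [h]
        ext i j
        simp [Matrix.one_apply]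
      map_mul' := by
        intro x y
        rw [map_mul]
        have h : LinearMap.toMatrix' ((ρ x) * (ρ y)) = LinearMap.toMatrix' (ρ x) * LinearMap.toMatrix' (ρ y) :=
          LinearMap.toMatrix'_comp _ _
        rw [h, Matrix.map_mul] }
  let ρ' : Representation ℂ G (Fin n → ℂ) :=
    { toFun := fun g => Matrix.toLin' (M g)
      map_one' := by
        rw [map_one]
        exact Matrix.toLin'_one
      map_mul' := by
        intro x y
        rw [map_mul]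
        exact Matrix.toLin'_mul _ _ }
  refine ⟨ρ', fun g => ?_, fun g => ?_⟩
  · have h1 : ρ'.character g = Matrix.trace (M g) := by
      show LinearMap.trace ℂ _ (Matrix.toLin' (M g)) = _
      rw [Matrix.trace_toLin'_eq]
    have h2 : ρ.character g = Matrix.trace (LinearMap.toMatrix' (ρ g)) := by
      show LinearMap.trace ℂ _ (ρ g) = _
      rw [← Matrix.trace_toLin'_eq, Matrix.toLin'_toMatrix']
    rw [h1, h2]
    simp [M, Matrix.trace, map_sum]
  · show LinearMap.det (Matrix.toLin' (M g)) = _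
    rw [LinearMap.det_toLin', ← LinearMap.det_toMatrix' (ρ g), RingHom.map_det]
    rfl

/-- The determinant of the power-twisted character. -/
theorem sf_detChar_pow {χ : G → ℂ} (hχ : IsCharacter G χ) {k : ℕ} (hk : k.Coprime (Nat.card G))
    (g : G) : detChar (fun g => χ (g ^ k)) g = detChar χ g ^ k := by
  haveI : NeZero (Nat.card G) := ⟨Nat.card_pos.ne'⟩
  obtain ⟨σ, hσ⟩ := exists_sigma (Nat.card G) k hk
  obtain ⟨n, ρ, rfl⟩ := id hχ
  obtain ⟨ρ', h1, h2⟩ := sf_exists_rep_map ρ σ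
  have h3 : (fun g => ρ.character (g ^ k)) = ρ'.character := by
    funext g
    rw [h1 g, sigma_character hχ σ k hσ g]
  rw [h3, detChar_of_rep, detChar_of_rep, h2]
  apply hσ
  rw [← map_pow, ← map_pow, pow_card_eq_one', map_one, map_one]

end Det

section Cyc

variable {Q : Type*} [Group Q] [Finite Q] [IsCyclic Q]

theorem sf_dual_card : Nat.card (Q →* ℂˣ) = Nat.card Q := by
  classical
  letI : CommGroup Q := IsCyclic.commGroup
  obtain ⟨e⟩ := CommGroup.monoidHom_mulEquiv_of_hasEnoughRootsOfUnity Q ℂ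
  exact Nat.card_congr e.toEquiv

theorem sf_dual_finite : Finite (Q →* ℂˣ) := by
  classical
  letI : CommGroup Q := IsCyclic.commGroup
  obtain ⟨e⟩ := CommGroup.monoidHom_mulEquiv_of_hasEnoughRootsOfUnity Q ℂ
  exact Finite.of_equiv _ e.symm.toEquiv

theorem sf_dual_cyclic : IsCyclic (Q →* ℂˣ) := by
  classical
  letI : CommGroup Q := IsCyclic.commGroup
  obtain ⟨e⟩ := CommGroup.monoidHom_mulEquiv_of_hasEnoughRootsOfUnity Q ℂ
  exact isCyclic_of_injective e.toMonoidHom e.injective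

theorem sf_card_ker {p : ℕ} [hp : Fact p.Prime] (h : p ∣ Nat.card Q) :
    Nat.card {l : Q →* ℂˣ // l ^ p = 1} = p := by
  haveI := sf_dual_finite (Q := Q)
  haveI := sf_dual_cyclic (Q := Q)
  have h1 := IsCyclic.card_powMonoidHom_ker (G := Q →* ℂˣ) p
  rw [sf_dual_card, Nat.gcd_eq_right h] at h1
  exact h1

end Cyc

section Aux

variable {Λ : Type*} [CommGroup Λ]

theorem sf_aux1 {l x : Λ} (h : l * x = l) : x = 1 := mul_eq_left.mp h

theorem sf_aux2 {μ ν l₀ : Λ} {w p : ℕ} (h1 : μ ^ w = ν) (h2 : l₀ ^ w = ν ^ p) :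
    (μ ^ p) ^ w = l₀ ^ w := by
  rw [h2, ← h1, ← pow_mul, ← pow_mul, mul_comm]

theorem sf_aux3 (l μ : Λ) : l * μ⁻¹ * μ = l := inv_mul_cancel_right l μ

theorem sf_aux4 (l μ : Λ) : l * μ * μ⁻¹ = l := mul_inv_cancel_right l μ

end Aux

section Main

variable {G : Type u} [Group G] [Fintype G] {p : ℕ} [hp : Fact p.Prime]

theorem sf_linear_trivial {N : Subgroup G} (hNres : N = pResidual p G) (δ : G →* ℂˣ) {c : ℕ}
    (hδ : ∀ g, δ g ^ p ^ c = 1) : ∀ n ∈ N, δ n = 1 := by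
  have h1 : N ≤ δ.ker := by
    rw [hNres, pResidual, Subgroup.closure_le]
    intro x hx
    have hx' : Nat.Coprime (orderOf x) p := hx
    have h2 : δ x ^ orderOf x = 1 := by rw [← map_pow, pow_orderOf_eq_one, map_one]
    have h3 := pow_gcd_eq_one.mpr ⟨h2, hδ x⟩
    have h4 : Nat.gcd (orderOf x) (p ^ c) = 1 := Nat.Coprime.pow_right c hx'
    rw [h4, pow_one] at h3
    exact h3
  exact fun n hn => h1 hn

theorem sf_lift (P : Sylow p G) (N : Subgroup G) [hN : N.Normal] (hq : IsPGroup p (G ⧸ N)) (g : G) :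
    ∃ x ∈ (P : Subgroup G), (x : G ⧸ N) = (g : G ⧸ N) := by
  let π : G →* G ⧸ N := QuotientGroup.mk' N
  have hπ : Function.Surjective π := QuotientGroup.mk'_surjective N
  let Pb : Sylow p (G ⧸ N) := P.mapSurjective hπ
  have h1 : (Pb : Subgroup (G ⧸ N)).index = 1 := by
    obtain ⟨j, hj⟩ := IsPGroup.iff_card.mp hq
    have h2 : (Pb : Subgroup (G ⧸ N)).index ∣ p ^ j := hj ▸ Subgroup.index_dvd_card _
    obtain ⟨i, -, hi⟩ := (Nat.dvd_prime_pow hp.out).mp h2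
    rcases Nat.eq_zero_or_pos i with h0 | h0
    · rw [hi, h0, pow_zero]
    · exact absurd (hi ▸ dvd_pow_self p h0.ne') Pb.not_dvd_index
  have h2 : (g : G ⧸ N) ∈ (Pb : Subgroup (G ⧸ N)) := by
    rw [Subgroup.index_eq_one.mp h1]
    trivial
  obtain ⟨x, hx, hxg⟩ := h2
  exact ⟨x, hx, hxg⟩

theorem sf_quot_pow (P : Sylow p G) (N : Subgroup G) [hN : N.Normal] (hq : IsPGroup p (G ⧸ N)) {k : ℕ}
    (hk₁ : ∀ g : G, (∃ j : ℕ, orderOf g = p ^ j) → g ^ k = g ^ (1 + p)) (q : G ⧸ N) :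
    q ^ k = q ^ (1 + p) := by
  induction q using QuotientGroup.induction_on with
  | H g =>
  obtain ⟨x, hx, hxg⟩ := sf_lift P N hq g
  rw [← hxg]
  have h1 : ∃ j : ℕ, orderOf x = p ^ j := by
    obtain ⟨j, hj⟩ := IsPGroup.iff_orderOf.mp P.isPGroup' ⟨x, hx⟩
    exact ⟨j, by rw [← hj, Subgroup.orderOf_mk]⟩
  rw [← QuotientGroup.mk_pow, ← QuotientGroup.mk_pow, hk₁ x h1]

theorem sf_coprime {k : ℕ} (hk₁ : ∀ g : G, (∃ j : ℕ, orderOf g = p ^ j) → g ^ k = g ^ (1 + p))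
    (hk₂ : ∀ g : G, Nat.Coprime (orderOf g) p → g ^ k = g) : k.Coprime (Nat.card G) := by
  apply Nat.coprime_of_dvd
  intro r hr hrk hrG
  haveI : Fact r.Prime := ⟨hr⟩
  obtain ⟨g, hg⟩ := exists_prime_orderOf_dvd_card' r hrG
  have h1 : g ^ k = 1 := by
    obtain ⟨c, rfl⟩ := hrk
    rw [pow_mul, ← hg, pow_orderOf_eq_one, one_pow]
  have h2 : g = 1 := by
    by_cases hrp : r = p
    · subst hrp
      have h3 := hk₁ g ⟨1, by rw [hg, pow_one]⟩
      rw [h1, pow_add, pow_one, ← hg, pow_orderOf_eq_one, mul_one] at h3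
      exact h3.symm
    · have h3 := hk₂ g (by rw [hg]; exact (Nat.coprime_primes hr hp.out).mpr hrp)
      rw [h1] at h3
      exact h3.symm
  rw [h2, orderOf_one] at hg
  exact hr.one_lt.ne hg

/-- A character of `p'`-degree restricts irreducibly, for a cyclic `p`-quotient. -/
theorem sf_res_irr (N : Subgroup G) [hN : N.Normal] [Fintype N] (hq : IsPGroup p (G ⧸ N))
    (hcyc : IsCyclic (G ⧸ N)) (χ : IrrCharacter G) (hχ : ¬ p ∣ charDegree (χ : G → ℂ)) :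
    ∃ θ : IrrCharacter N, ∀ n : N, (θ : N → ℂ) n = (χ : G → ℂ) n := by
  classical
  letI : Fintype (G ⧸ N) := Fintype.ofFinite _
  obtain ⟨θ, hθ⟩ := exists_constituent N χ
  obtain ⟨e, he⟩ := exists_multiplicity (N := N) (IsIrrCharacter.isCharacter χ.2) θ.2
  have hcl := clifford_degree_nat (N := N) χ.2 θ.2 hθ
    (apply_one_eq_charDegree (IsIrrCharacter.isCharacter χ.2))
    (apply_one_eq_charDegree (IsIrrCharacter.isCharacter θ.2)) he
  have hle : N ≤ inertia N (θ : N → ℂ) :=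
    le_inertia N (IsCharacter.isClassFunction (IsIrrCharacter.isCharacter θ.2))
  have hidx : (inertia N (θ : N → ℂ)).index = 1 := by
    obtain ⟨j, hj⟩ := IsPGroup.iff_card.mp hq
    have h2 : (inertia N (θ : N → ℂ)).index ∣ p ^ j := by
      rw [← hj, ← Subgroup.index_eq_card]
      exact Subgroup.index_dvd_of_le hle
    obtain ⟨i, -, hi⟩ := (Nat.dvd_prime_pow hp.out).mp h2
    rcases Nat.eq_zero_or_pos i with h0 | h0
    · rw [hi, h0, pow_zero]
    · exfalso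
      apply hχ
      rw [hcl, hi]
      exact Dvd.dvd.mul_right (Dvd.dvd.mul_left (dvd_pow_self p h0.ne') _) _
  have htop := Subgroup.index_eq_one.mp hidx
  have hinv : ∀ (g : G) (n : N), (θ : N → ℂ) ⟨g * n * g⁻¹, Subgroup.Normal.conj_mem inferInstance _ n.2 g⟩ =
      (θ : N → ℂ) n := by
    intro g n
    have h1 : g⁻¹ ∈ inertia N (θ : N → ℂ) := by
      rw [htop]
      trivial
    have h2 := congrFun ((mem_inertia N).mp h1) n
    simp only [conjFun_apply] at h2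
    simpa using h2
  obtain ⟨χ₀, hχ₀, hres⟩ := Cfsg.Agent.Lib.Char.FRam.exists_ext_of_cyclic N θ.2 hinv hcyc
  have hresF : Cfsg.Agent.Lib.Char.resFun N χ₀ = (θ : N → ℂ) := funext hres
  have hθ' : IsIrrCharacter N (Cfsg.Agent.Lib.Char.resFun N χ₀) := hresF ▸ θ.2
  obtain ⟨β, hβ, hχβ⟩ := Cfsg.Agent.Lib.Char.exists_gallagher N (IsIrrCharacter.isCharacter hχ₀) hθ' χ.2
    (by rw [hresF]; exact hθ)
  have hcomm : ∀ a b : G ⧸ N, a * b = b * a := by
    intro a b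
    exact hcyc.exists_generator.elim fun c hc => by
      obtain ⟨i, rfl⟩ := Subgroup.mem_zpowers_iff.mp (hc a)
      obtain ⟨j, rfl⟩ := Subgroup.mem_zpowers_iff.mp (hc b)
      rw [← zpow_add, ← zpow_add, add_comm]
  have hβ1 : β 1 = 1 := comm_iff_irr_degree_one.mp hcomm ⟨β, hβ⟩
  refine ⟨θ, fun n => ?_⟩
  rw [hχβ]
  simp only [inflate]
  rw [(QuotientGroup.eq_one_iff (n : G)).mpr n.2, hβ1, one_mul]
  exact (hres n).symm

/-- Membership in the principal block is read on `N`, for a `p`-quotient. -/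
theorem sf_block_iff {M : Ideal AlgInt} (hM : IsPModular p M) (N : Subgroup G) [hN : N.Normal] [Fintype N]
    (hreg : ∀ x : G, ¬ p ∣ orderOf x → x ∈ N) (χ : IrrCharacter G) (θ : IrrCharacter N)
    (hres : ∀ n : N, (χ : G → ℂ) n = (θ : N → ℂ) n) :
    χ ∈ principalBlock M G ↔ θ ∈ principalBlock M N := by
  classical
  rw [mem_principalBlock_iff hM, mem_principalBlock_iff hM]
  suffices h : spec (regFun p G) χ = spec (regFun p N) θ by rw [h]
  unfold spec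
  have h1 : (χ : G → ℂ) 1 = (θ : N → ℂ) 1 := hres 1
  rw [h1]
  congr 1
  have h2 : regFun p G = extendByZero N (regFun p N) := by
    funext x
    by_cases hx : x ∈ N
    · rw [extendByZero_of_mem N _ hx]
      simp only [regFun, Subgroup.orderOf_mk]
    · rw [extendByZero_of_notMem N _ hx]
      simp only [regFun]
      rw [if_neg]
      exact fun h => hx (hreg x h)
  rw [h2, sum_extendByZero_mul]
  exact Finset.sum_congr rfl fun n _ => by rw [hres n]

theorem sf_isPGroup (N : Subgroup G) [hN : N.Normal] (hNres : N = pResidual p G) :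
    IsPGroup p (G ⧸ N) := by
  subst hNres
  exact Cfsg.Agent.Lib.Transfer.isPGroup_quotient_pResidual

theorem sf_comm_of_cyclic {Q : Type*} [Group Q] (hcyc : IsCyclic Q) (a b : Q) : a * b = b * a := by
  exact hcyc.exists_generator.elim fun c hc => by
    obtain ⟨i, rfl⟩ := Subgroup.mem_zpowers_iff.mp (hc a)
    obtain ⟨j, rfl⟩ := Subgroup.mem_zpowers_iff.mp (hc b)
    rw [← zpow_add, ← zpow_add, add_comm]

/-- The `p`-th root of the obstruction. -/
theorem sf_exists_root (P : Sylow p G) (N : Subgroup G) [hN : N.Normal] (hNres : N = pResidual p G)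
    (hcyc : IsCyclic (G ⧸ N)) {k : ℕ}
    (hk₁ : ∀ g : G, (∃ j : ℕ, orderOf g = p ^ j) → g ^ k = g ^ (1 + p))
    (hk₂ : ∀ g : G, Nat.Coprime (orderOf g) p → g ^ k = g)
    {χ₀ : G → ℂ} (hχ₀ : IsCharacter G χ₀) {d : ℕ} (hd : χ₀ 1 = d) (hpd : ¬ p ∣ d)
    (l₀ : G ⧸ N →* ℂˣ) (hl₀ : ∀ g : G, χ₀ (g ^ k) = (l₀ (g : G ⧸ N) : ℂ) * χ₀ g) :
    ∃ μ : G ⧸ N →* ℂˣ, μ ^ p = l₀ := by
  classical
  have hq : IsPGroup p (G ⧸ N) := sf_isPGroup N hNres
  haveI hΛf := sf_dual_finite (Q := G ⧸ N)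
  have hkc := sf_coprime hk₁ hk₂
  obtain ⟨δ, hδ⟩ := exists_detHom hχ₀
  let π : G →* G ⧸ N := QuotientGroup.mk' N
  have hdet : ∀ g : G, δ g ^ k = l₀ (π g) ^ d * δ g := by
    intro g
    apply Units.ext
    have h1 : (fun g => χ₀ (g ^ k)) = fun g => (((l₀.comp π) g : ℂˣ) : ℂ) * χ₀ g := funext hl₀
    have h2 := sf_detChar_pow hχ₀ hkc g
    rw [h1, detChar_twist (l₀.comp π) hχ₀ hd g, hδ] at h2
    push_cast
    rw [← h2]
    rfl
  set c := (Nat.card G).factorization p with hc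
  set m' := ordCompl[p] (Nat.card G) with hm'
  have hcard : p ^ c * m' = Nat.card G := Nat.ordProj_mul_ordCompl_eq_self _ _
  have hm'p : ¬ p ∣ m' := Nat.not_dvd_ordCompl hp.out Nat.card_pos.ne'
  have hν₀ : ∀ n ∈ N, (δ ^ m') n = 1 := by
    apply sf_linear_trivial hNres (δ ^ m') (c := c)
    intro g
    rw [MonoidHom.pow_apply, ← pow_mul, mul_comm, hcard, ← map_pow, pow_card_eq_one', map_one]
  let ν : G ⧸ N →* ℂˣ := QuotientGroup.lift N (δ ^ m') hν₀
  have hν : ∀ g : G, ν (g : G ⧸ N) = δ g ^ m' := fun g => rfl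
  have hmain : ∀ g : G, l₀ (g : G ⧸ N) ^ (d * m') = ν (g : G ⧸ N) ^ p := by
    intro g
    have h1 : ν (g : G ⧸ N) ^ k = ν (g : G ⧸ N) ^ (1 + p) := by
      rw [← map_pow, sf_quot_pow P N hq hk₁, map_pow]
    have h2 : ν (g : G ⧸ N) ^ k = l₀ (g : G ⧸ N) ^ (d * m') * ν (g : G ⧸ N) := by
      rw [hν, ← pow_mul, mul_comm m' k, pow_mul, hdet g, mul_pow, ← pow_mul]
      rfl
    rw [h2, pow_add, pow_one, mul_comm] at h1
    exact mul_left_cancel h1
  have hmain' : l₀ ^ (d * m') = ν ^ p := by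
    apply MonoidHom.ext
    intro q
    induction q using QuotientGroup.induction_on with
    | H g => exact hmain g
  have hcop : Nat.Coprime (d * m') (Nat.card (G ⧸ N →* ℂˣ)) := by
    rw [sf_dual_card]
    obtain ⟨j, hj⟩ := IsPGroup.iff_card.mp hq
    rw [hj]
    apply Nat.Coprime.pow_right
    apply Nat.Coprime.symm
    rw [Nat.Prime.coprime_iff_not_dvd hp.out]
    intro h
    rcases (Nat.Prime.dvd_mul hp.out).mp h with h | h
    · exact hpd h
    · exact hm'p h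
  have hbij := pow_bijective_of_coprime (G := G ⧸ N →* ℂˣ) hcop
  obtain ⟨μ, hμ⟩ := hbij.2 ν
  refine ⟨μ, hbij.1 ?_⟩
  show (μ ^ p) ^ (d * m') = l₀ ^ (d * m')
  exact sf_aux2 hμ hmain'

/-- The number of `σ`-fixed extensions is `p`. -/
theorem sf_fiber (P : Sylow p G) (N : Subgroup G) [hN : N.Normal] [Fintype N]
    (hNres : N = pResidual p G) (hcyc : IsCyclic (G ⧸ N)) (hnt : N ≠ ⊤) {k : ℕ}
    (hk₁ : ∀ g : G, (∃ j : ℕ, orderOf g = p ^ j) → g ^ k = g ^ (1 + p))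
    (hk₂ : ∀ g : G, Nat.Coprime (orderOf g) p → g ^ k = g)
    (θ : IrrCharacter N)
    (hinv : ∀ (g : G) (n : N), (θ : N → ℂ) ⟨g * n * g⁻¹, hN.conj_mem n n.2 g⟩ = (θ : N → ℂ) n)
    (hθd : ¬ p ∣ charDegree (θ : N → ℂ))
    (hθk : ∀ n : N, (θ : N → ℂ) (n ^ k) = (θ : N → ℂ) n) :
    Nat.card {χ : IrrCharacter G // (∀ n : N, (χ : G → ℂ) n = (θ : N → ℂ) n) ∧
      ∀ g : G, (χ : G → ℂ) (g ^ k) = (χ : G → ℂ) g} = p := by
  classical
  letI : Fintype (G ⧸ N) := Fintype.ofFinite _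
  have hq : IsPGroup p (G ⧸ N) := sf_isPGroup N hNres
  haveI hΛf := sf_dual_finite (Q := G ⧸ N)
  have hkc := sf_coprime hk₁ hk₂
  obtain ⟨χ₀, hχ₀, hres⟩ := Cfsg.Agent.Lib.Char.FRam.exists_ext_of_cyclic N θ.2 hinv hcyc
  have hχ₀c := IsIrrCharacter.isCharacter hχ₀
  have hresF : Cfsg.Agent.Lib.Char.resFun N χ₀ = (θ : N → ℂ) := funext hres
  have hθ' : IsIrrCharacter N (Cfsg.Agent.Lib.Char.resFun N χ₀) := hresF ▸ θ.2
  let ext : (G ⧸ N →* ℂˣ) → IrrCharacter G := fun l =>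
    ⟨fun g => inflate N (fun q => (l q : ℂ)) g * χ₀ g,
      Cfsg.Agent.Lib.Char.isIrrCharacter_gallagher N hχ₀c hθ' (isIrrCharacter_of_monoidHom l)⟩
  have hextapp : ∀ l g, (ext l : G → ℂ) g = (l (g : G ⧸ N) : ℂ) * χ₀ g := fun _ _ => rfl
  have hextinj : Function.Injective ext := by
    intro l l' h
    have h1 := Cfsg.Agent.Lib.Char.classInner_gallagher N hχ₀c hθ' (fun q => (l q : ℂ)) (fun q => (l' q : ℂ))
    have h3 : (fun g => inflate N (fun q => (l' q : ℂ)) g * χ₀ g) = (ext l : G → ℂ) :=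
      (congrArg Subtype.val h).symm
    rw [h3] at h1
    have h2 : classInner (fun g => inflate N (fun q => (l q : ℂ)) g * χ₀ g) (ext l : G → ℂ) = 1 :=
      classInner_irr_self (ext l).2
    rw [h2] at h1
    by_contra hne
    have h4 : (fun q => (l q : ℂ)) ≠ (fun q => (l' q : ℂ)) := fun he =>
      hne (MonoidHom.ext fun q => Units.ext (congrFun he q))
    rw [classInner_irr_of_ne (isIrrCharacter_of_monoidHom l) (isIrrCharacter_of_monoidHom l') h4] at h1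
    exact one_ne_zero h1
  have hextres : ∀ (l : G ⧸ N →* ℂˣ) (n : N), (ext l : G → ℂ) n = (θ : N → ℂ) n := by
    intro l n
    rw [hextapp, (QuotientGroup.eq_one_iff (n : G)).mpr n.2, map_one, Units.val_one, one_mul]
    exact hres n
  have hextsurj : ∀ χ : IrrCharacter G, (∀ n : N, (χ : G → ℂ) n = (θ : N → ℂ) n) →
      ∃ l, ext l = χ := by
    intro χ hχ
    have hover : classInner (Cfsg.Agent.Lib.Char.resFun N (χ : G → ℂ))
        (Cfsg.Agent.Lib.Char.resFun N χ₀) ≠ 0 := by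
      have h1 : Cfsg.Agent.Lib.Char.resFun N (χ : G → ℂ) = (θ : N → ℂ) := funext hχ
      rw [h1, hresF, classInner_irr_self θ.2]
      exact one_ne_zero
    obtain ⟨β, hβ, hχβ⟩ := Cfsg.Agent.Lib.Char.exists_gallagher N hχ₀c hθ' χ.2 hover
    have hβ1 : β 1 = 1 := comm_iff_irr_degree_one.mp (sf_comm_of_cyclic hcyc) ⟨β, hβ⟩
    obtain ⟨l, hl⟩ := IsCharacter.exists_monoidHom (IsIrrCharacter.isCharacter hβ) hβ1
    refine ⟨l, Subtype.ext ?_⟩
    rw [hχβ, hl]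
  have hpowirr : IsIrrCharacter G (fun g => χ₀ (g ^ k)) := isIrrCharacter_pow hχ₀ hkc
  obtain ⟨l₀, hl₀⟩ := hextsurj ⟨_, hpowirr⟩ (fun n => by
    show χ₀ ((n : G) ^ k) = (θ : N → ℂ) n
    have h1 := hres (n ^ k)
    rw [hθk] at h1
    simpa using h1)
  have hl₀' : ∀ g : G, χ₀ (g ^ k) = (l₀ (g : G ⧸ N) : ℂ) * χ₀ g := by
    intro g
    rw [← hextapp, hl₀]
  have hχ₀1 : χ₀ 1 = (charDegree (θ : N → ℂ) : ℂ) := by
    have h1 := hres 1
    rw [apply_one_eq_charDegree (IsIrrCharacter.isCharacter θ.2)] at h1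
    exact h1
  obtain ⟨μ, hμ⟩ := sf_exists_root P N hNres hcyc hk₁ hk₂ hχ₀c hχ₀1 hθd l₀ hl₀'
  have hfix : ∀ l : G ⧸ N →* ℂˣ, (∀ g : G, (ext l : G → ℂ) (g ^ k) = (ext l : G → ℂ) g) ↔
      (l * μ) ^ p = 1 := by
    intro l
    have hcalc : ∀ g : G, (ext l : G → ℂ) (g ^ k) =
        ((l (g : G ⧸ N) * ((l * μ) ^ p) (g : G ⧸ N) : ℂˣ) : ℂ) * χ₀ g := by
      intro g
      rw [hextapp, hl₀' g, QuotientGroup.mk_pow, sf_quot_pow P N hq hk₁, ← mul_assoc]
      congr 1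
      rw [← Units.val_mul]
      congr 1
      rw [MonoidHom.pow_apply, MonoidHom.mul_apply, mul_pow, ← hμ, MonoidHom.pow_apply, map_pow, pow_add,
        pow_one, mul_assoc]
    constructor
    · intro h
      have h1 : ext (l * (l * μ) ^ p) = ext l := by
        apply Subtype.ext
        funext g
        rw [← h g, hcalc g]
        rfl
      have h2 := hextinj h1
      exact sf_aux1 (Λ := G ⧸ N →* ℂˣ) h2
    · intro h g
      rw [hcalc g, h, hextapp]
      simp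
  have hcard : Nat.card {χ : IrrCharacter G // (∀ n : N, (χ : G → ℂ) n = (θ : N → ℂ) n) ∧
      ∀ g : G, (χ : G → ℂ) (g ^ k) = (χ : G → ℂ) g} = Nat.card {l : G ⧸ N →* ℂˣ // l ^ p = 1} := by
    refine (Nat.card_congr (Equiv.ofBijective
      (fun l : {l : G ⧸ N →* ℂˣ // l ^ p = 1} =>
        (⟨ext (l.1 * μ⁻¹), hextres _, (hfix _).mpr (by
          have h0 := l.2
          rw [show l.1 * μ⁻¹ * μ = l.1 from sf_aux3 l.1 μ]
          exact h0)⟩ :
          {χ : IrrCharacter G // (∀ n : N, (χ : G → ℂ) n = (θ : N → ℂ) n) ∧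
            ∀ g : G, (χ : G → ℂ) (g ^ k) = (χ : G → ℂ) g})) ⟨?_, ?_⟩)).symm
    · intro a b h
      have h1 := hextinj (congrArg Subtype.val h)
      exact Subtype.ext (mul_right_cancel h1)
    · rintro ⟨χ, h1, h2⟩
      obtain ⟨l, rfl⟩ := hextsurj χ h1
      exact ⟨⟨l * μ, (hfix l).mp h2⟩, Subtype.ext (congrArg ext (sf_aux4 (Λ := G ⧸ N →* ℂˣ) l μ))⟩
  rw [hcard]
  apply sf_card_ker
  obtain ⟨j, hj⟩ := IsPGroup.iff_card.mp hq
  rw [hj]
  apply dvd_pow_self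
  rintro rfl
  apply hnt
  have h1 : N.index = 1 := by
    rw [Subgroup.index_eq_card, hj, pow_zero]
  exact Subgroup.index_eq_one.mp h1

theorem sf_deg_eq {A B : Type*} [Group A] [Group B] {χ : A → ℂ} {θ : B → ℂ} (h : θ 1 = χ 1) :
    charDegree θ = charDegree χ := by
  simp only [charDegree, h]

/-- **The count.** -/
theorem sf_main {M : Ideal AlgInt} (hM : IsPModular p M) (P : Sylow p G) (N : Subgroup G)
    [hN : N.Normal] (hNres : N = pResidual p G) (hcyc : IsCyclic (G ⧸ N)) (hnt : N ≠ ⊤) (k : ℕ)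
    (hk₁ : ∀ g : G, (∃ j : ℕ, orderOf g = p ^ j) → g ^ k = g ^ (1 + p))
    (hk₂ : ∀ g : G, Nat.Coprime (orderOf g) p → g ^ k = g) :
    Nat.card {χ : IrrCharacter G // χ ∈ principalBlock M G ∧ ¬ p ∣ charDegree (χ : G → ℂ) ∧
      ∀ g : G, (χ : G → ℂ) (g ^ k) = (χ : G → ℂ) g} =
    p * Nat.card {θ : IrrCharacter ↥N // θ ∈ principalBlock M ↥N ∧ ¬ p ∣ charDegree (θ : ↥N → ℂ) ∧
      (∀ x ∈ (P : Subgroup G), ∀ n : ↥N, (θ : ↥N → ℂ) ⟨x * n * x⁻¹, hN.conj_mem n n.2 x⟩ = (θ : ↥N → ℂ) n) ∧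
      ∀ n : ↥N, (θ : ↥N → ℂ) (n ^ k) = (θ : ↥N → ℂ) n} := by
  classical
  letI : Fintype N := Fintype.ofFinite _
  have hq : IsPGroup p (G ⧸ N) := sf_isPGroup N hNres
  have hreg : ∀ x : G, ¬ p ∣ orderOf x → x ∈ N := by
    intro x hx
    rw [hNres]
    exact Subgroup.subset_closure ((Nat.Prime.coprime_iff_not_dvd hp.out).mpr hx).symm
  have hres : ∀ a : {χ : IrrCharacter G // χ ∈ principalBlock M G ∧ ¬ p ∣ charDegree (χ : G → ℂ) ∧
      ∀ g : G, (χ : G → ℂ) (g ^ k) = (χ : G → ℂ) g},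
      ∃ b : {θ : IrrCharacter ↥N // θ ∈ principalBlock M ↥N ∧ ¬ p ∣ charDegree (θ : ↥N → ℂ) ∧
        (∀ x ∈ (P : Subgroup G), ∀ n : ↥N, (θ : ↥N → ℂ) ⟨x * n * x⁻¹, hN.conj_mem n n.2 x⟩ = (θ : ↥N → ℂ) n) ∧
        ∀ n : ↥N, (θ : ↥N → ℂ) (n ^ k) = (θ : ↥N → ℂ) n},
        ∀ n : N, (b.1 : N → ℂ) n = (a.1 : G → ℂ) n := by
    rintro ⟨χ, hχB, hχd, hχk⟩
    obtain ⟨θ, hθ⟩ := sf_res_irr N hq hcyc χ hχd
    refine ⟨⟨θ, (sf_block_iff hM N hreg χ θ (fun n => (hθ n).symm)).mp hχB, ?_, ?_, ?_⟩, hθ⟩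
    · rw [sf_deg_eq (χ := (χ : G → ℂ)) (θ := (θ : N → ℂ)) (hθ 1)]
      exact hχd
    · intro x _ n
      rw [hθ, hθ n]
      exact IsCharacter.isClassFunction (IsIrrCharacter.isCharacter χ.2) _ x
    · intro n
      rw [hθ, hθ n, ← hχk (n : G)]
      rfl
  choose r hr using hres
  have key : ∀ b, Nat.card {a // r a = b} = p := by
    rintro ⟨θ, hθB, hθd, hθP, hθk⟩
    have hinv : ∀ (g : G) (n : N), (θ : N → ℂ) ⟨g * n * g⁻¹, hN.conj_mem n n.2 g⟩ = (θ : N → ℂ) n := by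
      intro g n
      obtain ⟨x, hx, hxg⟩ := sf_lift P N hq g
      have hm : x⁻¹ * g ∈ N := QuotientGroup.eq.mp hxg
      have h1 := IsCharacter.isClassFunction (IsIrrCharacter.isCharacter θ.2) n ⟨x⁻¹ * g, hm⟩
      have h2 := hθP x hx (⟨x⁻¹ * g, hm⟩ * n * (⟨x⁻¹ * g, hm⟩ : N)⁻¹)
      rw [h1] at h2
      rw [← h2]
      refine congrArg _ (Subtype.ext ?_)
      simp only [Subgroup.coe_mul, InvMemClass.coe_inv]
      group
    refine Eq.trans ?_ (sf_fiber P N hNres hcyc hnt hk₁ hk₂ θ hinv hθd hθk)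
    refine Nat.card_congr (Equiv.ofBijective (fun a => ⟨a.1.1, ?_, a.1.2.2.2⟩) ⟨?_, ?_⟩)
    · intro n
      rw [← hr a.1 n, a.2]
    · intro a b h
      have h' : a.1.1 = b.1.1 := congrArg (fun z : {χ : IrrCharacter G // (∀ n : N, (χ : G → ℂ) n = (θ : N → ℂ) n) ∧
        ∀ g : G, (χ : G → ℂ) (g ^ k) = (χ : G → ℂ) g} => z.1) h
      exact Subtype.ext (Subtype.ext h')
    · rintro ⟨χ, h1, h2⟩
      have hχB : χ ∈ principalBlock M G := (sf_block_iff hM N hreg χ θ h1).mpr hθB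
      have hχd : ¬ p ∣ charDegree (χ : G → ℂ) := by
        rw [sf_deg_eq (χ := (θ : N → ℂ)) (θ := (χ : G → ℂ)) (h1 1)]
        exact hθd
      refine ⟨⟨⟨χ, hχB, hχd, h2⟩, ?_⟩, rfl⟩
      apply Subtype.ext
      apply Subtype.ext
      funext n
      rw [hr]
      exact h1 n
  letI : Fintype {θ : IrrCharacter ↥N // θ ∈ principalBlock M ↥N ∧ ¬ p ∣ charDegree (θ : ↥N → ℂ) ∧
      (∀ x ∈ (P : Subgroup G), ∀ n : ↥N, (θ : ↥N → ℂ) ⟨x * n * x⁻¹, hN.conj_mem n n.2 x⟩ = (θ : ↥N → ℂ) n) ∧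
      ∀ n : ↥N, (θ : ↥N → ℂ) (n ^ k) = (θ : ↥N → ℂ) n} := Fintype.ofFinite _
  have h := Nat.card_congr (Equiv.sigmaFiberEquiv r)
  rw [Nat.card_sigma] at h
  rw [← h, Finset.sum_congr rfl (fun b _ => key b), Finset.sum_const, Finset.card_univ, smul_eq_mul,
    mul_comm, Nat.card_eq_fintype_card]

end Main

end Cfsg.Agent.Lib.Blocks
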