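import Cfsg.Agent.Lib.Blocks.TwoPrimeQ

/-! # Two primes: the step over an abelian normal `p`-subgroup -/

set_option autoImplicit false
set_option linter.unusedSectionVars false
set_option linter.style.haveILetI false

namespace Cfsg.Agent.Lib.Blocks

open Cfsg Cfsg.Agent.Lib.Char Cfsg.Agent.Lib.H8Group Cfsg.Agent.Lib.Coprime Module
open scoped commutatorElement

universe u

section Sylow

variable {G : Type u} [Group G] [Finite G]

/-- A `q`-subgroup lies in every normal subgroup of `q'`-index. -/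
theorem tp_le_of_not_dvd_index {q : ℕ} [hq : Fact q.Prime] {X Q : Subgroup G} [hX : X.Normal]
    (hQ : IsPGroup q Q) (h : ¬ q ∣ X.index) : Q ≤ X := by
  intro y hy
  obtain ⟨k, hk⟩ := hQ ⟨y, hy⟩
  have hk' : y ^ q ^ k = 1 := by
    have := congrArg Subtype.val hk
    simpa using this
  have h1 : (y : G ⧸ X) ^ q ^ k = 1 := by
    rw [← QuotientGroup.mk_pow, hk', QuotientGroup.mk_one]
  have h2 : (y : G ⧸ X) ^ X.index = 1 := by
    rw [← QuotientGroup.mk_pow]
    exact (QuotientGroup.eq_one_iff _).mpr (Subgroup.pow_index_mem X y)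
  have h3 := pow_gcd_eq_one.mpr ⟨h1, h2⟩
  have h4 : Nat.gcd (q ^ k) X.index = 1 := by
    rw [← Nat.coprime_iff_gcd_eq_one]
    exact Nat.Coprime.pow_left k ((Nat.Prime.coprime_iff_not_dvd hq.out).mpr h)
  rw [h4, pow_one] at h3
  exact (QuotientGroup.eq_one_iff y).mp h3

theorem tp_normalizer_of_forward {T H : Subgroup G} (h : ∀ t ∈ T, ∀ x ∈ H, t * x * t⁻¹ ∈ H) :
    T ≤ Subgroup.normalizer (H : Set G) := by
  intro t ht
  rw [Subgroup.mem_normalizer_iff]
  intro x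
  refine ⟨h t ht x, fun hx => ?_⟩
  have := h t⁻¹ (T.inv_mem ht) _ hx
  simpa [mul_assoc] using this

theorem tp_eq_one_of_mem {p : ℕ} [hp : Fact p.Prime] {P X : Subgroup G} (hP : IsPGroup p P)
    (hX : ¬ p ∣ Nat.card X) {x : G} (hxP : x ∈ P) (hxX : x ∈ X) : x = 1 := by
  have h1 : Disjoint X P := Subgroup.disjoint_of_coprime_natCard (tp_isPGroup_card_coprime hP hX)
  exact Subgroup.disjoint_def.mp h1 hxX hxP

/-- **Commuting Sylow subgroups** from the index conditions. -/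
theorem tp_lemC {p q : ℕ} [hp : Fact p.Prime] [hq : Fact q.Prime] (hpq : p ≠ q)
    (h1 : ¬ q ∣ (pPrimeCore p G).index) (h2 : ¬ p ∣ (pPrimeCore q G).index) :
    ∃ (P : Sylow p G) (Q : Sylow q G), ∀ x ∈ (P : Subgroup G), ∀ y ∈ (Q : Subgroup G), x * y = y * x := by
  classical
  set X := pPrimeCore p G with hXdef
  set Y := pPrimeCore q G with hYdef
  haveI hXn : X.Normal := Cfsg.Agent.Lib.Basic.pPrimeCore_normal p
  haveI hYn : Y.Normal := Cfsg.Agent.Lib.Basic.pPrimeCore_normal q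
  have hXc : ¬ p ∣ Nat.card X := by
    have h3 := Cfsg.Agent.Lib.Basic.pPrimeCore_coprime (G := G) p
    intro h4
    have h5 := Nat.dvd_gcd h4 (dvd_refl p)
    rw [h3] at h5
    exact hp.out.one_lt.ne' (Nat.dvd_one.mp h5)
  have hYc : ¬ q ∣ Nat.card Y := by
    have h3 := Cfsg.Agent.Lib.Basic.pPrimeCore_coprime (G := G) q
    intro h4
    have h5 := Nat.dvd_gcd h4 (dvd_refl q)
    rw [h3] at h5
    exact hq.out.one_lt.ne' (Nat.dvd_one.mp h5)
  obtain ⟨P₀⟩ : Nonempty (Sylow p G) := inferInstance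
  obtain ⟨Q₀⟩ : Nonempty (Sylow q G) := inferInstance
  have hQ₀X : (Q₀ : Subgroup G) ≤ X := tp_le_of_not_dvd_index Q₀.isPGroup' h1
  have hP₀Y : (P₀ : Subgroup G) ≤ Y := tp_le_of_not_dvd_index P₀.isPGroup' h2
  set D : Subgroup G := X ⊓ Y with hD
  haveI hDn : D.Normal := Subgroup.normal_inf_normal X Y
  set A₁ : Subgroup G := (P₀ : Subgroup G) ⊔ D with hA₁
  have hA₁Y : A₁ ≤ Y := sup_le hP₀Y inf_le_right
  have hA₁c : ¬ q ∣ Nat.card A₁ := fun h => hYc (h.trans (Subgroup.card_dvd_of_le hA₁Y))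
  have hcomm : ∀ x ∈ Y, ∀ y ∈ X, x⁻¹ * (y * x * y⁻¹) ∈ D := by
    intro x hx y hy
    refine ⟨?_, Y.mul_mem (Y.inv_mem hx) (hYn.conj_mem x hx y)⟩
    have h3 : x⁻¹ * (y * x * y⁻¹) = (x⁻¹ * y * x) * y⁻¹ := by group
    rw [h3]
    refine X.mul_mem ?_ (X.inv_mem hy)
    have := hXn.conj_mem y hy x⁻¹
    simpa using this
  have hnorm : (Q₀ : Subgroup G) ≤ Subgroup.normalizer (A₁ : Set G) := by
    apply tp_normalizer_of_forward
    intro t ht x hx
    rw [hA₁, Subgroup.mem_sup_of_normal_right] at hx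
    obtain ⟨a, ha, b, hb, rfl⟩ := hx
    have h3 : t * (a * b) * t⁻¹ = a * (a⁻¹ * (t * a * t⁻¹)) * (t * b * t⁻¹) := by group
    rw [h3]
    refine A₁.mul_mem (A₁.mul_mem (Subgroup.mem_sup_left ha) (Subgroup.mem_sup_right ?_))
      (Subgroup.mem_sup_right (hDn.conj_mem b hb t))
    exact hcomm a (hP₀Y ha) t (hQ₀X ht)
  have hact : CoprimeAction (Q₀ : Subgroup G) A₁ := tp_coprimeAction Q₀.isPGroup' hA₁c hnorm
  obtain ⟨P₁, hP₁, hQP₁⟩ := hact.exists_invariant_sylow p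
  have hP₁idx : ¬ p ∣ P₁.index := by
    rw [← Subgroup.relIndex_mul_index hP₁.le]
    intro h3
    rcases (Nat.Prime.dvd_mul hp.out).mp h3 with h4 | h4
    · exact hP₁.not_dvd h4
    · exact P₀.not_dvd_index (h4.trans (Subgroup.index_dvd_of_le le_sup_left))
  refine ⟨hP₁.isP.toSylow hP₁idx, Q₀, ?_⟩
  intro x hx y hy
  have hx' : x ∈ P₁ := hx
  have hxY : x ∈ Y := hA₁Y (hP₁.le hx')
  have h3 : x⁻¹ * (y * x * y⁻¹) ∈ X := (hcomm x hxY y (hQ₀X hy)).1
  have h4 : x⁻¹ * (y * x * y⁻¹) ∈ P₁ := by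
    refine P₁.mul_mem (P₁.inv_mem hx') ?_
    exact (Subgroup.mem_normalizer_iff.mp (hQP₁ hy) x).mp hx'
  -- a `p`-element in `X`
  have h5 : x⁻¹ * (y * x * y⁻¹) = 1 := tp_eq_one_of_mem hP₁.isP hXc h4 h3
  have h6 : y * x * y⁻¹ = x := by
    have := eq_inv_of_mul_eq_one_right h5
    simpa using this
  calc x * y = (y * x * y⁻¹) * y := by rw [h6]
    _ = y * x := by group

/-- A subgroup of a nilpotent finite group together with the commutator subgroup generating
it is everything: coprime action version. -/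
theorem tp_lemD {p : ℕ} [hp : Fact p.Prime] {P Q : Subgroup G} (hP : IsPGroup p P)
    (hact : CoprimeAction Q P) (hle : ⁅P, Q⁆ ≤ ⁅P, P⁆) : ∀ x ∈ P, ∀ y ∈ Q, x * y = y * x := by
  classical
  haveI : Group.IsNilpotent P := hP.isNilpotent
  have h1 := hact.commutator_sup_centralizer
  let H : Subgroup P := (P ⊓ Subgroup.centralizer (Q : Set G)).subgroupOf P
  have h2 : H ⊔ _root_.commutator P = ⊤ := by
    apply Subgroup.map_injective P.subtype_injective
    rw [Subgroup.map_sup, Subgroup.map_subtype_commutator]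
    have h3 : H.map P.subtype = P ⊓ Subgroup.centralizer (Q : Set G) := by
      exact Subgroup.map_subgroupOf_eq_of_le inf_le_left
    rw [h3, ← MonoidHom.range_eq_map, Subgroup.range_subtype]
    apply le_antisymm
    · refine sup_le inf_le_left ?_
      exact Subgroup.commutator_le.mpr fun a ha b hb =>
        P.mul_mem (P.mul_mem (P.mul_mem ha hb) (P.inv_mem ha)) (P.inv_mem hb)
    · rw [sup_comm]
      calc P = ⁅P, Q⁆ ⊔ (P ⊓ Subgroup.centralizer (Q : Set G)) := h1.symm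
        _ ≤ _ := sup_le_sup_right hle _
  have h4 : H ⊔ frattini P = ⊤ := by
    apply top_le_iff.mp
    rw [← h2]
    exact sup_le_sup_left Cfsg.Agent.Lib.Basic.commutator_le_frattini_of_isNilpotent _
  have h5 : H = ⊤ := frattini_nongenerating h4
  intro x hx y hy
  have h6 : (⟨x, hx⟩ : P) ∈ H := by
    rw [h5]
    trivial
  have h7 : x ∈ Subgroup.centralizer (Q : Set G) := (Subgroup.mem_subgroupOf.mp h6).2
  exact (Subgroup.mem_centralizer_iff.mp h7 y hy).symm

end Sylow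

section Over

variable {G : Type u} [Group G] [Fintype G]

/-- If `χ|_L` contains `ψ₀` and `ψ₀|_K = θ` is irreducible, then `χ|_K` contains `θ`. -/
theorem tp_over_res (K : Subgroup G) [hK : K.Normal] [Fintype K] (L : Subgroup G) [Fintype L]
    (hKL : K ≤ L) (χ : IrrCharacter G) (ψ₀ : IrrCharacter L) {θ : K → ℂ} (hθ : IsIrrCharacter K θ)
    (hres : ∀ k : K, (ψ₀ : L → ℂ) ⟨k, hKL k.2⟩ = θ k)
    (h : classInner (fun n : L => (χ : G → ℂ) n) (ψ₀ : L → ℂ) ≠ 0) :
    classInner (fun n : K => (χ : G → ℂ) n) θ ≠ 0 := by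
  classical
  letI : Fintype (K.subgroupOf L) := Fintype.ofFinite _
  rw [classInner_res_trans K L hKL χ θ]
  have hθ' : IsIrrCharacter (K.subgroupOf L) (θ ∘ Subgroup.subgroupOfEquivOfLe hKL) :=
    isIrrCharacter_comp_mulEquiv _ hθ
  have ha : ∀ ψ : IrrCharacter L, ∃ n : ℕ, classInner (fun n : L => (χ : G → ℂ) n) (ψ : L → ℂ) = n :=
    fun ψ => IsCharacter.classInner_irr_eq_nat
      (IsCharacter.comp (IsIrrCharacter.isCharacter χ.2) L.subtype) ψ.2
  have hb : ∀ ψ : IrrCharacter L, ∃ n : ℕ, classInner (fun n : K.subgroupOf L => (ψ : L → ℂ) n)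
      (θ ∘ Subgroup.subgroupOfEquivOfLe hKL) = n :=
    fun ψ => IsCharacter.classInner_irr_eq_nat
      (IsCharacter.comp (IsIrrCharacter.isCharacter ψ.2) (K.subgroupOf L).subtype) hθ'
  choose a ha using ha
  choose b hb using hb
  have hsum : (∑ ψ : IrrCharacter L, classInner (fun n : L => (χ : G → ℂ) n) (ψ : L → ℂ) *
      classInner (fun n : K.subgroupOf L => (ψ : L → ℂ) n) (θ ∘ Subgroup.subgroupOfEquivOfLe hKL)) =
      ((∑ ψ : IrrCharacter L, a ψ * b ψ : ℕ) : ℂ) := by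
    push_cast
    exact Finset.sum_congr rfl fun ψ _ => by rw [ha ψ, hb ψ]
  rw [hsum]
  have ha0 : a ψ₀ ≠ 0 := by
    intro h0
    apply h
    rw [ha ψ₀, h0, Nat.cast_zero]
  have hb0 : b ψ₀ ≠ 0 := by
    intro h0
    have h1 := hb ψ₀
    have h2 : (fun n : K.subgroupOf L => (ψ₀ : L → ℂ) n) = θ ∘ Subgroup.subgroupOfEquivOfLe hKL := by
      funext n
      exact hres (Subgroup.subgroupOfEquivOfLe hKL n)
    rw [h2, classInner_irr_self hθ', h0, Nat.cast_zero] at h1
    exact one_ne_zero h1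
  have hpos : ∑ ψ : IrrCharacter L, a ψ * b ψ ≠ 0 := by
    intro h0
    have := (Finset.sum_eq_zero_iff.mp h0) ψ₀ (Finset.mem_univ _)
    exact (mul_ne_zero ha0 hb0) this
  exact_mod_cast hpos

/-- Extension of an invariant character to a group of `p`-power index over it. -/
theorem tp_ext_pgroup {p : ℕ} [hp : Fact p.Prime] (N : Subgroup G) [hN : N.Normal] [Fintype N]
    (T : Subgroup G) (hNT : N ≤ T) {b : ℕ} (hT : (N.subgroupOf T).index = p ^ b)
    (θ : IrrCharacter N) (hinv : ∀ g : T, conjIrr N (g : G) θ = θ)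
    (hdeg : ¬ p ∣ charDegree (θ : N → ℂ))
    {u : ℕ} (hu : ¬ p ∣ u) (hdet : ∀ n : N, detChar (θ : N → ℂ) n ^ u = 1) :
    ∃ η : T → ℂ, IsCharacter T η ∧ ∀ n : N, η ⟨n, hNT n.2⟩ = (θ : N → ℂ) n := by
  classical
  have hpp : p.Prime := hp.out
  letI : Fintype T := Fintype.ofFinite _
  let N' : Subgroup T := N.subgroupOf T
  haveI hN' : N'.Normal := Subgroup.normal_subgroupOf
  letI : Fintype N' := Fintype.ofFinite _
  let e : N' ≃* N := Subgroup.subgroupOfEquivOfLe hNT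
  let θ' : IrrCharacter N' := prTrans N T hNT θ
  have hθ'app : ∀ n : N', (θ' : N' → ℂ) n = (θ : N → ℂ) (e n) := fun n => rfl
  have hθc : IsCharacter N' (θ' : N' → ℂ) := IsIrrCharacter.isCharacter θ'.2
  have hθc0 : IsCharacter N (θ : N → ℂ) := IsIrrCharacter.isCharacter θ.2
  have hdetθ' : ∀ n : N', detChar (θ' : N' → ℂ) n = detChar (θ : N → ℂ) (e n) := by
    intro n
    have h1 := congrFun (detChar_comp e.toMonoidHom hθc0) n
    exact h1
  obtain ⟨δ, hδ⟩ := exists_detHom hθc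
  have hθinv : ∀ (t : T) (n : N'), (θ' : N' → ℂ) (MulAut.conjNormal t n) = (θ' : N' → ℂ) n := by
    intro t n
    rw [hθ'app, hθ'app]
    have h1 := congrFun (congrArg Subtype.val (hinv t⁻¹)) (e n)
    simp only [conjIrr_coe, Cfsg.Agent.Lib.Char.conjFun_apply] at h1
    rw [← h1]
    refine congrArg _ (Subtype.ext ?_)
    show (((MulAut.conjNormal t n : N') : T) : G) = (((t⁻¹ : T) : G))⁻¹ * ((n : T) : G) * ((t⁻¹ : T) : G)
    rw [MulAut.conjNormal_apply]
    simp
  have hδinv : ∀ (t n : T) (hn : n ∈ N'), δ ⟨t * n * t⁻¹, hN'.conj_mem n hn t⟩ = δ ⟨n, hn⟩ := by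
    intro t n hn
    apply Units.ext
    rw [← hδ, ← hδ]
    have h1 := congrFun (detChar_comp (MulAut.conjNormal t : N' ≃* N').toMonoidHom hθc) ⟨n, hn⟩
    have h2 : (fun h : N' => (θ' : N' → ℂ) ((MulAut.conjNormal t : N' ≃* N').toMonoidHom h)) = (θ' : N' → ℂ) := by
      funext h
      exact hθinv t h
    rw [h2] at h1
    rw [h1]
    congr 1
  have hδu : ∀ x : N', δ x ^ u = 1 := by
    intro x
    apply Units.ext
    rw [Units.val_pow_eq_pow_val, ← hδ, hdetθ', hdet, Units.val_one]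
  have hpcop : ∀ {c : ℕ}, ¬ p ∣ c → Nat.Coprime N'.index c := by
    intro c hc
    show Nat.Coprime (N.subgroupOf T).index c
    rw [hT]
    apply Nat.Coprime.pow_left
    exact (Nat.Prime.coprime_iff_not_dvd hpp).mpr hc
  obtain ⟨μ, hμ1, _⟩ := exists_ext_linear N' δ hδinv hδu (hpcop hu)
  have hq : IsPGroup p (T ⧸ N') := by
    apply IsPGroup.of_card (n := b)
    rw [← Subgroup.index_eq_card]
    exact hT
  haveI : Group.IsSolvable (T ⧸ N') := by
    haveI := hq.isNilpotent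
    infer_instance
  have hd1 : (θ' : N' → ℂ) 1 = (charDegree (θ : N → ℂ) : ℂ) := by
    rw [hθ'app, map_one]
    exact apply_one_eq_charDegree hθc0
  have hcinv : ∀ g : T, Cfsg.Agent.Lib.Char.conjFun N' g (θ' : N' → ℂ) = (θ' : N' → ℂ) := by
    intro g
    funext n
    simp only [Cfsg.Agent.Lib.Char.conjFun_apply]
    have h1 := hθinv g⁻¹ n
    rw [← h1]
    refine congrArg _ (Subtype.ext ?_)
    simp [MulAut.conjNormal_apply]
  obtain ⟨χ, hχ1, hχ2, _⟩ := exists_ext_det_of_solvable (Nat.card T) T N' (θ' : N' → ℂ) θ'.2 hcinv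
    (charDegree (θ : N → ℂ)) hd1 (hpcop hdeg) μ (fun n => by rw [hμ1, hdetθ', ← hδ, hdetθ']) rfl
  refine ⟨χ, IsIrrCharacter.isCharacter hχ1, fun n => ?_⟩
  exact hχ2 ⟨⟨n, hNT n.2⟩, n.2⟩

end Over

section HypQ

variable {A : Type u} [Group A] [Finite A] {p q : ℕ} [hp : Fact p.Prime] [hq : Fact q.Prime]

/-- `S`-invariant characters of `U` have `q'`-degree, when all `p'`-degree characters of `A` do. -/
theorem tp_hyp_Q
    (hiA : ∀ χ : IrrCharacter A, ¬ p ∣ charDegree (χ : A → ℂ) → ¬ q ∣ charDegree (χ : A → ℂ))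
    (S : Sylow p A) (U : Subgroup A) [hUn : U.Normal] (hU : ¬ p ∣ Nat.card U)
    (β : IrrCharacter U) (hβ : InvBy (S : Subgroup A) (β : U → ℂ)) :
    ¬ q ∣ charDegree (β : U → ℂ) := by
  classical
  letI : Fintype A := Fintype.ofFinite _
  letI : Fintype U := Fintype.ofFinite _
  set D : Subgroup A := U ⊔ (S : Subgroup A) with hD
  letI : Fintype D := Fintype.ofFinite _
  have hUD : U ≤ D := le_sup_left
  have hSD : (S : Subgroup A) ≤ D := le_sup_right
  have hSinert : (S : Subgroup A) ≤ inertia U (β : U → ℂ) := by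
    intro s hs
    rw [mem_inertia]
    funext n
    simp only [conjFun_apply]
    exact hβ s⁻¹ (Subgroup.inv_mem _ hs) n _ (by simp)
  have hUinert : U ≤ inertia U (β : U → ℂ) :=
    le_inertia U (IsCharacter.isClassFunction (IsIrrCharacter.isCharacter β.2))
  have hDinert : D ≤ inertia U (β : U → ℂ) := sup_le hUinert hSinert
  have hinv : ∀ g : D, conjIrr U (g : A) β = β := fun g => Subtype.ext (hDinert g.2)
  obtain ⟨b, hb⟩ : ∃ b, (U.subgroupOf D).index = p ^ b := by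
    have h1 : (U.subgroupOf D).index = U.relIndex (S : Subgroup A) := by
      show U.relIndex D = _
      rw [hD, Subgroup.relIndex_sup_left]
    obtain ⟨k, hk⟩ := IsPGroup.iff_card.mp S.isPGroup'
    have h2 : U.relIndex (S : Subgroup A) ∣ p ^ k := hk ▸ Subgroup.relIndex_dvd_card _ _
    obtain ⟨j, -, hj⟩ := (Nat.dvd_prime_pow hp.out).mp h2
    exact ⟨j, by rw [h1, hj]⟩
  have hdeg : ¬ p ∣ charDegree (β : U → ℂ) := fun h => hU (h.trans (charDegree_dvd_card β.2))
  have hβc : IsCharacter U (β : U → ℂ) := IsIrrCharacter.isCharacter β.2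
  have hdet : ∀ n : U, detChar (β : U → ℂ) n ^ Nat.card U = 1 := by
    obtain ⟨δ, hδ⟩ := exists_detHom hβc
    intro n
    rw [hδ, ← Units.val_pow_eq_pow_val, ← map_pow, pow_card_eq_one', map_one, Units.val_one]
  obtain ⟨η, hηc, hηres⟩ := tp_ext_pgroup U D hUD hb β hinv hdeg hU hdet
  letI : Fintype (U.subgroupOf D) := Fintype.ofFinite _
  haveI : (U.subgroupOf D).Normal := Subgroup.normal_subgroupOf
  have hηirr : IsIrrCharacter D η := by
    apply isIrr_of_irr_res (U.subgroupOf D) hηc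
    have h1 : Cfsg.Agent.Lib.Char.resFun (U.subgroupOf D) η =
        (β : U → ℂ) ∘ Subgroup.subgroupOfEquivOfLe hUD := by
      funext n
      exact hηres (Subgroup.subgroupOfEquivOfLe hUD n)
    rw [h1]
    exact isIrrCharacter_comp_mulEquiv _ β.2
  have hη1 : η 1 = (charDegree (β : U → ℂ) : ℂ) := by
    have h1 := hηres 1
    rw [apply_one_eq_charDegree hβc] at h1
    exact h1
  obtain ⟨χ, hχ, hχp⟩ := tp_exists_over_not_dvd (p := p) D hηc hη1 (by
    intro h
    rcases (Nat.Prime.dvd_mul hp.out).mp h with h1 | h1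
    · exact S.not_dvd_index (h1.trans (Subgroup.index_dvd_of_le hSD))
    · exact hdeg h1)
  have hover := tp_over_res U D hUD χ ⟨η, hηirr⟩ β.2 hηres hχ
  obtain ⟨e, he⟩ := exists_multiplicity (N := U) (IsIrrCharacter.isCharacter χ.2) β.2
  have hcl := clifford_degree_nat (N := U) χ.2 β.2 hover
    (apply_one_eq_charDegree (IsIrrCharacter.isCharacter χ.2))
    (apply_one_eq_charDegree hβc) he
  intro h
  apply hiA χ hχp
  rw [hcl]
  exact Dvd.dvd.mul_left h _

/-- The Sylow subgroup `Q` lies in every subgroup containing `S` of `q'`-index. -/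
theorem tp_sylow_le_of_index (hqs : IsPSolvable q A)
    (hiA : ∀ χ : IrrCharacter A, ¬ p ∣ charDegree (χ : A → ℂ) → ¬ q ∣ charDegree (χ : A → ℂ))
    (S : Sylow p A) (Q : Sylow q A)
    (hcomm : ∀ x ∈ (S : Subgroup A), ∀ y ∈ (Q : Subgroup A), x * y = y * x)
    (U : Subgroup A) [hUn : U.Normal] (hU : ¬ p ∣ Nat.card U) (hQU : ¬ q ∣ U.index)
    (T : Subgroup A) (hST : (S : Subgroup A) ≤ T) (hT : ¬ q ∣ T.index) :
    (Q : Subgroup A) ≤ T := by
  classical
  have hQle : (Q : Subgroup A) ≤ U := tp_le_of_not_dvd_index Q.isPGroup' hQU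
  have hQsyl : IsSylowOf q (Q : Subgroup A) U :=
    ⟨hQle, Q.isPGroup', fun h => Q.not_dvd_index (h.trans (Char.SylowNorm.relIndex_normal_dvd_index _ U))⟩
  have hnU : (S : Subgroup A) ≤ Subgroup.normalizer (U : Set A) :=
    fun t _ => tp_mem_normalizer_of_normal hUn t
  have hact : CoprimeAction (S : Subgroup A) U := tp_coprimeAction S.isPGroup' hU hnU
  set T₀ : Subgroup A := U ⊓ T with hT₀
  have hnT₀ : (S : Subgroup A) ≤ Subgroup.normalizer (T₀ : Set A) := by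
    apply tp_normalizer_of_forward
    intro t ht x hx
    exact ⟨hUn.conj_mem x hx.1 t, T.mul_mem (T.mul_mem (hST ht) hx.2) (T.inv_mem (hST ht))⟩
  obtain ⟨Q₂, hQ₂, hSQ₂⟩ := (hact.mono (inf_le_left : T₀ ≤ U) hnT₀).exists_invariant_sylow q
  have hQ₂U : IsSylowOf q Q₂ U := by
    refine ⟨hQ₂.le.trans inf_le_left, hQ₂.isP, ?_⟩
    rw [← Subgroup.relIndex_mul_relIndex Q₂ T₀ U hQ₂.le inf_le_left]
    intro h
    rcases (Nat.Prime.dvd_mul hq.out).mp h with h1 | h1
    · exact hQ₂.not_dvd h1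
    · apply hT
      rw [hT₀, Subgroup.inf_relIndex_left] at h1
      exact h1.trans (Char.SylowNorm.relIndex_normal_dvd_index _ U)
  have hSQ : (S : Subgroup A) ≤ Subgroup.normalizer ((Q : Subgroup A) : Set A) := fun s hs =>
    tp_mem_normalizer_of_comm (hcomm s hs)
  obtain ⟨c, hc, hceq⟩ := hact.exists_centralizer_conj_of_sylow hQsyl hQ₂U hSQ hSQ₂
  have hc1 : c ∈ U := (Subgroup.mem_inf.mp hc).1
  have hc2 : ∀ s ∈ (S : Subgroup A), c * s = s * c := fun s hs =>
    ((Subgroup.mem_centralizer_iff.mp (Subgroup.mem_inf.mp hc).2 s hs)).symm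
  have key := tp_lemQ (p := p) (q := q) (Nat.card U) A U (S : Subgroup A) (Q : Subgroup A) hUn rfl
    S.isPGroup' hU (Cfsg.Agent.Lib.Char.isPSolvable_subgroup hqs U) hQsyl hcomm
    (fun χ hχ => tp_hyp_Q hiA S U hU χ hχ)
  intro y hy
  have h1 := key c⁻¹ (U.inv_mem hc1) (fun s hs => by
    have h2 := hc2 s hs
    calc c⁻¹ * s = c⁻¹ * (s * c) * c⁻¹ := by group
      _ = c⁻¹ * (c * s) * c⁻¹ := by rw [h2]
      _ = s * c⁻¹ := by group) y hy
  have h2 : y ∈ Q₂ := by
    rw [hceq]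
    refine ⟨c⁻¹ * y * c⁻¹⁻¹, h1, ?_⟩
    show c * (c⁻¹ * y * c⁻¹⁻¹) * c⁻¹ = y
    group
  exact (Subgroup.mem_inf.mp (hQ₂.le h2)).2

end HypQ

section Main

variable {W : Type u} [Group W] [Finite W] {p q : ℕ} [hp : Fact p.Prime] [hq : Fact q.Prime]

/-- A normal subgroup `E` with `N` central of `p'`-index, when `O_{p'}(W) = 1`, equals `N`. -/
theorem tp_stepA (hcore : pPrimeCore p W = ⊥) (N E : Subgroup W) [hN : N.Normal] [hE : E.Normal]
    (hNE : N ≤ E) (hNp : IsPGroup p N) (hcent : ∀ x ∈ N, ∀ y ∈ E, x * y = y * x)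
    (hidx : ¬ p ∣ N.relIndex E) : E = N := by
  classical
  let N₁ : Subgroup E := N.subgroupOf E
  haveI hN₁ : N₁.Normal := Subgroup.normal_subgroupOf
  have hN₁idx : N₁.index = N.relIndex E := rfl
  have hN₁card : Nat.card N₁ = Nat.card N :=
    Nat.card_congr (Subgroup.subgroupOfEquivOfLe hNE).toEquiv
  have hcop : Nat.Coprime (Nat.card N₁) N₁.index := by
    rw [hN₁card, hN₁idx]
    exact (tp_isPGroup_card_coprime hNp hidx).symm
  obtain ⟨H, hH⟩ := Subgroup.exists_right_complement'_of_coprime hcop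
  have hHn : H.Normal := by
    refine ⟨fun h hh g => ?_⟩
    have hg : g ∈ N₁ ⊔ H := by
      rw [hH.sup_eq_top]
      trivial
    rw [Subgroup.mem_sup_of_normal_left] at hg
    obtain ⟨a, ha, b, hb, rfl⟩ := hg
    have h1 : a * b * h * (a * b)⁻¹ = b * h * b⁻¹ := by
      have h2 : ∀ z : E, a * z = z * a := fun z => Subtype.ext (hcent _ ha _ z.2)
      calc a * b * h * (a * b)⁻¹ = a * (b * h * b⁻¹) * a⁻¹ := by group
        _ = (b * h * b⁻¹) * a * a⁻¹ := by rw [h2]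
        _ = _ := by group
    rw [h1]
    exact H.mul_mem (H.mul_mem hb hh) (H.inv_mem hb)
  have hHcard : Nat.card H = N₁.index := by
    have h1 := hH.card_mul_card
    have h2 := Subgroup.card_mul_index N₁
    exact Nat.eq_of_mul_eq_mul_left Nat.card_pos (h1.trans h2.symm)
  have hHle : H ≤ pPrimeCore p E := by
    apply Cfsg.Agent.Lib.Basic.le_pPrimeCore hHn
    rw [hHcard, hN₁idx]
    exact ((Nat.Prime.coprime_iff_not_dvd hp.out).mpr hidx).symm
  have hcoreE : pPrimeCore p E = ⊥ := by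
    haveI : (pPrimeCore p E).Characteristic := Cfsg.Agent.Lib.Basic.pPrimeCore_characteristic p
    have h1 : (pPrimeCore p E).map E.subtype ≤ pPrimeCore p W := by
      apply Cfsg.Agent.Lib.Basic.le_pPrimeCore inferInstance
      rw [Subgroup.card_map_of_injective E.subtype_injective]
      exact Cfsg.Agent.Lib.Basic.pPrimeCore_coprime p
    rw [hcore, le_bot_iff] at h1
    exact (Subgroup.map_eq_bot_iff_of_injective _ E.subtype_injective).mp h1
  have hHbot : H = ⊥ := by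
    rw [hcoreE] at hHle
    exact le_bot_iff.mp hHle
  have hidx1 : N₁.index = 1 := by
    rw [← hHcard, hHbot]
    exact Subgroup.card_bot
  apply le_antisymm _ hNE
  exact Subgroup.relIndex_eq_one.mp hidx1

theorem tp_caseA (hcore : pPrimeCore p W = ⊥) (N : Subgroup W) [hN : N.Normal] (hNp : IsPGroup p N)
    (hNab : ∀ x ∈ N, ∀ y ∈ N, x * y = y * x) (U : Subgroup (W ⧸ N)) [hUn : U.Normal]
    (hUc : ¬ p ∣ Nat.card U) (Q : Subgroup W) (hQU : ∀ y ∈ Q, (y : W ⧸ N) ∈ U)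
    (hQC : ∀ x ∈ N, ∀ y ∈ Q, x * y = y * x) : Q ≤ N := by
  classical
  let π : W →* W ⧸ N := QuotientGroup.mk' N
  have hπ : Function.Surjective π := QuotientGroup.mk'_surjective N
  have hker : π.ker = N := QuotientGroup.ker_mk' N
  have hπN : ∀ x ∈ N, π x = 1 := fun x hx => by
    rw [← MonoidHom.mem_ker, hker]
    exact hx
  let F : Subgroup W := U.comap π
  have hFn : F.Normal := hUn.comap π
  let E₁ : Subgroup W := F ⊓ Subgroup.centralizer (N : Set W)
  haveI hE₁n : E₁.Normal := Subgroup.normal_inf_normal _ _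
  have hNE₁ : N ≤ E₁ := by
    intro n hn
    refine ⟨?_, Subgroup.mem_centralizer_iff.mpr fun x hx => hNab x hx n hn⟩
    show π n ∈ U
    rw [hπN n hn]
    exact U.one_mem
  have hcentE₁ : ∀ x ∈ N, ∀ y ∈ E₁, x * y = y * x := fun x hx y hy =>
    Subgroup.mem_centralizer_iff.mp hy.2 x hx
  have hE₁F : E₁ ≤ F := inf_le_left
  have hidx : ¬ p ∣ N.relIndex E₁ := by
    intro h3
    have h4 : N.relIndex E₁ ∣ N.relIndex F :=
      Dvd.intro _ (Subgroup.relIndex_mul_relIndex N E₁ F hNE₁ hE₁F)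
    have h5 : N.relIndex F = Nat.card U := by
      have h6 := Subgroup.relIndex_ker (K := F) π
      rw [hker] at h6
      rw [h6]
      show Nat.card ((U.comap π).map π) = _
      rw [Subgroup.map_comap_eq_self_of_surjective hπ]
    rw [h5] at h4
    exact hUc (h3.trans h4)
  have hE₁eq : E₁ = N := tp_stepA hcore N E₁ hNE₁ hNp hcentE₁ hidx
  intro y hy
  have hyE₁ : y ∈ E₁ :=
    ⟨hQU y hy, Subgroup.mem_centralizer_iff.mpr fun x hx => hQC x hx y hy⟩
  rwa [hE₁eq] at hyE₁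

theorem tp_caseB (N P Q : Subgroup W) [hN : N.Normal] (hNP : N ≤ P) (hPp : IsPGroup p P)
    (hPidx : ¬ p ∣ P.index) (hqs : IsPSolvable q (W ⧸ N))
    (hi : ∀ χ : IrrCharacter W, ¬ p ∣ charDegree (χ : W → ℂ) → ¬ q ∣ charDegree (χ : W → ℂ))
    (hiA : ∀ χ : IrrCharacter (W ⧸ N), ¬ p ∣ charDegree (χ : W ⧸ N → ℂ) →
      ¬ q ∣ charDegree (χ : W ⧸ N → ℂ))
    (hact : CoprimeAction Q P) (hcommN : ⁅P, Q⁆ ≤ N) (hM : ⁅N, Q⁆ ≠ ⊥)
    (S : Sylow p (W ⧸ N)) (R : Sylow q (W ⧸ N))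
    (hSR : ∀ x ∈ (S : Subgroup (W ⧸ N)), ∀ y ∈ (R : Subgroup (W ⧸ N)), x * y = y * x)
    (hSP : ∀ s ∈ (S : Subgroup (W ⧸ N)), ∃ x ∈ P, (x : W ⧸ N) = s)
    (hQR : ∀ y ∈ Q, (y : W ⧸ N) ∈ (R : Subgroup (W ⧸ N)))
    (U : Subgroup (W ⧸ N)) [hUn : U.Normal] (hUc : ¬ p ∣ Nat.card U) (hQU : ¬ q ∣ U.index) : False := by
  classical
  letI : Fintype W := Fintype.ofFinite _
  letI : Fintype P := Fintype.ofFinite _
  letI : Fintype N := Fintype.ofFinite _
  have hMle : ⁅P, Q⁆ ≤ ⁅N, Q⁆ := by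
    calc ⁅P, Q⁆ = ⁅⁅P, Q⁆, Q⁆ := hact.commutator_commutator_eq.symm
      _ ≤ ⁅N, Q⁆ := Subgroup.commutator_mono hcommN le_rfl
  have hnot : ¬ ⁅N, Q⁆ ≤ ⁅P, P⁆ := by
    intro h
    apply hM
    have hcent := tp_lemD hPp hact (hMle.trans h)
    rw [eq_bot_iff, Subgroup.commutator_le]
    intro n hn y hy
    rw [Subgroup.mem_bot, commutatorElement_eq_one_iff_mul_comm]
    exact hcent n (hNP hn) y hy
  obtain ⟨m, hmM, hmP⟩ := SetLike.not_le_iff_exists.mp hnot
  have hmN : m ∈ N := Subgroup.commutator_le_left N Q hmM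
  have hmP' : m ∈ P := hNP hmN
  let m' : P := ⟨m, hmP'⟩
  have hne : Abelianization.of m' ≠ 1 := by
    intro h
    apply hmP
    have h1 : m' ∈ _root_.commutator P := (QuotientGroup.eq_one_iff m').mp h
    rw [← Subgroup.map_subtype_commutator]
    exact ⟨m', h1, rfl⟩
  obtain ⟨ξ, hξ⟩ := CommGroup.exists_apply_ne_one_of_hasEnoughRootsOfUnity (Abelianization P) ℂ hne
  let τ : P →* ℂˣ := ξ.comp Abelianization.of
  have hτm : τ m' ≠ 1 := hξ
  have hτirr := isIrrCharacter_of_monoidHom τ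
  obtain ⟨χ, hχ, hχp⟩ := tp_exists_over_not_dvd (p := p) P (IsIrrCharacter.isCharacter hτirr)
    (d := 1) (by simp) (by simpa using hPidx)
  let τN : N →* ℂˣ := τ.comp (Subgroup.inclusion hNP)
  have hμirr := isIrrCharacter_of_monoidHom τN
  have hover := tp_over_res N P hNP χ ⟨_, hτirr⟩ hμirr (fun k => rfl) hχ
  obtain ⟨e, he⟩ := exists_multiplicity (N := N) (IsIrrCharacter.isCharacter χ.2) hμirr
  have hcl := clifford_degree_nat (N := N) χ.2 hμirr hover
    (apply_one_eq_charDegree (IsIrrCharacter.isCharacter χ.2))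
    (apply_one_eq_charDegree (IsIrrCharacter.isCharacter hμirr)) he
  set T : Subgroup W := inertia N (fun n : N => (τN n : ℂ)) with hT
  have hTidx : ¬ q ∣ T.index := fun h => hi χ hχp (by
    rw [hcl]
    exact Dvd.dvd.mul_right (Dvd.dvd.mul_left h _) _)
  have hPT : P ≤ T := by
    intro x hx
    rw [hT, mem_inertia]
    funext n
    simp only [conjFun_apply]
    let x' : P := ⟨x, hx⟩
    have h1 : τN ⟨x⁻¹ * n * x, hN.conj_mem' n n.2 x⟩ = τ (x'⁻¹ * Subgroup.inclusion hNP n * x') :=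
      congrArg τ (Subtype.ext rfl)
    rw [h1, map_mul, map_mul, map_inv, mul_comm (τ x')⁻¹, mul_assoc, inv_mul_cancel, mul_one]
    rfl
  let π : W →* W ⧸ N := QuotientGroup.mk' N
  have hπ : Function.Surjective π := QuotientGroup.mk'_surjective N
  have hST : (S : Subgroup (W ⧸ N)) ≤ T.map π := by
    intro s hs
    obtain ⟨x, hx, hxs⟩ := hSP s hs
    exact ⟨x, hPT hx, hxs⟩
  have hTmap : ¬ q ∣ (T.map π).index := fun h => hTidx (h.trans (Subgroup.index_map_dvd T hπ))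
  have hRT := tp_sylow_le_of_index hqs hiA S R hSR U hUc hQU (T.map π) hST hTmap
  have hQT : Q ≤ T := by
    intro y hy
    obtain ⟨t, ht, hty⟩ := hRT (hQR y hy)
    have h1 : t⁻¹ * y ∈ N := QuotientGroup.eq.mp hty
    have h2 : y = t * (t⁻¹ * y) := by group
    rw [h2]
    exact T.mul_mem ht (hPT (hNP h1))
  have hkerle : ⁅N, Q⁆ ≤ τN.ker.map N.subtype := by
    rw [Subgroup.commutator_le]
    intro n hn y hy
    have hyT : y⁻¹ ∈ T := T.inv_mem (hQT hy)
    rw [hT, mem_inertia] at hyT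
    let z : N := (⟨n, hn⟩ : N)⁻¹
    have h1 := congrFun hyT z
    simp only [conjFun_apply] at h1
    have h2 : y⁻¹⁻¹ * (z : W) * y⁻¹ ∈ N := hN.conj_mem' z z.2 y⁻¹
    have h3 : τN ⟨y⁻¹⁻¹ * (z : W) * y⁻¹, h2⟩ = τN z := Units.ext h1
    refine ⟨⟨n, hn⟩ * ⟨y⁻¹⁻¹ * (z : W) * y⁻¹, h2⟩, ?_, ?_⟩
    · rw [SetLike.mem_coe, MonoidHom.mem_ker, map_mul, h3, map_inv, mul_inv_cancel]
    · simp [z, commutatorElement_def, mul_assoc]
  obtain ⟨k, hk, hkm⟩ := hkerle hmM
  apply hτm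
  have h5 : m' = Subgroup.inclusion hNP k := Subtype.ext hkm.symm
  rw [h5]
  exact hk


/-- **The step over an abelian normal `p`-subgroup.** -/
theorem tp_lemL (hpq : p ≠ q) (hcore : pPrimeCore p W = ⊥) (hqs : IsPSolvable q W)
    (hi : ∀ χ : IrrCharacter W, ¬ p ∣ charDegree (χ : W → ℂ) → ¬ q ∣ charDegree (χ : W → ℂ))
    (N : Subgroup W) [hN : N.Normal] (hNp : IsPGroup p N) (hNab : ∀ x ∈ N, ∀ y ∈ N, x * y = y * x)
    (h1 : ¬ q ∣ (pPrimeCore p (W ⧸ N)).index) (h2 : ¬ p ∣ (pPrimeCore q (W ⧸ N)).index) :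
    ¬ q ∣ Nat.card W := by
  classical
  letI : Fintype W := Fintype.ofFinite _
  let π : W →* W ⧸ N := QuotientGroup.mk' N
  have hπ : Function.Surjective π := QuotientGroup.mk'_surjective N
  have hker : π.ker = N := QuotientGroup.ker_mk' N
  have hπN : ∀ x ∈ N, π x = 1 := fun x hx => by
    rw [← MonoidHom.mem_ker, hker]
    exact hx
  have hπeq : ∀ x y : W, π x = π y → x⁻¹ * y ∈ N := fun x y h => QuotientGroup.eq.mp h
  have hNq : ¬ q ∣ Nat.card N := by
    obtain ⟨k, hk⟩ := IsPGroup.iff_card.mp hNp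
    rw [hk]
    intro h
    exact hpq ((Nat.prime_dvd_prime_iff_eq hq.out hp.out).mp (hq.out.dvd_of_dvd_pow h)).symm
  have hQcore := Cfsg.Agent.Lib.Basic.pPrimeCore_coprime (G := W ⧸ N) p
  set U : Subgroup (W ⧸ N) := pPrimeCore p (W ⧸ N) with hUdef
  haveI hUn : U.Normal := Cfsg.Agent.Lib.Basic.pPrimeCore_normal p
  have hUc : ¬ p ∣ Nat.card U := by
    intro h4
    have h5 := Nat.dvd_gcd h4 (dvd_refl p)
    rw [hQcore] at h5
    exact hp.out.one_lt.ne' (Nat.dvd_one.mp h5)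
  obtain ⟨S, R, hSR⟩ := tp_lemC (G := W ⧸ N) hpq h1 h2
  have hiA : ∀ χ : IrrCharacter (W ⧸ N), ¬ p ∣ charDegree (χ : W ⧸ N → ℂ) →
      ¬ q ∣ charDegree (χ : W ⧸ N → ℂ) := by
    intro χ hχ
    letI : Fintype (W ⧸ N) := Fintype.ofFinite _
    let χ' : IrrCharacter W := ⟨(χ : W ⧸ N → ℂ) ∘ π, isIrrCharacter_comp_surj π hπ χ.2⟩
    have hd : charDegree (χ' : W → ℂ) = charDegree (χ : W ⧸ N → ℂ) :=
      tp_charDegree_comp π (IsIrrCharacter.isCharacter χ.2)
    rw [← hd]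
    exact hi χ' (by rw [hd]; exact hχ)
  set P : Subgroup W := (S : Subgroup (W ⧸ N)).comap π with hP
  have hPp : IsPGroup p P := S.isPGroup'.comap_of_ker_isPGroup π (by rw [hker]; exact hNp)
  have hPidx : ¬ p ∣ P.index := by
    rw [hP, Subgroup.index_comap_of_surjective _ hπ]
    exact S.not_dvd_index
  set E : Subgroup W := (R : Subgroup (W ⧸ N)).comap π with hE
  obtain ⟨Q, hQ⟩ := exists_isSylowOf q E
  have hQle : Q ≤ E := hQ.le
  have hQq : IsPGroup q Q := hQ.isP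
  have hQidx : ¬ q ∣ Q.index := by
    rw [← Subgroup.relIndex_mul_index hQle]
    intro h
    rcases (Nat.Prime.dvd_mul hq.out).mp h with h3 | h3
    · exact hQ.not_dvd h3
    · rw [hE, Subgroup.index_comap_of_surjective _ hπ] at h3
      exact R.not_dvd_index h3
  have hQbot : Q = ⊥ → ¬ q ∣ Nat.card W := by
    intro h
    rw [h, Subgroup.index_bot] at hQidx
    exact hQidx
  have hNP : N ≤ P := fun n hn => by
    show π n ∈ (S : Subgroup (W ⧸ N))
    rw [hπN n hn]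
    exact Subgroup.one_mem _
  have hPQcomm : ∀ x ∈ P, ∀ y ∈ Q, π x * π y = π y * π x := fun x hx y hy => hSR _ hx _ (hQle hy)
  have hcommN : ⁅P, Q⁆ ≤ N := by
    rw [Subgroup.commutator_le]
    intro x hx y hy
    rw [← hker, MonoidHom.mem_ker, commutatorElement_def, map_mul, map_mul, map_mul, map_inv, map_inv,
      hPQcomm x hx y hy]
    group
  have hQnP : Q ≤ Subgroup.normalizer (P : Set W) := by
    apply tp_normalizer_of_forward
    intro t ht x hx
    show π (t * x * t⁻¹) ∈ (S : Subgroup (W ⧸ N))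
    have h3 : π (t * x * t⁻¹) = π x := by
      rw [map_mul, map_mul, map_inv, ← hPQcomm x hx t ht]
      group
    rw [h3]
    exact hx
  have hPq : ¬ q ∣ Nat.card P := by
    obtain ⟨k, hk⟩ := IsPGroup.iff_card.mp hPp
    rw [hk]
    intro h
    exact hpq ((Nat.prime_dvd_prime_iff_eq hq.out hp.out).mp (hq.out.dvd_of_dvd_pow h)).symm
  have hact : CoprimeAction Q P := tp_coprimeAction hQq hPq hQnP
  by_cases hM : ⁅N, Q⁆ = ⊥
  · -- `Q` centralizes `N`
    apply hQbot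
    have hRU : (R : Subgroup (W ⧸ N)) ≤ U := tp_le_of_not_dvd_index R.isPGroup' h1
    have hQC : ∀ x ∈ N, ∀ y ∈ Q, x * y = y * x := by
      intro x hx y hy
      have h3 : ⁅x, y⁆ ∈ ⁅N, Q⁆ := Subgroup.commutator_mem_commutator hx hy
      rw [hM, Subgroup.mem_bot] at h3
      exact commutatorElement_eq_one_iff_mul_comm.mp h3
    have hQN := tp_caseA hcore N hNp hNab U hUc Q (fun y hy => hRU (hQle hy)) hQC
    rw [eq_bot_iff]
    intro y hy
    exact Subgroup.mem_bot.mpr (tp_eq_one_of_mem hQq hNq hy (hQN hy))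
  · exfalso
    refine tp_caseB N P Q hNP hPp hPidx (isPSolvable_map π hπ hqs) hi hiA hact hcommN hM S R hSR ?_
      (fun y hy => hQle hy) U hUc h1
    intro s hs
    obtain ⟨x, rfl⟩ := hπ s
    exact ⟨x, hs, rfl⟩

end Main

end Cfsg.Agent.Lib.Blocks
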