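import Cfsg.Agent.Lib.Blocks.TwoPrimeL

/-! # Two primes: the main theorems on `{p,q}`-solvable groups -/

set_option autoImplicit false
set_option linter.unusedSectionVars false
set_option linter.style.haveILetI false

namespace Cfsg.Agent.Lib.Blocks

open Cfsg Cfsg.Agent.Lib.Char Cfsg.Agent.Lib.H8Group Cfsg.Agent.Lib.Coprime Module
open scoped commutatorElement

universe u

section

/-- The hypothesis on characters trivial on `O_{p'}(G)`. -/
def TpHyp (p q : ℕ) (G : Type u) [Group G] : Prop :=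
  ∀ χ : IrrCharacter G, (∀ x ∈ pPrimeCore p G, (χ : G → ℂ) x = (χ : G → ℂ) 1) →
    ¬ p ∣ charDegree (χ : G → ℂ) → ¬ q ∣ charDegree (χ : G → ℂ)

variable {G H : Type u} [Group G] [Finite G] [Group H] [Finite H] {p q : ℕ}
  [hp : Fact p.Prime] [hq : Fact q.Prime]

theorem tp_map_pPrimeCore_le (r : ℕ) (f : G →* H) (hf : Function.Surjective f) :
    (pPrimeCore r G).map f ≤ pPrimeCore r H := by
  haveI : (pPrimeCore r G).Normal := Cfsg.Agent.Lib.Basic.pPrimeCore_normal r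
  apply Cfsg.Agent.Lib.Basic.le_pPrimeCore (Subgroup.Normal.map inferInstance f hf)
  have h1 := Cfsg.Agent.Lib.Basic.pPrimeCore_coprime (G := G) r
  exact Nat.Coprime.coprime_dvd_left
    (Subgroup.card_dvd_of_surjective (f.subgroupMap (pPrimeCore r G)) (f.subgroupMap_surjective _)) h1

theorem tp_hyp_map (f : G →* H) (hf : Function.Surjective f) (h : TpHyp p q G) : TpHyp p q H := by
  classical
  letI : Fintype G := Fintype.ofFinite _
  letI : Fintype H := Fintype.ofFinite _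
  intro χ hχ hχp
  let χ' : IrrCharacter G := ⟨(χ : H → ℂ) ∘ f, isIrrCharacter_comp_surj f hf χ.2⟩
  have hd : charDegree (χ' : G → ℂ) = charDegree (χ : H → ℂ) :=
    tp_charDegree_comp f (IsIrrCharacter.isCharacter χ.2)
  rw [← hd]
  refine h χ' ?_ (by rw [hd]; exact hχp)
  intro x hx
  show (χ : H → ℂ) (f x) = (χ : H → ℂ) (f 1)
  rw [map_one]
  exact hχ _ (tp_map_pPrimeCore_le p f hf ⟨x, hx, rfl⟩)

/-- Pulling back `O_{r'}` along a normal `r'`-subgroup. -/
theorem tp_index_dvd_of_quot (r : ℕ) [hr : Fact r.Prime] (N : Subgroup G) [hN : N.Normal]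
    (hNr : ¬ r ∣ Nat.card N) : (pPrimeCore r G).index ∣ (pPrimeCore r (G ⧸ N)).index := by
  classical
  let π : G →* G ⧸ N := QuotientGroup.mk' N
  have hπ : Function.Surjective π := QuotientGroup.mk'_surjective N
  have hker : π.ker = N := QuotientGroup.ker_mk' N
  haveI hOn : (pPrimeCore r (G ⧸ N)).Normal := Cfsg.Agent.Lib.Basic.pPrimeCore_normal r
  let F : Subgroup G := (pPrimeCore r (G ⧸ N)).comap π
  have hNF : N ≤ F := by
    intro n hn
    show π n ∈ pPrimeCore r (G ⧸ N)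
    have : π n = 1 := by
      rw [← MonoidHom.mem_ker, hker]
      exact hn
    rw [this]
    exact Subgroup.one_mem _
  have hFcard : Nat.card F = Nat.card N * Nat.card (pPrimeCore r (G ⧸ N)) := by
    rw [← card_mul_relIndex hNF]
    congr 1
    have h6 := Subgroup.relIndex_ker (K := F) π
    rw [hker] at h6
    rw [h6]
    show Nat.card (((pPrimeCore r (G ⧸ N)).comap π).map π) = _
    rw [Subgroup.map_comap_eq_self_of_surjective hπ]
  have hle : F ≤ pPrimeCore r G := by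
    apply Cfsg.Agent.Lib.Basic.le_pPrimeCore (hOn.comap π)
    rw [hFcard]
    refine Nat.Coprime.mul_left ?_ (Cfsg.Agent.Lib.Basic.pPrimeCore_coprime r)
    exact ((Nat.Prime.coprime_iff_not_dvd hr.out).mpr hNr).symm
  have h1 := Subgroup.index_dvd_of_le hle
  have h2 : F.index = (pPrimeCore r (G ⧸ N)).index := Subgroup.index_comap_of_surjective _ hπ
  rwa [h2] at h1

/-- A nontrivial `{p,q}`-solvable group has a nontrivial normal subgroup which is a
`{p,q}'`-group, an abelian `p`-group or an abelian `q`-group. -/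
theorem tp_exists_min_normal [Nontrivial G] (hps : IsPSolvable p G) (hqs : IsPSolvable q G) :
    ∃ N : Subgroup G, N.Normal ∧ N ≠ ⊥ ∧
      ((¬ p ∣ Nat.card N ∧ ¬ q ∣ Nat.card N) ∨
        (IsPGroup p N ∧ ∀ x ∈ N, ∀ y ∈ N, x * y = y * x) ∨
        (IsPGroup q N ∧ ∀ x ∈ N, ∀ y ∈ N, x * y = y * x)) := by
  classical
  have hab : ∀ (r : ℕ) [Fact r.Prime] (N : Subgroup G), N.Normal → N ≠ ⊥ → IsPGroup r N →
      ∃ Z : Subgroup G, Z.Normal ∧ Z ≠ ⊥ ∧ IsPGroup r Z ∧ ∀ x ∈ Z, ∀ y ∈ Z, x * y = y * x := by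
    intro r _ N hN hN1 hNp
    haveI := hN
    haveI : Nontrivial N := (Subgroup.nontrivial_iff_ne_bot N).mpr hN1
    haveI := hNp.center_nontrivial
    refine ⟨(Subgroup.center N).map N.subtype, inferInstance, ?_, ?_, ?_⟩
    · intro h
      rw [Subgroup.map_eq_bot_iff_of_injective _ N.subtype_injective] at h
      exact (Subgroup.nontrivial_iff_ne_bot _).mp inferInstance h
    · exact (hNp.to_subgroup _).map N.subtype
    · rintro _ ⟨x, hx, rfl⟩ _ ⟨y, hy, rfl⟩
      have := (Subgroup.mem_center_iff.mp hx) y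
      exact (congrArg Subtype.val this).symm
  obtain ⟨N₁, hN₁, hN₁1, hor⟩ := IsPSolvable_exists_normal hps
  rcases hor with hp1 | hc1
  · obtain ⟨Z, h1, h2, h3, h4⟩ := hab p N₁ hN₁ hN₁1 hp1
    exact ⟨Z, h1, h2, Or.inr (Or.inl ⟨h3, h4⟩)⟩
  · have hc1' : ¬ p ∣ Nat.card N₁ := by
      intro h4
      have h5 := Nat.dvd_gcd h4 (dvd_refl p)
      rw [hc1] at h5
      exact hp.out.one_lt.ne' (Nat.dvd_one.mp h5)
    obtain ⟨R₀, hR₀n, hR₀N, hR₀1, hR₀⟩ := tp_exists_normal_sub N₁ hN₁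
      (Cfsg.Agent.Lib.Char.isPSolvable_subgroup hqs N₁) hN₁1
    rcases hR₀ with hq1 | hq1
    · obtain ⟨Z, h1, h2, h3, h4⟩ := hab q R₀ hR₀n hR₀1 hq1
      exact ⟨Z, h1, h2, Or.inr (Or.inr ⟨h3, h4⟩)⟩
    · exact ⟨R₀, hR₀n, hR₀1, Or.inl ⟨fun h => hc1' (h.trans (Subgroup.card_dvd_of_le hR₀N)), hq1⟩⟩

end

/-- The case of an abelian normal `p`-subgroup, given the theorem for proper quotients. -/
theorem tp_case_abelian {G : Type u} [Group G] [Finite G] {p q : ℕ} [hp : Fact p.Prime]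
    [hq : Fact q.Prime] (hpq : p ≠ q) (hps : IsPSolvable p G) (hqs : IsPSolvable q G)
    (hH1 : TpHyp p q G) (hH2 : TpHyp q p G)
    (IH : ∀ (H : Type u) [Group H] [Finite H], Nat.card H < Nat.card G → IsPSolvable p H →
      IsPSolvable q H → TpHyp p q H → TpHyp q p H →
      ¬ q ∣ (pPrimeCore p H).index ∧ ¬ p ∣ (pPrimeCore q H).index)
    (N : Subgroup G) [hN : N.Normal] (hN1 : N ≠ ⊥) (hNp : IsPGroup p N)
    (hNab : ∀ x ∈ N, ∀ y ∈ N, x * y = y * x) :
    ¬ q ∣ (pPrimeCore p G).index ∧ ¬ p ∣ (pPrimeCore q G).index := by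
  classical
  have hNq : ¬ q ∣ Nat.card N := by
    obtain ⟨k, hk⟩ := IsPGroup.iff_card.mp hNp
    rw [hk]
    intro h
    exact hpq ((Nat.prime_dvd_prime_iff_eq hq.out hp.out).mp (hq.out.dvd_of_dvd_pow h)).symm
  let π : G →* G ⧸ N := QuotientGroup.mk' N
  have hπ : Function.Surjective π := QuotientGroup.mk'_surjective N
  have hcardN : Nat.card (G ⧸ N) < Nat.card G := by
    have h1 := Subgroup.card_mul_index N
    have h3 : 1 < Nat.card N := by
      haveI : Nontrivial N := (Subgroup.nontrivial_iff_ne_bot N).mpr hN1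
      exact Finite.one_lt_card
    have h4 : 0 < N.index := Nat.pos_of_ne_zero Subgroup.index_ne_zero_of_finite
    rw [← Subgroup.index_eq_card, ← h1]
    nlinarith
  have hquot := IH (G ⧸ N) hcardN (isPSolvable_map π hπ hps) (isPSolvable_map π hπ hqs)
    (tp_hyp_map π hπ hH1) (tp_hyp_map π hπ hH2)
  refine ⟨?_, fun h => hquot.2 (h.trans (tp_index_dvd_of_quot q N hNq))⟩
  -- the first index
  set X : Subgroup G := pPrimeCore p G with hX
  haveI hXn : X.Normal := Cfsg.Agent.Lib.Basic.pPrimeCore_normal p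
  let ρ : G →* G ⧸ X := QuotientGroup.mk' X
  have hρ : Function.Surjective ρ := QuotientGroup.mk'_surjective X
  have hρker : ρ.ker = X := QuotientGroup.ker_mk' X
  let Nb : Subgroup (G ⧸ X) := N.map ρ
  haveI hNbn : Nb.Normal := hN.map ρ hρ
  have hXc : ¬ p ∣ Nat.card X := by
    have h3 := Cfsg.Agent.Lib.Basic.pPrimeCore_coprime (G := G) p
    intro h4
    have h5 := Nat.dvd_gcd h4 (dvd_refl p)
    rw [hX, h3] at h5
    exact hp.out.one_lt.ne' (Nat.dvd_one.mp h5)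
  have hNb1 : Nb ≠ ⊥ := by
    intro h
    apply hN1
    rw [eq_bot_iff]
    intro x hx
    have h2 : ρ x ∈ Nb := ⟨x, hx, rfl⟩
    rw [h, Subgroup.mem_bot] at h2
    have h3 : x ∈ X := by
      rw [← hρker]
      exact h2
    exact Subgroup.mem_bot.mpr (tp_eq_one_of_mem hNp hXc hx h3)
  let κ : G ⧸ X →* (G ⧸ X) ⧸ Nb := QuotientGroup.mk' Nb
  have hκ : Function.Surjective κ := QuotientGroup.mk'_surjective Nb
  have hκρ : Function.Surjective (κ.comp ρ) := hκ.comp hρ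
  have hcard2 : Nat.card ((G ⧸ X) ⧸ Nb) < Nat.card G := by
    have h1 := Subgroup.card_mul_index Nb
    have h3 : 1 < Nat.card Nb := by
      haveI : Nontrivial Nb := (Subgroup.nontrivial_iff_ne_bot Nb).mpr hNb1
      exact Finite.one_lt_card
    have h4 : 0 < Nb.index := Nat.pos_of_ne_zero Subgroup.index_ne_zero_of_finite
    have h5 : Nat.card (G ⧸ X) ≤ Nat.card G :=
      Nat.le_of_dvd Nat.card_pos (Subgroup.card_dvd_of_surjective ρ hρ)
    have h6 : Nat.card ((G ⧸ X) ⧸ Nb) < Nat.card (G ⧸ X) := by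
      rw [← Subgroup.index_eq_card, ← h1]
      nlinarith
    exact lt_of_lt_of_le h6 h5
  have hquot2 := IH ((G ⧸ X) ⧸ Nb) hcard2 (isPSolvable_map _ hκρ hps) (isPSolvable_map _ hκρ hqs)
    (tp_hyp_map _ hκρ hH1) (tp_hyp_map _ hκρ hH2)
  have hcoreW : pPrimeCore p (G ⧸ X) = ⊥ := Cfsg.Agent.Lib.Basic.pPrimeCore_quotient_eq_bot p
  have hiW : ∀ χ : IrrCharacter (G ⧸ X), ¬ p ∣ charDegree (χ : G ⧸ X → ℂ) →
      ¬ q ∣ charDegree (χ : G ⧸ X → ℂ) := by
    intro χ hχ
    letI : Fintype G := Fintype.ofFinite _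
    letI : Fintype (G ⧸ X) := Fintype.ofFinite _
    let χ' : IrrCharacter G := ⟨(χ : G ⧸ X → ℂ) ∘ ρ, isIrrCharacter_comp_surj ρ hρ χ.2⟩
    have hd : charDegree (χ' : G → ℂ) = charDegree (χ : G ⧸ X → ℂ) :=
      tp_charDegree_comp ρ (IsIrrCharacter.isCharacter χ.2)
    rw [← hd]
    refine hH1 χ' ?_ (by rw [hd]; exact hχ)
    intro x hx
    have h3 : ρ x = 1 := by
      rw [← MonoidHom.mem_ker, hρker]
      exact hx
    show (χ : G ⧸ X → ℂ) (ρ x) = (χ : G ⧸ X → ℂ) (ρ 1)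
    rw [h3, map_one]
  have hNbp : IsPGroup p Nb := hNp.map ρ
  have hNbab : ∀ x ∈ Nb, ∀ y ∈ Nb, x * y = y * x := by
    rintro _ ⟨x, hx, rfl⟩ _ ⟨y, hy, rfl⟩
    rw [← map_mul, ← map_mul, hNab x hx y hy]
  have hfinal := tp_lemL hpq hcoreW (isPSolvable_map ρ hρ hqs) hiW Nb hNbp hNbab hquot2.1 hquot2.2
  rwa [← Subgroup.index_eq_card] at hfinal

/-- **The main theorem.** -/
theorem tp_main {p q : ℕ} [hp : Fact p.Prime] [hq : Fact q.Prime] (hpq : p ≠ q) :
    ∀ (n : ℕ) (G : Type u) [Group G] [Finite G], Nat.card G = n → IsPSolvable p G →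
      IsPSolvable q G → TpHyp p q G → TpHyp q p G →
      ¬ q ∣ (pPrimeCore p G).index ∧ ¬ p ∣ (pPrimeCore q G).index := by
  classical
  intro n
  induction n using Nat.strong_induction_on with
  | _ n ih =>
  intro G _ _ hn hps hqs hH1 hH2
  subst hn
  by_cases hG : Nontrivial G
  · have IH1 : ∀ (H : Type u) [Group H] [Finite H], Nat.card H < Nat.card G → IsPSolvable p H →
        IsPSolvable q H → TpHyp p q H → TpHyp q p H →
        ¬ q ∣ (pPrimeCore p H).index ∧ ¬ p ∣ (pPrimeCore q H).index :=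
      fun H _ _ hlt h1 h2 h3 h4 => ih _ hlt H rfl h1 h2 h3 h4
    have IH2 : ∀ (H : Type u) [Group H] [Finite H], Nat.card H < Nat.card G → IsPSolvable q H →
        IsPSolvable p H → TpHyp q p H → TpHyp p q H →
        ¬ p ∣ (pPrimeCore q H).index ∧ ¬ q ∣ (pPrimeCore p H).index :=
      fun H _ _ hlt h1 h2 h3 h4 => (ih _ hlt H rfl h2 h1 h4 h3).symm
    obtain ⟨N, hNn, hN1, hor⟩ := tp_exists_min_normal hps hqs
    haveI := hNn
    rcases hor with ⟨h1, h2⟩ | ⟨h1, h2⟩ | ⟨h1, h2⟩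
    · let π : G →* G ⧸ N := QuotientGroup.mk' N
      have hπ : Function.Surjective π := QuotientGroup.mk'_surjective N
      have hcardN : Nat.card (G ⧸ N) < Nat.card G := by
        have h5 := Subgroup.card_mul_index N
        have h3 : 1 < Nat.card N := by
          haveI : Nontrivial N := (Subgroup.nontrivial_iff_ne_bot N).mpr hN1
          exact Finite.one_lt_card
        have h4 : 0 < N.index := Nat.pos_of_ne_zero Subgroup.index_ne_zero_of_finite
        rw [← Subgroup.index_eq_card, ← h5]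
        nlinarith
      have hquot := IH1 (G ⧸ N) hcardN (isPSolvable_map π hπ hps) (isPSolvable_map π hπ hqs)
        (tp_hyp_map π hπ hH1) (tp_hyp_map π hπ hH2)
      exact ⟨fun h => hquot.1 (h.trans (tp_index_dvd_of_quot p N h1)),
        fun h => hquot.2 (h.trans (tp_index_dvd_of_quot q N h2))⟩
    · exact tp_case_abelian hpq hps hqs hH1 hH2 IH1 N hN1 h1 h2
    · exact (tp_case_abelian hpq.symm hqs hps hH2 hH1 IH2 N hN1 h1 h2).symm
  · haveI : Subsingleton G := not_nontrivial_iff_subsingleton.mp hG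
    have h1 : ∀ K : Subgroup G, K.index = 1 := fun K => by
      rw [Subgroup.index_eq_one]
      exact Subsingleton.elim _ _
    rw [h1, h1]
    exact ⟨fun h => hq.out.one_lt.ne' (Nat.dvd_one.mp h), fun h => hp.out.one_lt.ne' (Nat.dvd_one.mp h)⟩

section Final

variable {G : Type u} [Group G] [Finite G] {p q : ℕ} [hp : Fact p.Prime] [hq : Fact q.Prime]

/-- If a Sylow `p`- and a Sylow `q`-subgroup commute in a `p`-solvable group, then `q` does not
divide `|G : O_{p'}(G)|`. -/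
theorem tp_index_of_commuting (hpq : p ≠ q) (hps : IsPSolvable p G) (P : Sylow p G) (Q : Sylow q G)
    (hc : ∀ x ∈ (P : Subgroup G), ∀ y ∈ (Q : Subgroup G), x * y = y * x) :
    ¬ q ∣ (pPrimeCore p G).index := by
  classical
  set X : Subgroup G := pPrimeCore p G with hX
  haveI hXn : X.Normal := Cfsg.Agent.Lib.Basic.pPrimeCore_normal p
  let ρ : G →* G ⧸ X := QuotientGroup.mk' X
  have hρ : Function.Surjective ρ := QuotientGroup.mk'_surjective X
  have hρker : ρ.ker = X := QuotientGroup.ker_mk' X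
  have hcoreW : pPrimeCore p (G ⧸ X) = ⊥ := Cfsg.Agent.Lib.Basic.pPrimeCore_quotient_eq_bot p
  have hC := Cfsg.Agent.Lib.Char.centralizer_pCore_le_of_isPSolvable (isPSolvable_map ρ hρ hps) hcoreW
  let Pb : Sylow p (G ⧸ X) := P.mapSurjective hρ
  have hOP : pCore p (G ⧸ X) ≤ (Pb : Subgroup (G ⧸ X)) := Cfsg.Agent.Lib.Basic.pCore_le_sylow Pb
  have hQX : (Q : Subgroup G) ≤ X := by
    intro y hy
    have h1 : ρ y ∈ Subgroup.centralizer (pCore p (G ⧸ X) : Set (G ⧸ X)) := by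
      rw [Subgroup.mem_centralizer_iff]
      intro z hz
      obtain ⟨x, hx, rfl⟩ := hOP hz
      rw [← map_mul, ← map_mul, hc x hx y hy]
    have h2 := hC h1
    have h3 : IsPGroup q ((Q : Subgroup G).map ρ) := Q.isPGroup'.map ρ
    have h4 : ¬ q ∣ Nat.card (pCore p (G ⧸ X)) := by
      obtain ⟨k, hk⟩ := IsPGroup.iff_card.mp (Cfsg.Agent.Lib.Basic.pCore_isPGroup (G := G ⧸ X) p)
      rw [hk]
      intro h
      exact hpq ((Nat.prime_dvd_prime_iff_eq hq.out hp.out).mp (hq.out.dvd_of_dvd_pow h)).symm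
    have h5 : ρ y = 1 := tp_eq_one_of_mem h3 h4 ⟨y, hy, rfl⟩ h2
    rw [← hρker]
    exact h5
  exact fun h => Q.not_dvd_index (h.trans (Subgroup.index_dvd_of_le hQX))

theorem tp_hyp_of_index (h : ¬ q ∣ (pPrimeCore p G).index) : TpHyp p q G := by
  classical
  letI : Fintype G := Fintype.ofFinite _
  intro χ hχ _
  have hle : pPrimeCore p G ≤ charKer (χ : G → ℂ) := fun x hx =>
    (mem_charKer (IsIrrCharacter.isCharacter χ.2)).mpr (hχ x hx)
  intro hd
  exact h (hd.trans ((charDegree_dvd_index_charKer χ.2).trans (Subgroup.index_dvd_of_le hle)))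

/-- The two-prime theorem. -/
theorem tp_iff_commuting (hpq : p ≠ q) {Mp Mq : Ideal AlgInt} (hMp : IsPModular p Mp)
    (hMq : IsPModular q Mq) (hps : IsPSolvable p G) (hqs : IsPSolvable q G) :
    ((∀ χ : IrrCharacter G, χ ∈ principalBlock Mp G → ¬ p ∣ charDegree (χ : G → ℂ) →
        ¬ q ∣ charDegree (χ : G → ℂ)) ∧
      (∀ χ : IrrCharacter G, χ ∈ principalBlock Mq G → ¬ q ∣ charDegree (χ : G → ℂ) →
        ¬ p ∣ charDegree (χ : G → ℂ))) ↔
    ∃ (P : Sylow p G) (Q : Sylow q G), ∀ x ∈ (P : Subgroup G), ∀ y ∈ (Q : Subgroup G), x * y = y * x := by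
  classical
  letI : Fintype G := Fintype.ofFinite _
  constructor
  · rintro ⟨h1, h2⟩
    have hH1 : TpHyp p q G := fun χ hχ hd =>
      h1 χ ((tp_mem_principalBlock_iff hMp hps χ).mpr hχ) hd
    have hH2 : TpHyp q p G := fun χ hχ hd =>
      h2 χ ((tp_mem_principalBlock_iff hMq hqs χ).mpr hχ) hd
    obtain ⟨h3, h4⟩ := tp_main hpq _ G rfl hps hqs hH1 hH2
    exact tp_lemC hpq h3 h4
  · rintro ⟨P, Q, hc⟩
    have h1 := tp_index_of_commuting hpq hps P Q hc
    have h2 := tp_index_of_commuting hpq.symm hqs Q P (fun x hx y hy => (hc y hy x hx).symm)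
    refine ⟨fun χ hχ => tp_hyp_of_index h1 χ ((tp_mem_principalBlock_iff hMp hps χ).mp hχ),
      fun χ hχ => tp_hyp_of_index h2 χ ((tp_mem_principalBlock_iff hMq hqs χ).mp hχ)⟩

/-- If the principal blocks have the same characters of degree prime to `p`, resp. `q`, then
`p = q`. -/
theorem tp_eq_of_same (hpG : p ∣ Nat.card G) (hps : IsPSolvable p G) (hqs : IsPSolvable q G)
    {Mp Mq : Ideal AlgInt} (hMp : IsPModular p Mp) (hMq : IsPModular q Mq)
    (h : ∀ χ : IrrCharacter G, (χ ∈ principalBlock Mp G ∧ ¬ p ∣ charDegree (χ : G → ℂ)) ↔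
      (χ ∈ principalBlock Mq G ∧ ¬ q ∣ charDegree (χ : G → ℂ))) : p = q := by
  classical
  by_contra hpq
  letI : Fintype G := Fintype.ofFinite _
  have hH1 : TpHyp p q G := fun χ hχ hd =>
    ((h χ).mp ⟨(tp_mem_principalBlock_iff hMp hps χ).mpr hχ, hd⟩).2
  have hH2 : TpHyp q p G := fun χ hχ hd =>
    ((h χ).mpr ⟨(tp_mem_principalBlock_iff hMq hqs χ).mpr hχ, hd⟩).2
  obtain ⟨h3, h4⟩ := tp_main hpq _ G rfl hps hqs hH1 hH2
  obtain ⟨P⟩ : Nonempty (Sylow p G) := inferInstance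
  haveI hYn : (pPrimeCore q G).Normal := Cfsg.Agent.Lib.Basic.pPrimeCore_normal q
  have hPY : (P : Subgroup G) ≤ pPrimeCore q G := tp_le_of_not_dvd_index P.isPGroup' h4
  set X : Subgroup G := pPrimeCore p G with hX
  haveI hXn : X.Normal := Cfsg.Agent.Lib.Basic.pPrimeCore_normal p
  let ρ : G →* G ⧸ X := QuotientGroup.mk' X
  have hρ : Function.Surjective ρ := QuotientGroup.mk'_surjective X
  have hρker : ρ.ker = X := QuotientGroup.ker_mk' X
  letI : Fintype (G ⧸ X) := Fintype.ofFinite _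
  let Pb : Sylow p (G ⧸ X) := P.mapSurjective hρ
  have hXc : ¬ p ∣ Nat.card X := by
    have h5 := Cfsg.Agent.Lib.Basic.pPrimeCore_coprime (G := G) p
    intro h6
    have h7 := Nat.dvd_gcd h6 (dvd_refl p)
    rw [hX, h5] at h7
    exact hp.out.one_lt.ne' (Nat.dvd_one.mp h7)
  have hPb1 : (Pb : Subgroup (G ⧸ X)) ≠ ⊥ := by
    intro hb
    apply P.ne_bot_of_dvd_card hpG
    rw [eq_bot_iff]
    intro x hx
    have h5 : ρ x ∈ (Pb : Subgroup (G ⧸ X)) := ⟨x, hx, rfl⟩
    rw [hb, Subgroup.mem_bot] at h5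
    have h6 : x ∈ X := by
      rw [← hρker]
      exact h5
    exact Subgroup.mem_bot.mpr (tp_eq_one_of_mem P.isPGroup' hXc hx h6)
  haveI hPbnt : Nontrivial (Pb : Subgroup (G ⧸ X)) := (Subgroup.nontrivial_iff_ne_bot _).mpr hPb1
  haveI hPbnil : Group.IsNilpotent (Pb : Subgroup (G ⧸ X)) := Pb.isPGroup'.isNilpotent
  obtain ⟨x, -, hx⟩ := SetLike.exists_of_lt
    (Group.IsSolvable.commutator_lt_top_of_nontrivial (Pb : Subgroup (G ⧸ X)))
  have hne : Abelianization.of x ≠ 1 := fun he => hx ((QuotientGroup.eq_one_iff x).mp he)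
  obtain ⟨ξ, hξ⟩ := CommGroup.exists_apply_ne_one_of_hasEnoughRootsOfUnity
    (Abelianization (Pb : Subgroup (G ⧸ X))) ℂ hne
  let τ : (Pb : Subgroup (G ⧸ X)) →* ℂˣ := ξ.comp Abelianization.of
  have hτx : τ x ≠ 1 := hξ
  have hτirr := isIrrCharacter_of_monoidHom τ
  letI : Fintype (Pb : Subgroup (G ⧸ X)) := Fintype.ofFinite _
  obtain ⟨χb, hχb, hχbp⟩ := tp_exists_over_not_dvd (p := p) (Pb : Subgroup (G ⧸ X))
    (IsIrrCharacter.isCharacter hτirr) (d := 1) (by simp) (by simpa using Pb.not_dvd_index)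
  let χ : IrrCharacter G := ⟨(χb : G ⧸ X → ℂ) ∘ ρ, isIrrCharacter_comp_surj ρ hρ χb.2⟩
  have hd : charDegree (χ : G → ℂ) = charDegree (χb : G ⧸ X → ℂ) :=
    tp_charDegree_comp ρ (IsIrrCharacter.isCharacter χb.2)
  have hχX : ∀ x ∈ pPrimeCore p G, (χ : G → ℂ) x = (χ : G → ℂ) 1 := by
    intro x hx
    have h5 : ρ x = 1 := by
      rw [← MonoidHom.mem_ker, hρker]
      exact hx
    show (χb : G ⧸ X → ℂ) (ρ x) = (χb : G ⧸ X → ℂ) (ρ 1)
    rw [h5, map_one]
  obtain ⟨hχq, -⟩ := (h χ).mp ⟨(tp_mem_principalBlock_iff hMp hps χ).mpr hχX, by rw [hd]; exact hχbp⟩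
  have hχY := (tp_mem_principalBlock_iff hMq hqs χ).mp hχq
  have hconst : ∀ z : (Pb : Subgroup (G ⧸ X)), (χb : G ⧸ X → ℂ) z = (χb : G ⧸ X → ℂ) 1 := by
    rintro ⟨_, y, hy, rfl⟩
    have h5 := hχY y (hPY hy)
    have h6 : (χ : G → ℂ) y = (χb : G ⧸ X → ℂ) (ρ y) := rfl
    have h7 : (χ : G → ℂ) 1 = (χb : G ⧸ X → ℂ) 1 := by
      show (χb : G ⧸ X → ℂ) (ρ 1) = _
      rw [map_one]
    rw [h6, h7] at h5
    exact h5
  apply hχb
  have h5 : (fun h : (Pb : Subgroup (G ⧸ X)) => (χb : G ⧸ X → ℂ) h) =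
      ((χb : G ⧸ X → ℂ) 1) • (fun _ : (Pb : Subgroup (G ⧸ X)) => (1 : ℂ)) := by
    funext z
    simp [hconst z]
  rw [h5, classInner_smul_left, classInner_irr_of_ne isIrrCharacter_one hτirr, mul_zero]
  intro he
  apply hτx
  apply Units.ext
  exact (congrFun he x).symm

end Final

end Cfsg.Agent.Lib.Blocks
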