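import Cfsg.Agent.Lib.Blocks.TwoPrimeA

/-! # Two primes: the lemma on `C_R(S)` normalizing a Sylow subgroup -/

set_option autoImplicit false
set_option linter.unusedSectionVars false
set_option linter.style.haveILetI false

namespace Cfsg.Agent.Lib.Blocks

open Cfsg Cfsg.Agent.Lib.Char Cfsg.Agent.Lib.H8Group Cfsg.Agent.Lib.Coprime Module

universe u

section

variable {Γ : Type u} [Group Γ] [Finite Γ]

/-- Ambient Clifford: the index of the stabilizer of a constituent divides the degree. -/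
theorem tp_relIndex_stab_dvd (R N : Subgroup Γ) [Fintype N] (hNG : N ≤ R)
    (hNn : ∀ g ∈ R, g ∈ Subgroup.normalizer (N : Set Γ)) (χ : IrrCharacter R) (θ : IrrCharacter N)
    (h : classInner (fun n : N => (χ : R → ℂ) ⟨n, hNG n.2⟩) (θ : N → ℂ) ≠ 0) :
    (stabSub N (θ : N → ℂ)).relIndex R ∣ charDegree (χ : R → ℂ) := by
  classical
  let _ : Fintype R := Fintype.ofFinite _
  let _ : Fintype (N.subgroupOf R) := Fintype.ofFinite _
  have hN' : (N.subgroupOf R).Normal := (Subgroup.normal_subgroupOf_iff_le_normalizer hNG).mpr hNn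
  rw [classInner_subgroupOf R N hNG] at h
  have hθ' := isIrrCharacter_comp_mulEquiv (Subgroup.subgroupOfEquivOfLe hNG) θ.2
  obtain ⟨e, he⟩ := exists_multiplicity (N := N.subgroupOf R) (IsIrrCharacter.isCharacter χ.2) hθ'
  have h1 := clifford_degree_nat (N := N.subgroupOf R) χ.2 hθ' h
    (apply_one_eq_charDegree (IsIrrCharacter.isCharacter χ.2))
    (apply_one_eq_charDegree (IsIrrCharacter.isCharacter hθ')) he
  have hle : inertia (N.subgroupOf R) ((θ : N → ℂ) ∘ Subgroup.subgroupOfEquivOfLe hNG) ≤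
      (stabSub N (θ : N → ℂ)).subgroupOf R := by
    intro r hr
    rw [mem_inertia] at hr
    rw [Subgroup.mem_subgroupOf]
    refine ⟨hNn r r.2, fun g g' hg => ?_⟩
    have h3 := congrFun hr ⟨⟨g', hNG g'.2⟩, g'.2⟩
    simp only [conjFun_apply, Function.comp_apply] at h3
    have h4 : ∀ (k : N) (x : N.subgroupOf R), ((x : R) : Γ) = (k : Γ) →
        (Subgroup.subgroupOfEquivOfLe hNG) x = k := fun k x hx => Subtype.ext hx
    rw [h4 g _ (by simp only [Subgroup.coe_mul, InvMemClass.coe_inv, hg]; group),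
      h4 g' _ rfl] at h3
    exact h3.symm
  have h2 := Subgroup.index_dvd_of_le hle
  have h6 : ((stabSub N (θ : N → ℂ)).subgroupOf R).index = (stabSub N (θ : N → ℂ)).relIndex R := rfl
  rw [h6] at h2
  rw [h1]
  exact Dvd.dvd.mul_right (Dvd.dvd.mul_left h2 _) _

/-- A `q`-group normalizing the `q'`-subgroup `C` and fixing its irreducible characters
centralizes `C`. -/
theorem tp_commute_of_invBy {q : ℕ} [Fact q.Prime] (C T : Subgroup Γ) [Fintype C]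
    (hn : T ≤ Subgroup.normalizer (C : Set Γ)) (hq : IsPGroup q T) (hC : ¬ q ∣ Nat.card C)
    (hinv : ∀ θ : IrrCharacter C, InvBy T (θ : C → ℂ)) : ∀ u ∈ T, ∀ z ∈ C, u * z = z * u := by
  classical
  let L : Subgroup Γ := Subgroup.normalizer (C : Set Γ)
  have hCL : C ≤ L := Subgroup.le_normalizer
  have hTL : T ≤ L := hn
  let _ : Fintype L := Fintype.ofFinite _
  let _ : Fintype (C.subgroupOf L) := Fintype.ofFinite _
  haveI hN' : (C.subgroupOf L).Normal :=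
    (Subgroup.normal_subgroupOf_iff_le_normalizer hCL).mpr (fun g hg => hg)
  let e := Subgroup.subgroupOfEquivOfLe hCL
  have hcard : Nat.card (C.subgroupOf L) = Nat.card C := Nat.card_congr e.toEquiv
  have hP : IsPGroup q (T.subgroupOf L) := by
    rw [IsPGroup.iff_card]
    obtain ⟨k, hk⟩ := IsPGroup.iff_card.mp hq
    exact ⟨k, by rw [← hk]; exact Nat.card_congr (Subgroup.subgroupOfEquivOfLe hTL).toEquiv⟩
  have key := Cfsg.Agent.Lib.Char.commute_of_le_inertia (C.subgroupOf L) (T.subgroupOf L) hP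
    (by rw [hcard]; exact hC) (by
      intro θ u hu
      rw [mem_inertia]
      funext n
      let θ' : IrrCharacter C := ⟨(θ : C.subgroupOf L → ℂ) ∘ e.symm, isIrrCharacter_comp_mulEquiv e.symm θ.2⟩
      have h1 := hinv θ' ((u : Γ)⁻¹) (T.inv_mem hu) (e n)
        (e ⟨u⁻¹ * n * u, hN'.conj_mem' n n.2 u⟩) (by
          simp [e, Subgroup.subgroupOfEquivOfLe])
      simp only [θ', Function.comp_apply, MulEquiv.symm_apply_apply] at h1
      simpa [conjFun_apply] using h1)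
  intro u hu z hz
  have := key ⟨u, hTL hu⟩ hu ⟨z, hCL hz⟩ hz
  simpa using congrArg Subtype.val this

theorem tp_mem_normalizer_of_normal {H : Subgroup Γ} (hH : H.Normal) (t : Γ) :
    t ∈ Subgroup.normalizer (H : Set Γ) := by
  rw [Subgroup.mem_normalizer_iff]
  intro h
  exact ⟨fun hh => hH.conj_mem h hh t, fun hh => by
    have := hH.conj_mem _ hh t⁻¹
    simpa [mul_assoc] using this⟩

theorem tp_mem_normalizer_of_comm {H : Subgroup Γ} {t : Γ} (h : ∀ y ∈ H, t * y = y * t) :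
    t ∈ Subgroup.normalizer (H : Set Γ) := by
  rw [Subgroup.mem_normalizer_iff]
  intro y
  have h1 : ∀ y ∈ H, t * y * t⁻¹ = y := fun y hy => by rw [h y hy]; group
  constructor
  · intro hy
    rw [h1 y hy]
    exact hy
  · intro hy
    have h2 := h1 _ hy
    have h5 : t * y * t⁻¹ = y := by
      have h6 := congrArg (fun z => t⁻¹ * z * t) h2
      simpa [mul_assoc] using h6
    rw [h5] at hy
    exact hy

theorem tp_isPGroup_card_coprime {p : ℕ} [hp : Fact p.Prime] {S : Subgroup Γ} (hS : IsPGroup p S) {n : ℕ}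
    (hn : ¬ p ∣ n) : Nat.Coprime n (Nat.card S) := by
  obtain ⟨k, hk⟩ := IsPGroup.iff_card.mp hS
  rw [hk]
  exact Nat.Coprime.pow_right _ ((Nat.Prime.coprime_iff_not_dvd hp.out).mpr hn).symm

/-- The coprime action of a `p`-group. -/
theorem tp_coprimeAction {p : ℕ} [hp : Fact p.Prime] {S R : Subgroup Γ} (hS : IsPGroup p S)
    (hRp : ¬ p ∣ Nat.card R) (hn : S ≤ Subgroup.normalizer (R : Set Γ)) : CoprimeAction S R := by
  haveI : Group.IsNilpotent S := IsPGroup.isNilpotent hS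
  exact ⟨hn, (tp_isPGroup_card_coprime hS hRp).symm, Or.inl inferInstance⟩

/-- Claim A: `S`-invariant characters of `R₀` are invariant under `Q₁`. -/
theorem tp_lemQ_claimA {p q : ℕ} [Fact p.Prime] [Fact q.Prime]
    (R R₀ S Q₁ : Subgroup Γ) (hRn : R.Normal) (hR₀n : R₀.Normal) (hR₀R : R₀ ≤ R)
    (hS : IsPGroup p S) (hRp : ¬ p ∣ Nat.card R)
    (hQ₁ : IsSylowOf q Q₁ R) (hcomm : ∀ s ∈ S, ∀ y ∈ Q₁, s * y = y * s)
    (hdeg : ∀ χ : IrrCharacter R, InvBy S (χ : R → ℂ) → ¬ q ∣ charDegree (χ : R → ℂ))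
    (hres : ∀ c ∈ R, (∀ s ∈ S, c * s = s * c) → ∀ y ∈ Q₁, ∃ y' ∈ Q₁, ∃ r ∈ R₀, c * y * c⁻¹ = y' * r)
    [Fintype R₀] (β : IrrCharacter R₀) (hβ : InvBy S (β : R₀ → ℂ)) : InvBy Q₁ (β : R₀ → ℂ) := by
  classical
  haveI : Group.IsNilpotent S := IsPGroup.isNilpotent hS
  have hcop := tp_isPGroup_card_coprime hS hRp
  have hnR : ∀ t, t ∈ Subgroup.normalizer (R : Set Γ) := tp_mem_normalizer_of_normal hRn
  have hnR₀ : ∀ t, t ∈ Subgroup.normalizer (R₀ : Set Γ) := tp_mem_normalizer_of_normal hR₀n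
  obtain ⟨χ, hχ, hχS⟩ := exists_invariant_over S (Nat.card R) R R₀ rfl (fun t _ => hnR t) hR₀R
    (fun g _ => hnR₀ g) (fun t _ => hnR₀ t) hcop β hβ
  have hq1 : ¬ q ∣ (stabSub R₀ (β : R₀ → ℂ)).relIndex R := fun h =>
    hdeg χ hχS (h.trans (tp_relIndex_stab_dvd R R₀ hR₀R (fun g _ => hnR₀ g) χ β hχ))
  have hSstab : S ≤ stabSub R₀ (β : R₀ → ℂ) := (invBy_iff_le (fun t _ => hnR₀ t) _).mp hβ
  have hR₀stab : R₀ ≤ stabSub R₀ (β : R₀ → ℂ) := by
    intro r hr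
    refine ⟨hnR₀ r, fun g g' hg => ?_⟩
    have hc := IsCharacter.isClassFunction (IsIrrCharacter.isCharacter β.2) g ⟨r, hr⟩
    have : g' = (⟨r, hr⟩ : R₀) * g * (⟨r, hr⟩ : R₀)⁻¹ := Subtype.ext hg
    rw [this]
    exact hc
  set T : Subgroup Γ := R ⊓ stabSub R₀ (β : R₀ → ℂ) with hT
  have hTR : T ≤ R := inf_le_left
  have hSR : CoprimeAction S R := tp_coprimeAction hS hRp (fun t _ => hnR t)
  have hSnT : S ≤ Subgroup.normalizer (T : Set Γ) := by
    intro s hs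
    rw [Subgroup.mem_normalizer_iff]
    intro x
    have hs' := hSstab hs
    constructor
    · rintro ⟨hx1, hx2⟩
      exact ⟨hRn.conj_mem x hx1 s, (stabSub R₀ (β : R₀ → ℂ)).mul_mem
        ((stabSub R₀ (β : R₀ → ℂ)).mul_mem hs' hx2) ((stabSub R₀ (β : R₀ → ℂ)).inv_mem hs')⟩
    · rintro ⟨hx1, hx2⟩
      have h1 : x = s⁻¹ * (s * x * s⁻¹) * s := by group
      rw [h1]
      refine ⟨?_, (stabSub R₀ (β : R₀ → ℂ)).mul_mem
        ((stabSub R₀ (β : R₀ → ℂ)).mul_mem ((stabSub R₀ (β : R₀ → ℂ)).inv_mem hs') hx2) hs'⟩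
      have := hRn.conj_mem _ hx1 s⁻¹
      simpa using this
  have hST : CoprimeAction S T := hSR.mono hTR hSnT
  obtain ⟨P₂, hP₂, hSP₂⟩ := hST.exists_invariant_sylow q
  have hP₂le : P₂ ≤ R := hP₂.le.trans hTR
  have hP₂R : IsSylowOf q P₂ R := by
    refine ⟨hP₂le, hP₂.isP, ?_⟩
    rw [← Subgroup.relIndex_mul_relIndex P₂ T R hP₂.le hTR]
    intro hd
    rcases (Nat.Prime.dvd_mul Fact.out).mp hd with h | h
    · exact hP₂.not_dvd h
    · apply hq1
      rwa [hT, Subgroup.inf_relIndex_left] at h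
  have hSQ₁ : S ≤ Subgroup.normalizer (Q₁ : Set Γ) := fun s hs =>
    tp_mem_normalizer_of_comm (hcomm s hs)
  obtain ⟨c', hc', hP₂eq⟩ := hSR.exists_centralizer_conj_of_sylow hQ₁ hP₂R hSQ₁ hSP₂
  have hc'1 : c' ∈ R := (Subgroup.mem_inf.mp hc').1
  have hc'2 : ∀ s ∈ S, c' * s = s * c' := fun s hs =>
    ((Subgroup.mem_centralizer_iff.mp (Subgroup.mem_inf.mp hc').2 s hs)).symm
  set L : Subgroup Γ := Q₁ ⊔ R₀ with hL
  have hLR : L ≤ R := sup_le hQ₁.le hR₀R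
  have hQL : Q₁ ≤ L := le_sup_left
  have hPL : P₂ ≤ L := by
    rw [hP₂eq]
    rintro _ ⟨y, hy, rfl⟩
    obtain ⟨y', hy', r, hr, he⟩ := hres c' hc'1 hc'2 y hy
    have h3 : (MulAut.conj c').toMonoidHom y = c' * y * c'⁻¹ := rfl
    rw [h3, he]
    exact L.mul_mem (Subgroup.mem_sup_left hy') (Subgroup.mem_sup_right hr)
  have hsyl : ∀ P : Subgroup Γ, IsSylowOf q P R → P ≤ L → IsSylowOf q P L := by
    intro P hP hPL
    refine ⟨hPL, hP.isP, fun h => hP.not_dvd ?_⟩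
    rw [← Subgroup.relIndex_mul_relIndex P L R hPL hLR]
    exact Dvd.dvd.mul_right h _
  obtain ⟨g, hg, hgeq⟩ := (hsyl Q₁ hQ₁ hQL).exists_conj (hsyl P₂ hP₂R hPL)
  rw [hL, Subgroup.mem_sup_of_normal_right] at hg
  obtain ⟨u, hu, r₁, hr₁, rfl⟩ := hg
  refine (invBy_iff_le (fun t _ => hnR₀ t) _).mpr ?_
  intro y hy
  have hw : u⁻¹ * y * u ∈ Q₁ := Q₁.mul_mem (Q₁.mul_mem (Q₁.inv_mem hu) hy) hu
  have hr₂ : u * r₁ * u⁻¹ ∈ R₀ := hR₀n.conj_mem r₁ hr₁ u
  have h1 : (u * r₁ * u⁻¹) * y * (u * r₁ * u⁻¹)⁻¹ ∈ P₂ := by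
    rw [hgeq]
    refine ⟨u⁻¹ * y * u, hw, ?_⟩
    show (u * r₁) * (u⁻¹ * y * u) * (u * r₁)⁻¹ = _
    group
  have h2 : (u * r₁ * u⁻¹) * y * (u * r₁ * u⁻¹)⁻¹ ∈ stabSub R₀ (β : R₀ → ℂ) :=
    (Subgroup.mem_inf.mp (hP₂.le h1)).2
  have h3 := (stabSub R₀ (β : R₀ → ℂ)).mul_mem ((stabSub R₀ (β : R₀ → ℂ)).mul_mem
    ((stabSub R₀ (β : R₀ → ℂ)).inv_mem (hR₀stab hr₂)) h2) (hR₀stab hr₂)
  have h4 : (u * r₁ * u⁻¹)⁻¹ * ((u * r₁ * u⁻¹) * y * (u * r₁ * u⁻¹)⁻¹) * (u * r₁ * u⁻¹) = y := by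
    group
  rwa [h4] at h3

/-- The core of the lemma, for a normal `q'`-subgroup. -/
theorem tp_lemQ_core {p q : ℕ} [Fact p.Prime] [Fact q.Prime]
    (R R₀ S Q₁ : Subgroup Γ) (hRn : R.Normal) (hR₀n : R₀.Normal) (hR₀R : R₀ ≤ R)
    (hS : IsPGroup p S) (hRp : ¬ p ∣ Nat.card R) (hR₀q : ¬ q ∣ Nat.card R₀)
    (hQ₁ : IsSylowOf q Q₁ R) (hcomm : ∀ s ∈ S, ∀ y ∈ Q₁, s * y = y * s)
    (hdeg : ∀ χ : IrrCharacter R, InvBy S (χ : R → ℂ) → ¬ q ∣ charDegree (χ : R → ℂ))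
    (hres : ∀ c ∈ R, (∀ s ∈ S, c * s = s * c) → ∀ y ∈ Q₁, ∃ y' ∈ Q₁, ∃ r ∈ R₀, c * y * c⁻¹ = y' * r) :
    ∀ c ∈ R, (∀ s ∈ S, c * s = s * c) → ∀ y ∈ Q₁, c * y * c⁻¹ ∈ Q₁ := by
  classical
  letI : Fintype R₀ := Fintype.ofFinite _
  set C₀ : Subgroup Γ := R₀ ⊓ Subgroup.centralizer (S : Set Γ) with hC₀
  letI : Fintype C₀ := Fintype.ofFinite _
  have hC₀R₀ : C₀ ≤ R₀ := inf_le_left
  have hnR₀ : ∀ t, t ∈ Subgroup.normalizer (R₀ : Set Γ) := tp_mem_normalizer_of_normal hR₀n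
  have hRp₀ : ¬ p ∣ Nat.card R₀ := fun h => hRp (h.trans (Subgroup.card_dvd_of_le hR₀R))
  have hcop := tp_isPGroup_card_coprime hS hRp₀
  have hA := tp_lemQ_claimA R R₀ S Q₁ hRn hR₀n hR₀R hS hRp hQ₁ hcomm hdeg hres
  have hQcent : ∀ y ∈ Q₁, y ∈ Subgroup.centralizer (S : Set Γ) := fun y hy =>
    Subgroup.mem_centralizer_iff.mpr fun s hs => hcomm s hs y hy
  have hnC : ∀ t ∈ Q₁, t ∈ Subgroup.normalizer (C₀ : Set Γ) := by
    intro t ht
    have key : ∀ t ∈ Q₁, ∀ x ∈ C₀, t * x * t⁻¹ ∈ C₀ := by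
      intro t ht x hx
      refine ⟨hR₀n.conj_mem x hx.1 t, ?_⟩
      exact Subgroup.mul_mem _ (Subgroup.mul_mem _ (hQcent t ht) hx.2)
        (Subgroup.inv_mem _ (hQcent t ht))
    rw [Subgroup.mem_normalizer_iff]
    intro x
    refine ⟨key t ht x, fun hx => ?_⟩
    have := key t⁻¹ (Q₁.inv_mem ht) _ hx
    simpa [mul_assoc] using this
  have hB : ∀ θ : IrrCharacter C₀, InvBy Q₁ (θ : C₀ → ℂ) := by
    intro θ
    obtain ⟨χ₀, hχ₀S, hrel⟩ := (p_corr (Nat.card S) S rfl hS R₀ C₀ (fun t _ => hnR₀ t) hcop hC₀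
      hC₀R₀).2.2 θ
    exact corrRel_invBy_right (Fact.out : p.Prime) (fun t _ => hnR₀ t) hnC (hA χ₀ hχ₀S) hrel
  have hC₀q : ¬ q ∣ Nat.card C₀ := fun h => hR₀q (h.trans (Subgroup.card_dvd_of_le hC₀R₀))
  have hC := tp_commute_of_invBy C₀ Q₁ hnC hQ₁.isP hC₀q hB
  intro c hc hcS y hy
  obtain ⟨y', hy', r, hr, he⟩ := hres c hc hcS y hy
  have hrS : r ∈ Subgroup.centralizer (S : Set Γ) := by
    have h1 : r = y'⁻¹ * (c * y * c⁻¹) := by rw [he]; group
    rw [h1]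
    refine Subgroup.mul_mem _ (Subgroup.inv_mem _ (hQcent y' hy')) ?_
    have hcc : c ∈ Subgroup.centralizer (S : Set Γ) :=
      Subgroup.mem_centralizer_iff.mpr fun s hs => (hcS s hs).symm
    exact Subgroup.mul_mem _ (Subgroup.mul_mem _ hcc (hQcent y hy)) (Subgroup.inv_mem _ hcc)
  have hrC : r ∈ C₀ := ⟨hr, hrS⟩
  have hcm : Commute y' r := hC y' hy' r hrC
  have hpow : ∀ z ∈ Q₁, z ^ Nat.card Q₁ = 1 := by
    intro z hz
    have h2 := congrArg Subtype.val (pow_card_eq_one' (x := (⟨z, hz⟩ : Q₁)))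
    simp only [SubmonoidClass.coe_pow, OneMemClass.coe_one] at h2
    exact h2
  have hr1 : r ^ Nat.card Q₁ = 1 := by
    have h2 : (c * y * c⁻¹) ^ Nat.card Q₁ = 1 := by
      rw [conj_pow, hpow y hy]
      group
    rw [he, hcm.mul_pow, hpow y' hy', one_mul] at h2
    exact h2
  have hr2 : r ^ Nat.card R₀ = 1 := by
    have h2 := congrArg Subtype.val (pow_card_eq_one' (x := (⟨r, hr⟩ : R₀)))
    simp only [SubmonoidClass.coe_pow, OneMemClass.coe_one] at h2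
    exact h2
  have hcop2 : Nat.Coprime (Nat.card R₀) (Nat.card Q₁) := tp_isPGroup_card_coprime hQ₁.isP hR₀q
  have hr3 : orderOf r ∣ 1 := by
    rw [← hcop2]
    exact Nat.dvd_gcd (orderOf_dvd_of_pow_eq_one hr2) (orderOf_dvd_of_pow_eq_one hr1)
  have hr4 : r = 1 := orderOf_eq_one_iff.mp (Nat.dvd_one.mp hr3)
  rw [he, hr4, mul_one]
  exact hy'

theorem tp_charDegree_comp {A B : Type*} [Group A] [Group B] [Finite B] (f : A →* B) {χ : B → ℂ}
    (hχ : IsCharacter B χ) : charDegree (χ ∘ f) = charDegree χ := by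
  classical
  letI : Fintype B := Fintype.ofFinite _
  apply charDegree_eq
  rw [Function.comp_apply, map_one]
  exact apply_one_eq_charDegree hχ

/-- A nontrivial normal `q`-solvable subgroup contains a nontrivial `Γ`-normal `q`-subgroup or
`q'`-subgroup. -/
theorem tp_exists_normal_sub {q : ℕ} [Fact q.Prime] (R : Subgroup Γ) (hRn : R.Normal)
    (hsolv : IsPSolvable q R) (hne : R ≠ ⊥) :
    ∃ R₀ : Subgroup Γ, R₀.Normal ∧ R₀ ≤ R ∧ R₀ ≠ ⊥ ∧ (IsPGroup q R₀ ∨ ¬ q ∣ Nat.card R₀) := by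
  haveI : Nontrivial R := (Subgroup.nontrivial_iff_ne_bot R).mpr hne
  obtain ⟨N, hN, hN1, hor⟩ := IsPSolvable_exists_normal hsolv
  have hsub : ∀ K : Subgroup R, K ≠ ⊥ → K.map R.subtype ≠ ⊥ := by
    intro K hK h
    exact hK ((Subgroup.map_eq_bot_iff_of_injective K R.subtype_injective).mp h)
  have hle : ∀ K : Subgroup R, K.map R.subtype ≤ R := by
    rintro K _ ⟨x, -, rfl⟩
    exact x.2
  rcases hor with hp | hc
  · haveI : (Cfsg.pCore q R).Characteristic := Cfsg.Agent.Lib.Basic.pCore_characteristic q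
    refine ⟨(Cfsg.pCore q R).map R.subtype, inferInstance, hle _, hsub _ ?_,
      Or.inl ((Cfsg.Agent.Lib.Basic.pCore_isPGroup q).map R.subtype)⟩
    intro h
    exact hN1 (le_bot_iff.mp (h ▸ Cfsg.Agent.Lib.Basic.le_pCore hN hp))
  · haveI : (Cfsg.pPrimeCore q R).Characteristic := Cfsg.Agent.Lib.Basic.pPrimeCore_characteristic q
    refine ⟨(Cfsg.pPrimeCore q R).map R.subtype, inferInstance, hle _, hsub _ ?_, Or.inr ?_⟩
    · intro h
      exact hN1 (le_bot_iff.mp (h ▸ Cfsg.Agent.Lib.Basic.le_pPrimeCore hN hc))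
    · rw [Subgroup.card_map_of_injective R.subtype_injective]
      have h1 := Cfsg.Agent.Lib.Basic.pPrimeCore_coprime (G := R) q
      intro h2
      have h3 := Nat.dvd_gcd h2 (dvd_refl q)
      rw [h1] at h3
      exact (Fact.out : q.Prime).one_lt.ne' (Nat.dvd_one.mp h3)

end

/-- **The lemma.** `C_R(S)` normalizes a Sylow `q`-subgroup of `R` centralized by `S`, when every
`S`-invariant irreducible character of `R` has degree prime to `q`. -/
theorem tp_lemQ {p q : ℕ} [Fact p.Prime] [Fact q.Prime] :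
    ∀ (n : ℕ) (Γ : Type u) [Group Γ] [Finite Γ] (R S Q₁ : Subgroup Γ) (hRn : R.Normal),
      Nat.card R = n → IsPGroup p S → ¬ p ∣ Nat.card R → IsPSolvable q R → IsSylowOf q Q₁ R →
      (∀ s ∈ S, ∀ y ∈ Q₁, s * y = y * s) →
      (∀ χ : IrrCharacter R, InvBy S (χ : R → ℂ) → ¬ q ∣ charDegree (χ : R → ℂ)) →
      ∀ c ∈ R, (∀ s ∈ S, c * s = s * c) → ∀ y ∈ Q₁, c * y * c⁻¹ ∈ Q₁ := by
  classical
  intro n
  induction n using Nat.strong_induction_on with
  | _ n ih =>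
  intro Γ _ _ R S Q₁ hRn hcard hS hRp hsolv hQ₁ hcomm hdeg
  by_cases hR : R = ⊥
  · intro c hc _ y hy
    have h1 : c = 1 := by
      rw [hR] at hc
      exact Subgroup.mem_bot.mp hc
    have h2 : y ∈ R := hQ₁.le hy
    rw [hR] at h2
    rw [h1, Subgroup.mem_bot.mp h2]
    simp
  obtain ⟨R₀, hR₀n, hR₀R, hR₀ne, hor⟩ := tp_exists_normal_sub R hRn hsolv hR
  haveI := hR₀n
  let π : Γ →* Γ ⧸ R₀ := QuotientGroup.mk' R₀
  have hπ : Function.Surjective π := QuotientGroup.mk'_surjective R₀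
  have hker : π.ker = R₀ := QuotientGroup.ker_mk' R₀
  let f : R →* R.map π := π.subgroupMap R
  have hf : Function.Surjective f := π.subgroupMap_surjective R
  have hcardlt : Nat.card (R.map π) < n := by
    have h1 : R₀.relIndex R = Nat.card (R.map π) := by
      calc R₀.relIndex R = π.ker.relIndex R := by rw [hker]
        _ = _ := Subgroup.relIndex_ker (K := R) π
    have h2 := card_mul_relIndex hR₀R
    rw [h1, hcard] at h2
    have h3 : 1 < Nat.card R₀ := by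
      haveI : Nontrivial R₀ := (Subgroup.nontrivial_iff_ne_bot R₀).mpr hR₀ne
      exact Finite.one_lt_card
    have h4 : 0 < Nat.card (R.map π) := Nat.card_pos
    rw [← h2]
    nlinarith
  have IH := ih _ hcardlt (Γ ⧸ R₀) (R.map π) (S.map π) (Q₁.map π) (hRn.map π hπ) rfl
    (hS.map π)
    (fun h => hRp (h.trans (Subgroup.card_dvd_of_surjective f hf)))
    (isPSolvable_map f hf hsolv)
    ⟨Subgroup.map_mono hQ₁.le, hQ₁.isP.map π,
      fun h => hQ₁.not_dvd (h.trans (relIndex_map_dvd π hQ₁.le))⟩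
    (by
      rintro _ ⟨s, hs, rfl⟩ _ ⟨y, hy, rfl⟩
      rw [← map_mul, ← map_mul, hcomm s hs y hy])
    (by
      intro χ hχ
      letI : Fintype R := Fintype.ofFinite _
      letI : Fintype (R.map π) := Fintype.ofFinite _
      let χ' : IrrCharacter R := ⟨(χ : R.map π → ℂ) ∘ f, isIrrCharacter_comp_surj f hf χ.2⟩
      have h1 : charDegree (χ' : R → ℂ) = charDegree (χ : R.map π → ℂ) :=
        tp_charDegree_comp f (IsIrrCharacter.isCharacter χ.2)
      rw [← h1]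
      apply hdeg χ'
      intro s hs g g' hg
      refine hχ (π s) ⟨s, hs, rfl⟩ (f g) (f g') ?_
      show π (g' : Γ) = π s * π (g : Γ) * (π s)⁻¹
      rw [hg, map_mul, map_mul, map_inv])
  have hres : ∀ c ∈ R, (∀ s ∈ S, c * s = s * c) → ∀ y ∈ Q₁,
      ∃ y' ∈ Q₁, ∃ r ∈ R₀, c * y * c⁻¹ = y' * r := by
    intro c hc hcS y hy
    have h1 := IH (π c) ⟨c, hc, rfl⟩ (by
      rintro _ ⟨s, hs, rfl⟩
      rw [← map_mul, ← map_mul, hcS s hs]) (π y) ⟨y, hy, rfl⟩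
    obtain ⟨y', hy', he⟩ := h1
    refine ⟨y', hy', y'⁻¹ * (c * y * c⁻¹), ?_, by group⟩
    have h2 : π y' = π (c * y * c⁻¹) := by
      rw [he, map_mul, map_mul, map_inv]
    exact QuotientGroup.eq.mp h2
  rcases hor with hq | hq
  · -- `R₀` is a normal `q`-subgroup
    have hT : IsPGroup q (Q₁ ⊔ R₀ : Subgroup Γ) := hQ₁.isP.to_sup_of_normal_right hq
    have h1 : Q₁ ⊔ R₀ = Q₁ :=
      eq_of_isPGroup_of_not_dvd_relIndex le_sup_left (sup_le hQ₁.le hR₀R) hT hQ₁.not_dvd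
    have hR₀Q : R₀ ≤ Q₁ := sup_eq_left.mp h1
    intro c hc hcS y hy
    obtain ⟨y', hy', r, hr, he⟩ := hres c hc hcS y hy
    rw [he]
    exact Q₁.mul_mem hy' (hR₀Q hr)
  · exact tp_lemQ_core R R₀ S Q₁ hRn hR₀n hR₀R hS hRp hq hQ₁ hcomm hdeg hres

end Cfsg.Agent.Lib.Blocks
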